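import Mathlib
import Cfsg.Agent.Lib.Helper87.MetaCyc
import Cfsg.Agent.Lib.Helper24.ClassTwo
import Cfsg.Agent.Lib.Helper2.FrattiniP
import Cfsg.Agent.Lib.Helper85.PearlGrp
import Cfsg.Agent.Lib.Helper42.EssP4b
import Cfsg.Agent.S0016

set_option autoImplicit false

/-!
Metacyclic `p`-groups, `p` odd, without a cyclic subgroup of index `p`: the elements of order
dividing `p` form a subgroup `W` of order `p ^ 2`, those with `g ^ (p ^ 2) = 1` a subgroup `L₂`
of order `p ^ 4`, `W` is central in `L₂`, and `g ↦ g ^ p` is a homomorphism of `L₂` onto `W`.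
-/

namespace Cfsg.Agent.Lib.Helper42.MetaOm

open Cfsg Cfsg.Agent.Lib

universe u

section basic

variable {L : Type u} [Group L] [Finite L] {p : ℕ} [Fact p.Prime]

/-- A surjective image of a metacyclic group is metacyclic. -/
theorem metacyclic_of_surj {G H : Type*} [Group G] [Group H] (f : G →* H)
    (hf : Function.Surjective f) (hm : Cfsg.IsMetacyclic G) : Cfsg.IsMetacyclic H := by
  obtain ⟨N, hNn, hNc, hQc⟩ := hm
  have hn' : (N.map f).Normal := hNn.map f hf
  refine ⟨N.map f, hn', ?_, ?_⟩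
  · exact isCyclic_of_surjective (f.subgroupMap N) (f.subgroupMap_surjective N)
  · have hle : N ≤ (N.map f).comap f := Subgroup.le_comap_map f N
    refine isCyclic_of_surjective (QuotientGroup.map N (N.map f) f hle) ?_
    intro q
    obtain ⟨h, rfl⟩ := QuotientGroup.mk_surjective q
    obtain ⟨g, rfl⟩ := hf h
    exact ⟨(g : G ⧸ N), rfl⟩

/-- the elements of order dividing `p` of a metacyclic `p`-group (`p` odd) form a subgroup
of order at most `p ^ 2`. -/
theorem exists_omega (hp : p ≠ 2) (hL : IsPGroup p L) (hmc : Cfsg.IsMetacyclic L) :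
    ∃ W : Subgroup L, (∀ x, x ∈ W ↔ x ^ p = 1) ∧ Nat.card W ≤ p ^ 2 := by
  obtain ⟨-, hmul, -, hcard⟩ := Helper87.metacyclic_omega hL hp hmc
  refine ⟨{ carrier := {x | x ^ p = 1}
            mul_mem' := fun {x y} hx hy => hmul x y hx hy
            one_mem' := one_pow p
            inv_mem' := fun {x} hx => by
              show (x⁻¹) ^ p = 1
              rw [inv_pow, hx, inv_one] }, fun x => Iff.rfl, hcard⟩

/-- a noncyclic `p`-group, `p` odd, has two distinct subgroups of order `p`; so if the elements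
of order dividing `p` form a subgroup `W` of order at most `p ^ 2`, then `|W| = p ^ 2`. -/
theorem card_omega_of_not_cyclic (hp : p ≠ 2) (hL : IsPGroup p L) (hncyc : ¬ IsCyclic L)
    (W : Subgroup L) (hW : ∀ x, x ∈ W ↔ x ^ p = 1) (hWc : Nat.card W ≤ p ^ 2) :
    Nat.card W = p ^ 2 := by
  have hpp : p.Prime := Fact.out
  have h1 : ¬ ∀ H K : Subgroup L, Nat.card H = p → Nat.card K = p → H = K := by
    intro huniq
    rcases Cfsg.Agent.S0016.result p hL huniq with h | ⟨h, -⟩
    · exact hncyc h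
    · exact hp h
  push Not at h1
  obtain ⟨H, K, hH, hK, hne⟩ := h1
  have hle : ∀ A : Subgroup L, Nat.card A = p → A ≤ W := by
    intro A hA x hx
    rw [hW]
    have h2 : (⟨x, hx⟩ : A) ^ Nat.card A = 1 := pow_card_eq_one'
    rw [hA] at h2
    exact congrArg Subtype.val h2
  have hlt : H < H ⊔ K := by
    refine lt_of_le_of_ne le_sup_left ?_
    intro h
    have hKH : K ≤ H := le_sup_right.trans h.ge
    exact hne (Subgroup.eq_of_le_of_card_ge hKH (by rw [hH, hK])).symm
  have h3 := EssP4.card_ge_mul_of_lt hL hlt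
  have h4 : Nat.card (H ⊔ K : Subgroup L) ≤ Nat.card W :=
    Subgroup.card_le_of_le (sup_le (hle H hH) (hle K hK))
  rw [hH] at h3
  apply le_antisymm hWc
  calc p ^ 2 = p * p := sq p
    _ ≤ Nat.card (H ⊔ K : Subgroup L) := h3
    _ ≤ Nat.card W := h4

theorem not_isCyclic (hL : IsPGroup p L) (hnc : ∀ C : Subgroup L, IsCyclic C → C.index ≠ p)
    (hnt : Nontrivial L) : ¬ IsCyclic L := by
  intro hcyc
  haveI := hcyc
  obtain ⟨M, hM⟩ : ∃ M : Subgroup L, IsCoatom M := by
    rcases IsCoatomic.eq_top_or_exists_le_coatom (⊥ : Subgroup L) with h | ⟨M, hM, -⟩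
    · exfalso
      obtain ⟨x, hx⟩ := exists_ne (1 : L)
      have h1 : x ∈ (⊥ : Subgroup L) := h ▸ Subgroup.mem_top x
      exact hx (Subgroup.mem_bot.1 h1)
    · exact ⟨M, hM⟩
  exact hnc M inferInstance (Helper2.coatom_index hL hM)

/-- `Ω₁` lies in the Frattini subgroup. -/
theorem omega_le_frattini (hp : p ≠ 2) (hL : IsPGroup p L)
    (hnc : ∀ C : Subgroup L, IsCyclic C → C.index ≠ p)
    (W : Subgroup L) (hW : ∀ x, x ∈ W ↔ x ^ p = 1) (hWc : Nat.card W = p ^ 2) :
    W ≤ frattini L := by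
  have hpp : p.Prime := Fact.out
  intro w hw
  rw [Helper2.mem_frattini_iff]
  intro M hM
  by_contra hwM
  have hidx := Helper2.coatom_index hL hM
  have hlt : W ⊓ M < W := by
    refine lt_of_le_of_ne inf_le_left ?_
    intro h
    exact hwM (h.ge hw).2
  have h1 := EssP4.card_ge_mul_of_lt hL hlt
  rw [hWc] at h1
  have h2 : Nat.card (W ⊓ M : Subgroup L) ≤ p := by
    have h3 : p * Nat.card (W ⊓ M : Subgroup L) ≤ p * p := by
      rw [← sq]
      exact h1
    exact Nat.le_of_mul_le_mul_left h3 hpp.pos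
  have huniq : ∀ H K : Subgroup M, Nat.card H = p → Nat.card K = p → H = K := by
    have key : ∀ H : Subgroup M, Nat.card H = p → H.map M.subtype = W ⊓ M := by
      intro H hH
      have hcard : Nat.card (H.map M.subtype) = p := by
        rw [Subgroup.card_map_of_injective M.subtype_injective, hH]
      apply Subgroup.eq_of_le_of_card_ge
      · rintro _ ⟨x, hx, rfl⟩
        refine ⟨(hW _).2 ?_, x.2⟩
        have h3 : (⟨x, hx⟩ : H) ^ Nat.card H = 1 := pow_card_eq_one'
        rw [hH] at h3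
        have h4 := congrArg (fun t : H => ((t : M) : L)) h3
        simpa using h4
      · rw [hcard]
        exact h2
    intro H K hH hK
    exact Subgroup.map_injective M.subtype_injective ((key H hH).trans (key K hK).symm)
  rcases Cfsg.Agent.S0016.result p (hL.to_subgroup M) huniq with h | ⟨h, -⟩
  · exact hnc M h hidx
  · exact hp h

theorem quotient_not_cyclic (hncyc : ¬ IsCyclic L) (W : Subgroup L) [W.Normal]
    (hWF : W ≤ frattini L) : ¬ IsCyclic (L ⧸ W) := by
  intro hcyc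
  obtain ⟨g, hg⟩ := hcyc.exists_generator
  obtain ⟨g₀, rfl⟩ := QuotientGroup.mk_surjective g
  have htop : Subgroup.zpowers g₀ ⊔ frattini L = ⊤ := by
    rw [eq_top_iff]
    intro l _
    obtain ⟨k, hk⟩ := Subgroup.mem_zpowers_iff.1 (hg (l : L ⧸ W))
    have h1 : (g₀ ^ k)⁻¹ * l ∈ W := by
      rw [← QuotientGroup.eq, QuotientGroup.mk_zpow]
      exact hk
    have h2 : l = g₀ ^ k * ((g₀ ^ k)⁻¹ * l) := by group
    rw [h2]
    exact Subgroup.mul_mem _
      (Subgroup.mem_sup_left (Subgroup.zpow_mem _ (Subgroup.mem_zpowers g₀) k))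
      (Subgroup.mem_sup_right (hWF h1))
  have h3 := frattini_nongenerating htop
  exact hncyc (isCyclic_iff_exists_zpowers_eq_top.2 ⟨g₀, h3⟩)

/-- an element of order dividing `p` centralizes the elements of `N` with `n ^ (p ^ 2) = 1`. -/
theorem comm_of_pow_sq (hL : IsPGroup p L)
    (hnc : ∀ C : Subgroup L, IsCyclic C → C.index ≠ p) (hncyc : ¬ IsCyclic L)
    (N : Subgroup L) [hNn : N.Normal] (hNc : IsCyclic N) (hQc : IsCyclic (L ⧸ N))
    (hcen : ∀ x g : L, x ^ p = 1 → ∀ h : L, (x * g * x⁻¹ * g⁻¹) * h = h * (x * g * x⁻¹ * g⁻¹))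
    (hmul : ∀ x y : L, x ^ p = 1 → y ^ p = 1 → (x * y) ^ p = 1)
    {x : L} (hx : x ^ p = 1) {n : L} (hn : n ∈ N) (hnp : n ^ (p ^ 2) = 1) : x * n = n * x := by
  have hpp : p.Prime := Fact.out
  obtain ⟨u, hu⟩ := hNc.exists_generator
  have h1 : (⟨n, hn⟩ : N) ∈ Submonoid.powers u := mem_powers_iff_mem_zpowers.2 (hu _)
  obtain ⟨k, hk⟩ := (Submonoid.mem_powers_iff _ _).1 h1
  have hk' : (u : L) ^ k = n := by
    have := congrArg Subtype.val hk
    simpa using this
  by_cases hpk : p ∣ k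
  · obtain ⟨k', rfl⟩ := hpk
    set n₁ : L := (u : L) ^ k' with hn₁
    have hn₁p : n₁ ^ p = n := by rw [hn₁, ← pow_mul, mul_comm, hk']
    set c₁ : L := x * n₁ * x⁻¹ * n₁⁻¹ with hc₁
    have hc₁cen : ∀ h : L, c₁ * h = h * c₁ := hcen x n₁ hx
    have hc₁p : c₁ ^ p = 1 := by
      have h2 : (n₁ * x⁻¹ * n₁⁻¹) ^ p = 1 := by
        rw [conj_pow, inv_pow, hx, inv_one, mul_one, mul_inv_cancel]
      have h3 := hmul x (n₁ * x⁻¹ * n₁⁻¹) hx h2
      have h4 : x * (n₁ * x⁻¹ * n₁⁻¹) = c₁ := by rw [hc₁]; group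
      rw [h4] at h3
      exact h3
    have h5 : x * n₁ * x⁻¹ = c₁ * n₁ := by rw [hc₁]; group
    have h6 : x * n * x⁻¹ = n := by
      rw [← hn₁p, ← conj_pow, h5, (show Commute c₁ n₁ from hc₁cen n₁).mul_pow, hc₁p, one_mul]
    calc x * n = x * n * x⁻¹ * x := by group
      _ = n * x := by rw [h6]
  · have hcop : k.Coprime p := by
      rw [Nat.coprime_comm, Nat.Prime.coprime_iff_not_dvd hpp]
      exact hpk
    have hup : (u : L) ^ (p ^ 2) = 1 := by
      apply Helper87.eq_one_of_pow_coprime_pgroup hL hcop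
      rw [← pow_mul, mul_comm, pow_mul, hk', hnp]
    have hall : ∀ v ∈ N, v ^ (p ^ 2) = 1 := by
      intro v hv
      have h2 : (⟨v, hv⟩ : N) ∈ Submonoid.powers u := mem_powers_iff_mem_zpowers.2 (hu _)
      obtain ⟨j, hj⟩ := (Submonoid.mem_powers_iff _ _).1 h2
      have hj' : (u : L) ^ j = v := by
        have := congrArg Subtype.val hj
        simpa using this
      rw [← hj', ← pow_mul, mul_comm, pow_mul, hup, one_pow]
    obtain ⟨t, ht⟩ : ∃ t : L, (t ^ p)⁻¹ * x ∈ N := by
      obtain ⟨τ, hτ⟩ := hQc.exists_generator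
      have h3 : ((x : L ⧸ N)) ∈ Submonoid.powers τ := mem_powers_iff_mem_zpowers.2 (hτ _)
      obtain ⟨e, he⟩ := (Submonoid.mem_powers_iff _ _).1 h3
      obtain ⟨t₀, rfl⟩ := QuotientGroup.mk_surjective τ
      by_cases hpe : p ∣ e
      · obtain ⟨e', rfl⟩ := hpe
        refine ⟨t₀ ^ e', ?_⟩
        rw [← QuotientGroup.eq, ← he, QuotientGroup.mk_pow, QuotientGroup.mk_pow, ← pow_mul,
          mul_comm]
      · exfalso
        have h4 : ((t₀ : L ⧸ N)) ^ (e * p) = 1 := by
          rw [pow_mul, he, ← QuotientGroup.mk_pow, hx]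
          rfl
        have h5 : orderOf (t₀ : L ⧸ N) = Nat.card (L ⧸ N) :=
          orderOf_eq_card_of_forall_mem_zpowers hτ
        have h6 : Nat.card (L ⧸ N) ∣ e * p := by
          rw [← h5]
          exact orderOf_dvd_of_pow_eq_one h4
        have h7 : N.index ∣ p := by
          have hcop' : (N.index).Coprime e := by
            obtain ⟨j, hj⟩ := (hL.to_quotient N).exists_card_eq
            rw [Subgroup.index, hj]
            exact Nat.Coprime.pow_left j ((Nat.Prime.coprime_iff_not_dvd hpp).2 hpe)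
          exact hcop'.dvd_of_dvd_mul_left h6
        rcases (Nat.dvd_prime hpp).1 h7 with h8 | h8
        · have h9 : N = ⊤ := Subgroup.index_eq_one.1 h8
          apply hncyc
          have h10 : IsCyclic (⊤ : Subgroup L) := h9 ▸ hNc
          exact isCyclic_of_surjective Subgroup.topEquiv.toMonoidHom Subgroup.topEquiv.surjective
        · exact hnc N hNc h8
    obtain ⟨s, hs, hconj⟩ := Helper87.exists_conj_pow hL N hNc t
    have hiter := Helper87.conj_pow_iter N t s hconj p n hn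
    have hsp : s ^ p % p ^ 2 = 1 := by
      have hs' : 1 + p * (s / p) = s := by
        have h0 := Nat.div_add_mod s p
        omega
      have h1 := Helper87.pow_one_add_modEq p (s / p) p
      rw [hs'] at h1
      have h2 : (1 + p * (p * (s / p))) % p ^ 2 = 1 := by
        have h3 : 1 + p * (p * (s / p)) = 1 + p ^ 2 * (s / p) := by ring
        rw [h3, Nat.add_mul_mod_self_left]
        exact Nat.mod_eq_of_lt (Nat.one_lt_pow (by norm_num) hpp.one_lt)
      rw [Nat.ModEq, h2] at h1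
      exact h1
    have hnsp : n ^ (s ^ p) = n := by
      have h0 := Nat.div_add_mod (s ^ p) (p ^ 2)
      rw [hsp] at h0
      rw [← h0, pow_add, pow_mul, hnp, one_pow, one_mul, pow_one]
    rw [hnsp] at hiter
    set n' : L := (t ^ p)⁻¹ * x with hn'
    have hcomm : n' * n = n * n' := by
      have h2 := (IsCyclic.commutative (α := N)).is_comm.comm ⟨n', ht⟩ ⟨n, hn⟩
      exact congrArg Subtype.val h2
    have hx' : x = t ^ p * n' := by rw [hn']; group
    have htp : t ^ p * n = n * t ^ p := by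
      calc t ^ p * n = t ^ p * n * (t ^ p)⁻¹ * t ^ p := by group
        _ = n * t ^ p := by rw [hiter]
    rw [hx', mul_assoc, hcomm, ← mul_assoc, htp, mul_assoc]

/-- `Ω₁` centralizes the elements with `g ^ (p ^ 2) = 1`. -/
theorem omega_comm_two (hp : p ≠ 2) (hL : IsPGroup p L) (hmc : Cfsg.IsMetacyclic L)
    (hnc : ∀ C : Subgroup L, IsCyclic C → C.index ≠ p) (hncyc : ¬ IsCyclic L)
    {x g : L} (hx : x ^ p = 1) (hg : (g ^ p) ^ p = 1) : x * g = g * x := by
  have hpp : p.Prime := Fact.out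
  obtain ⟨hc, hmul, hcen, hcard⟩ := Helper87.metacyclic_omega hL hp hmc
  obtain ⟨N, hNn, hNc, hQc⟩ := hmc
  by_contra hne
  have hxN : x ∉ N := fun h =>
    hne (Helper87.central_of_mem_cyclic_normal hL N hNc h hx g).symm
  obtain ⟨i, u, hu, hup, hgp⟩ := Helper87.metacyclic_pair hL hp N hNc hQc hx hxN hg
  have hucen : ∀ c : L, c * u = u * c :=
    fun c => Helper87.central_of_mem_cyclic_normal hL N hNc hu hup c
  have hgxi : g * x ^ i = x ^ i * g := by
    have h1 : g * g ^ p = g ^ p * g := by rw [← pow_succ', ← pow_succ]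
    rw [hgp] at h1
    have h2 : u * (g * x ^ i) = u * (x ^ i * g) := by
      rw [← mul_assoc, ← hucen g, mul_assoc, h1, mul_assoc]
    exact mul_left_cancel h2
  by_cases hxi : x ^ i = 1
  · rw [hxi, mul_one] at hgp
    have hgN : ((g : L ⧸ N)) ^ p = 1 := by
      rw [← QuotientGroup.mk_pow, hgp]
      exact (QuotientGroup.eq_one_iff u).2 hu
    have hxQ : ((x : L ⧸ N)) ^ p = 1 := by
      rw [← QuotientGroup.mk_pow, hx]
      rfl
    have hx1 : (x : L ⧸ N) ≠ 1 := fun h => hxN ((QuotientGroup.eq_one_iff x).1 h)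
    have h1 := Helper87.mem_zpowers_of_pow_eq_one_cyclic hxQ hx1 hgN
    have h2 : (g : L ⧸ N) ∈ Submonoid.powers (x : L ⧸ N) := mem_powers_iff_mem_zpowers.2 h1
    obtain ⟨l, hl⟩ := (Submonoid.mem_powers_iff _ _).1 h2
    have h3 : g * (x ^ l)⁻¹ ∈ N := by
      rw [← QuotientGroup.eq_one_iff, QuotientGroup.mk_mul, QuotientGroup.mk_inv,
        QuotientGroup.mk_pow, hl, mul_inv_cancel]
    obtain ⟨n, hn⟩ : ∃ n : L, n = g * (x ^ l)⁻¹ := ⟨_, rfl⟩
    rw [← hn] at h3
    have hgn : g = n * x ^ l := by rw [hn]; group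
    obtain ⟨w, hw, hall⟩ := Helper87.exists_mul_pow_p hL hp N hNc (x ^ l)
    have h4 := hall n h3
    have hxl : (x ^ l) ^ p = 1 := by rw [← pow_mul, mul_comm, pow_mul, hx, one_pow]
    rw [← hgn, hxl, mul_one, hgp] at h4
    have hnp : n ^ (p ^ 2) = 1 := by
      apply Helper87.eq_one_of_pow_coprime_pgroup hL hw
      rw [sq, pow_mul, ← pow_mul, mul_comm, pow_mul, ← h4, hup]
    have h5 := comm_of_pow_sq hL hnc hncyc N hNc hQc hcen hmul hx h3 hnp
    apply hne
    rw [hgn, ← mul_assoc, h5, mul_assoc, mul_assoc, ← pow_succ', ← pow_succ]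
  · obtain ⟨k, hk⟩ := Helper87.exists_pow_eq_of_prime_order hpp hx hxi (Subgroup.mem_zpowers x)
    apply hne
    rw [← hk]
    exact ((Commute.pow_right (show Commute g (x ^ i) from hgxi) k).eq).symm

/-- The structure of `Ω₁` and `Ω₂` of a metacyclic `p`-group, `p` odd, without cyclic subgroups
of index `p`. -/
theorem structure_thm (hp : p ≠ 2) (hL : IsPGroup p L) (hmc : Cfsg.IsMetacyclic L)
    (hnc : ∀ C : Subgroup L, IsCyclic C → C.index ≠ p) (hnt : Nontrivial L) :
    ∃ W L₂ : Subgroup L,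
      (∀ x, x ∈ W ↔ x ^ p = 1) ∧ (∀ g, g ∈ L₂ ↔ (g ^ p) ^ p = 1) ∧
      Nat.card W = p ^ 2 ∧ Nat.card L₂ = p ^ 4 ∧
      (∀ x g : L, x ^ p = 1 → (g ^ p) ^ p = 1 → x * g = g * x) ∧
      (∀ g h : L, (g ^ p) ^ p = 1 → (h ^ p) ^ p = 1 → (g * h) ^ p = g ^ p * h ^ p) ∧
      (∀ w : L, w ^ p = 1 → ∃ g, g ^ p = w) ∧
      (∀ x g : L, x ^ p = 1 → ∀ h : L, (x * g * x⁻¹ * g⁻¹) * h = h * (x * g * x⁻¹ * g⁻¹)) := by
  have hpp : p.Prime := Fact.out
  have hncyc := not_isCyclic hL hnc hnt
  obtain ⟨W, hW, hWle⟩ := exists_omega hp hL hmc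
  have hWc := card_omega_of_not_cyclic hp hL hncyc W hW hWle
  have hWn : W.Normal := by
    constructor
    intro x hx g
    rw [hW] at hx ⊢
    rw [conj_pow, hx, mul_one, mul_inv_cancel]
  have hWF := omega_le_frattini hp hL hnc W hW hWc
  have hQncyc := quotient_not_cyclic hncyc W hWF
  have hQp : IsPGroup p (L ⧸ W) := hL.to_quotient W
  have hQmc : Cfsg.IsMetacyclic (L ⧸ W) :=
    metacyclic_of_surj (QuotientGroup.mk' W) (QuotientGroup.mk'_surjective W) hmc
  obtain ⟨W', hW', hW'le⟩ := exists_omega hp hQp hQmc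
  have hW'c := card_omega_of_not_cyclic hp hQp hQncyc W' hW' hW'le
  obtain ⟨hc, hmul, hcen, hcard⟩ := Helper87.metacyclic_omega hL hp hmc
  obtain ⟨hc', -, -, -⟩ := Helper87.metacyclic_omega hQp hp hQmc
  have hS3 : ∀ x g : L, x ^ p = 1 → (g ^ p) ^ p = 1 → x * g = g * x :=
    fun x g hx hg => omega_comm_two hp hL hmc hnc hncyc hx hg
  have hmemQ : ∀ g : L, ((g : L ⧸ W)) ^ p = 1 ↔ (g ^ p) ^ p = 1 := by
    intro g
    rw [← QuotientGroup.mk_pow, QuotientGroup.eq_one_iff, hW]
  have hL₂ : ∀ g, g ∈ W'.comap (QuotientGroup.mk' W) ↔ (g ^ p) ^ p = 1 := by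
    intro g
    rw [Subgroup.mem_comap, hW', QuotientGroup.mk'_apply, hmemQ]
  have hL₂c : Nat.card (W'.comap (QuotientGroup.mk' W)) = p ^ 4 := by
    rw [Helper85.Pearl.card_comap_mk, hW'c, hWc, ← pow_add]
  have hS4 : ∀ g h : L, (g ^ p) ^ p = 1 → (h ^ p) ^ p = 1 → (g * h) ^ p = g ^ p * h ^ p := by
    intro g h hg hh
    set c : L := h⁻¹ * g⁻¹ * h * g with hcdef
    have hcW : c ^ p = 1 := by
      rw [← hW, ← QuotientGroup.eq_one_iff, hcdef]
      simp only [QuotientGroup.mk_mul, QuotientGroup.mk_inv]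
      have h1 := hc' (g : L ⧸ W) (h : L ⧸ W) ((hmemQ g).2 hg) ((hmemQ h).2 hh)
      rw [mul_assoc, ← h1]
      group
    have h1 : h * g = g * h * c := by rw [hcdef]; group
    have hcg : Commute c g := hS3 c g hcW hg
    have hch : Commute c h := hS3 c h hcW hh
    rw [Helper24.mul_pow_of_central g h c h1 hcg hch p]
    obtain ⟨k, hk⟩ := hpp.odd_of_ne_two hp
    have h2 : p * (p - 1) / 2 = p * k := by
      have h3 : p - 1 = 2 * k := by omega
      rw [h3, ← mul_assoc, mul_comm p 2, mul_assoc, Nat.mul_div_cancel_left _ (by norm_num)]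
    rw [h2, pow_mul, hcW, one_pow, mul_one]
  refine ⟨W, W'.comap (QuotientGroup.mk' W), hW, hL₂, hWc, hL₂c, hS3, hS4, ?_, hcen⟩
  set L₂ : Subgroup L := W'.comap (QuotientGroup.mk' W) with hL₂def
  let φ : L₂ →* W :=
    { toFun := fun g => ⟨(g : L) ^ p, (hW _).2 ((hL₂ g).1 g.2)⟩
      map_one' := Subtype.ext (one_pow p)
      map_mul' := fun g h => Subtype.ext (hS4 g h ((hL₂ g).1 g.2) ((hL₂ h).1 h.2)) }
  have hker : Nat.card φ.ker ≤ p ^ 2 := by
    have hmem : ∀ x : φ.ker, ((x : L₂) : L) ∈ W := by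
      intro x
      rw [hW]
      have h1 := x.2
      rw [MonoidHom.mem_ker] at h1
      exact congrArg Subtype.val h1
    have hinj : Function.Injective (fun x : φ.ker => (⟨((x : L₂) : L), hmem x⟩ : W)) := by
      intro x y hxy
      have h1 := congrArg Subtype.val hxy
      exact Subtype.ext (Subtype.ext h1)
    have h := Nat.card_le_card_of_injective _ hinj
    rw [hWc] at h
    exact h
  have hrange : Nat.card φ.range * Nat.card φ.ker = p ^ 4 := by
    rw [← hL₂c, ← Nat.card_congr (QuotientGroup.quotientKerEquivRange φ).toEquiv,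
      ← Subgroup.card_eq_card_quotient_mul_card_subgroup]
  have hr2 : p ^ 2 ≤ Nat.card φ.range := by
    by_contra hlt
    push Not at hlt
    have hkpos : 0 < Nat.card φ.ker := Nat.card_pos
    have h1 : Nat.card φ.range * Nat.card φ.ker < p ^ 2 * p ^ 2 :=
      calc Nat.card φ.range * Nat.card φ.ker < p ^ 2 * Nat.card φ.ker :=
            Nat.mul_lt_mul_of_pos_right hlt hkpos
        _ ≤ p ^ 2 * p ^ 2 := Nat.mul_le_mul_left _ hker
    rw [hrange, ← pow_add] at h1
    exact lt_irrefl _ h1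
  have htop : φ.range = ⊤ := Subgroup.eq_top_of_le_card _ (by rw [hWc]; exact hr2)
  intro w hw
  have h1 : (⟨w, (hW w).2 hw⟩ : W) ∈ φ.range := by
    rw [htop]
    trivial
  obtain ⟨g, hg⟩ := h1
  exact ⟨(g : L), congrArg Subtype.val hg⟩

end basic

end Cfsg.Agent.Lib.Helper42.MetaOm
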