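import Mathlib
import Cfsg.Agent.Lib.Helper42.MetaOm
import Cfsg.Agent.Lib.Helper73.Suzuki
import Cfsg.Agent.Lib.Helper53.PGroups

set_option autoImplicit false

/-!
An automorphism `a` of order `p` of a metacyclic `p`-group `L` (`p` odd, no cyclic subgroup of
index `p`) that moves an element of order `p`: then `p = 3` and `L ⋊ ⟨a⟩` has maximal class.
-/

namespace Cfsg.Agent.Lib.Helper42.MetaOm

open Cfsg Cfsg.Agent.Lib

universe u v

section semi

variable {N : Type u} {A : Type v} [Group N] [Group A]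

theorem semi_finite (φ : A →* MulAut N) [Finite N] [Finite A] : Finite (N ⋊[φ] A) :=
  Finite.of_equiv _ SemidirectProduct.equivProd.symm

theorem commutator_inl (φ : A →* MulAut N) (x : N) (g : N ⋊[φ] A) :
    (SemidirectProduct.inl x : N ⋊[φ] A) * g * (SemidirectProduct.inl x)⁻¹ * g⁻¹ =
      SemidirectProduct.inl (x * g.left * (φ g.right x)⁻¹ * g.left⁻¹) := by
  ext
  · simp [mul_assoc]
  · simp

theorem inl_mem_center (φ : A →* MulAut N) {x : N} (hx : ∀ l : N, x * l = l * x)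
    (hfix : ∀ b : A, φ b x = x) :
    (SemidirectProduct.inl x : N ⋊[φ] A) ∈ Subgroup.center (N ⋊[φ] A) := by
  rw [Subgroup.mem_center_iff]
  intro g
  ext
  · simp [hfix, hx]
  · simp

theorem map_inl_normal (φ : A →* MulAut N) (V : Subgroup N) [hVn : V.Normal]
    (hV : ∀ b : A, ∀ x ∈ V, φ b x ∈ V) :
    (V.map (SemidirectProduct.inl : N →* N ⋊[φ] A)).Normal := by
  constructor
  rintro _ ⟨x, hx, rfl⟩ g
  refine ⟨g.left * φ g.right x * g.left⁻¹, hVn.conj_mem _ (hV _ x hx) _, ?_⟩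
  ext
  · simp
  · simp

theorem card_centralizer_inr (φ : A →* MulAut N) (b : A) (hb : ∀ c : A, b * c = c * b)
    (Z : Subgroup N) (hZ : ∀ l : N, φ b l = l ↔ l ∈ Z) :
    Nat.card (Subgroup.centralizer ({SemidirectProduct.inr b} : Set (N ⋊[φ] A))) =
      Nat.card Z * Nat.card A := by
  rw [← Nat.card_prod]
  have hmem : ∀ t : N ⋊[φ] A,
      t ∈ Subgroup.centralizer ({SemidirectProduct.inr b} : Set (N ⋊[φ] A)) ↔ t.left ∈ Z := by
    intro t
    rw [Subgroup.mem_centralizer_singleton_iff, ← hZ]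
    constructor
    · intro h
      have h1 := congrArg SemidirectProduct.left h
      exact (by simpa using h1 : t.left = (φ b) t.left).symm
    · intro h
      ext
      · simp [h]
      · simp [hb]
  refine Nat.card_congr ⟨fun t => (⟨t.1.left, (hmem _).1 t.2⟩, t.1.right),
    fun q => ⟨⟨q.1.1, q.2⟩, (hmem _).2 q.1.2⟩, ?_, ?_⟩
  · intro t
    rfl
  · intro q
    rfl

end semi

section forward

variable {L : Type u} [Group L] [Finite L] {p : ℕ} [Fact p.Prime]

/-- normal form of the action on `Ω₁`: `a w = z * w` with `z ≠ 1` fixed. -/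
theorem exists_shift {a : MulAut L} (hap : a ^ p = 1)
    (hcomm : ∀ x y : L, x ^ p = 1 → y ^ p = 1 → x * y = y * x)
    (hspan : ∀ e₁ e₂ : L, e₁ ^ p = 1 → e₂ ^ p = 1 → e₁ ≠ 1 → e₂ ∉ Subgroup.zpowers e₁ →
      ∀ v : L, v ^ p = 1 → ∃ i j : ℕ, v = e₁ ^ i * e₂ ^ j)
    {w z₀ : L} (hw : w ^ p = 1) (haw : a w ≠ w) (hz₀ : z₀ ^ p = 1) (hz₀1 : z₀ ≠ 1)
    (haz₀ : a z₀ = z₀) :
    ∃ z : L, z ^ p = 1 ∧ z ≠ 1 ∧ a z = z ∧ a w = z * w := by
  have hpp : p.Prime := Fact.out
  have hfixz : ∀ v ∈ Subgroup.zpowers z₀, a v = v := by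
    intro v hv
    obtain ⟨k, rfl⟩ := Subgroup.mem_zpowers_iff.1 hv
    rw [map_zpow, haz₀]
  have hpowz : ∀ v ∈ Subgroup.zpowers z₀, v ^ p = 1 := by
    intro v hv
    obtain ⟨k, rfl⟩ := Subgroup.mem_zpowers_iff.1 hv
    rw [← zpow_natCast, ← zpow_mul, mul_comm, zpow_mul, zpow_natCast, hz₀, one_zpow]
  have hwz : w ∉ Subgroup.zpowers z₀ := fun h => haw (hfixz w h)
  have haw_p : (a w) ^ p = 1 := by rw [← map_pow, hw, map_one]
  obtain ⟨i, j, hij⟩ := hspan z₀ w hz₀ hw hz₀1 hwz (a w) haw_p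
  have hpow1 : ∀ (e : L), e ^ p = 1 → ∀ k : ℕ, (e ^ k) ^ p = 1 := by
    intro e he k
    rw [← pow_mul, mul_comm, pow_mul, he, one_pow]
  have hiter : ∀ k : ℕ, ∃ i' : ℕ, (a ^ k) w = z₀ ^ i' * w ^ (j ^ k) := by
    intro k
    induction k with
    | zero => exact ⟨0, by simp⟩
    | succ k ih =>
      obtain ⟨i', hi'⟩ := ih
      refine ⟨i' + i * j ^ k, ?_⟩
      have hcz : Commute (z₀ ^ i) (w ^ j) := hcomm _ _ (hpow1 z₀ hz₀ i) (hpow1 w hw j)
      rw [pow_succ', MulAut.mul_apply, hi', map_mul, map_pow, map_pow, haz₀, hij, hcz.mul_pow,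
        ← pow_mul, ← pow_mul, pow_add, mul_assoc, pow_succ']
  obtain ⟨i', hi'⟩ := hiter p
  rw [hap, MulAut.one_apply] at hi'
  have hjp : w ^ (j ^ p) = w ^ j := by
    have h1 : j ^ p ≡ j [MOD p] := by
      have h2 : ((j : ZMod p)) ^ p = j := ZMod.pow_card _
      rw [← ZMod.natCast_eq_natCast_iff]
      push_cast
      exact h2
    rw [pow_eq_pow_mod (j ^ p) hw, pow_eq_pow_mod j hw, h1]
  rw [hjp] at hi'
  have hz : a w * w⁻¹ = z₀ ^ i * (z₀ ^ i')⁻¹ := by
    have h3 : w ^ j = (z₀ ^ i')⁻¹ * w := by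
      rw [eq_inv_mul_iff_mul_eq]
      exact hi'.symm
    rw [hij, h3]
    group
  have hzmem : a w * w⁻¹ ∈ Subgroup.zpowers z₀ := by
    rw [hz]
    exact Subgroup.mul_mem _ (Subgroup.pow_mem _ (Subgroup.mem_zpowers z₀) _)
      (Subgroup.inv_mem _ (Subgroup.pow_mem _ (Subgroup.mem_zpowers z₀) _))
  refine ⟨a w * w⁻¹, hpowz _ hzmem, ?_, hfixz _ hzmem, by group⟩
  intro h
  apply haw
  calc a w = a w * w⁻¹ * w := by group
    _ = w := by rw [h, one_mul]

theorem pascal_step {G : Type*} [Group G] (x y u v : G) (hvu : Commute v u) (k c d : ℕ) :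
    x * y * (y ^ k * u ^ k) * (v ^ c * u ^ c) * v ^ d =
      x * y ^ (k + 1) * u ^ (k + c) * v ^ (c + d) := by
  calc x * y * (y ^ k * u ^ k) * (v ^ c * u ^ c) * v ^ d
      = x * (y * y ^ k) * u ^ k * (v ^ c * u ^ c) * v ^ d := by simp only [mul_assoc]
    _ = x * (y * y ^ k) * u ^ k * (u ^ c * v ^ c) * v ^ d := by rw [(hvu.pow_pow c c).eq]
    _ = x * y ^ (k + 1) * (u ^ k * u ^ c) * (v ^ c * v ^ d) := by
        rw [← pow_succ']
        simp only [mul_assoc]
    _ = x * y ^ (k + 1) * u ^ (k + c) * v ^ (c + d) := by rw [← pow_add, ← pow_add]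

/-- the key computation: `p = 3`, and the fixed points of `a` are the powers of `z`. -/
theorem fix_structure (hp : p ≠ 2) {a : MulAut L} (hap : a ^ p = 1) (hL : IsPGroup p L)
    (hcomm : ∀ x g : L, x ^ p = 1 → (g ^ p) ^ p = 1 → x * g = g * x)
    (hpow : ∀ g h : L, (g ^ p) ^ p = 1 → (h ^ p) ^ p = 1 → (g * h) ^ p = g ^ p * h ^ p)
    (hspan : ∀ e₁ e₂ : L, e₁ ^ p = 1 → e₂ ^ p = 1 → e₁ ≠ 1 → e₂ ∉ Subgroup.zpowers e₁ →
      ∀ v : L, v ^ p = 1 → ∃ i j : ℕ, v = e₁ ^ i * e₂ ^ j)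
    {w z x : L} (hw : w ^ p = 1) (hz : z ^ p = 1) (hz1 : z ≠ 1) (haz : a z = z)
    (haw : a w = z * w) (hx : x ^ p = w) :
    p = 3 ∧ ∀ g : L, a g = g → g ∈ Subgroup.zpowers z := by
  have hpp : p.Prime := Fact.out
  have hfixz : ∀ v ∈ Subgroup.zpowers z, a v = v := by
    intro v hv
    obtain ⟨k, rfl⟩ := Subgroup.mem_zpowers_iff.1 hv
    rw [map_zpow, haz]
  have hwz : w ∉ Subgroup.zpowers z := by
    intro h
    have h1 := hfixz w h
    rw [haw] at h1
    exact hz1 (mul_eq_right.1 h1)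
  have hw1 : w ≠ 1 := by
    rintro rfl
    exact hwz (Subgroup.one_mem _)
  have hW₂ : ∀ v : L, v ^ p = 1 → (v ^ p) ^ p = 1 := fun v hv => by rw [hv, one_pow]
  have hx2 : (x ^ p) ^ p = 1 := by rw [hx, hw]
  have hL₂a : ∀ g : L, (g ^ p) ^ p = 1 → ((a g) ^ p) ^ p = 1 := by
    intro g hg
    rw [← map_pow, ← map_pow, hg, map_one]
  have hL₂inv : ∀ g : L, (g ^ p) ^ p = 1 → ((g⁻¹) ^ p) ^ p = 1 := by
    intro g hg
    rw [inv_pow, inv_pow, hg, inv_one]
  have hL₂mul : ∀ g h : L, (g ^ p) ^ p = 1 → (h ^ p) ^ p = 1 → ((g * h) ^ p) ^ p = 1 := by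
    intro g h hg hh
    rw [hpow g h hg hh, (show Commute (g ^ p) (h ^ p) from hcomm _ _ hg (hW₂ _ hh)).mul_pow,
      hg, hh, one_mul]
  have hzw : Commute z w := hcomm z w hz (hW₂ w hw)
  obtain ⟨y, hy⟩ : ∃ y : L, y = x⁻¹ * a x := ⟨_, rfl⟩
  have hy2 : (y ^ p) ^ p = 1 := by
    rw [hy]
    exact hL₂mul _ _ (hL₂inv x hx2) (hL₂a x hx2)
  have hyp : y ^ p = z := by
    rw [hy, hpow _ _ (hL₂inv x hx2) (hL₂a x hx2), inv_pow, ← map_pow, hx, haw, hzw.eq]
    group
  obtain ⟨w₁, hw₁def⟩ : ∃ w₁ : L, w₁ = y⁻¹ * a y := ⟨_, rfl⟩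
  have hw₁ : w₁ ^ p = 1 := by
    rw [hw₁def, hpow _ _ (hL₂inv y hy2) (hL₂a y hy2), inv_pow, ← map_pow, hyp, haz,
      inv_mul_cancel]
  obtain ⟨j, i, hji⟩ := hspan z w hz hw hz1 hwz w₁ hw₁
  obtain ⟨v, hv⟩ : ∃ v : L, v = z ^ i := ⟨_, rfl⟩
  have hav : a v = v := by rw [hv, map_pow, haz]
  have hvp : v ^ p = 1 := by rw [hv, ← pow_mul, mul_comm, pow_mul, hz, one_pow]
  have haw₁ : a w₁ = v * w₁ := by
    rw [hji, map_mul, map_pow, map_pow, haz, haw, hzw.mul_pow, hv, ← mul_assoc, ← mul_assoc,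
      ← pow_add, ← pow_add, add_comm]
  have cw₁y : Commute w₁ y := hcomm w₁ y hw₁ hy2
  have cvw₁ : Commute v w₁ := hcomm v w₁ hvp (hW₂ _ hw₁)
  have hax : a x = x * y := by rw [hy]; group
  have hay : a y = y * w₁ := by rw [hw₁def]; group
  have hiter : ∀ k : ℕ, (a ^ k) x = x * y ^ k * w₁ ^ (k.choose 2) * v ^ (k.choose 3) := by
    intro k
    induction k with
    | zero => simp
    | succ k ih =>
      rw [pow_succ', MulAut.mul_apply, ih]
      simp only [map_mul, map_pow]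
      rw [hax, hay, haw₁, hav, cw₁y.symm.mul_pow, cvw₁.mul_pow,
        Nat.choose_succ_succ' k 1, Nat.choose_succ_succ' k 2, Nat.choose_one_right]
      exact pascal_step x y w₁ v cvw₁ k (k.choose 2) (k.choose 3)
  have h3lt : 2 < p := by
    have := hpp.two_le
    omega
  have hkey := hiter p
  rw [hap, MulAut.one_apply, hyp] at hkey
  have hc2 : w₁ ^ (p.choose 2) = 1 := by
    obtain ⟨t, ht⟩ := hpp.dvd_choose_self (by norm_num : (2 : ℕ) ≠ 0) h3lt
    rw [ht, pow_mul, hw₁, one_pow]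
  rw [hc2, mul_one] at hkey
  have hzv : z * v ^ (p.choose 3) = 1 := by
    have h1 : x * 1 = x * (z * v ^ (p.choose 3)) := by
      rw [mul_one, ← mul_assoc]
      exact hkey
    exact (mul_left_cancel h1).symm
  have hdiv : p ∣ 1 + i * p.choose 3 := by
    have h1 : orderOf z ∣ 1 + i * p.choose 3 := by
      apply orderOf_dvd_of_pow_eq_one
      rw [pow_add, pow_one, pow_mul, ← hv]
      exact hzv
    rwa [orderOf_eq_prime hz hz1] at h1
  have hp3 : p = 3 := by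
    by_contra h3
    have h4 : 3 < p := by omega
    have h5 : p ∣ p.choose 3 := hpp.dvd_choose_self (by norm_num) h4
    have h6 : p ∣ 1 := (Nat.dvd_add_left (Dvd.dvd.mul_left h5 i)).1 hdiv
    exact hpp.one_lt.ne' (Nat.dvd_one.1 h6)
  have hpi : ¬ p ∣ i := by
    intro h
    have hc3 : p.choose 3 = 1 := by rw [hp3]; rfl
    rw [hc3, mul_one] at hdiv
    have h6 : p ∣ 1 := (Nat.dvd_add_left h).1 hdiv
    exact hpp.one_lt.ne' (Nat.dvd_one.1 h6)
  refine ⟨hp3, ?_⟩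
  have hspanW : ∀ t : L, t ^ p = 1 → ∃ e f : ℕ, t = z ^ e * w ^ f := hspan z w hz hw hz1 hwz
  have haW : ∀ e f : ℕ, a (z ^ e * w ^ f) = z ^ f * (z ^ e * w ^ f) := by
    intro e f
    rw [map_mul, map_pow, map_pow, haz, haw, hzw.mul_pow, ← mul_assoc, ← mul_assoc, ← pow_add,
      ← pow_add, add_comm]
  have hWfix : ∀ g : L, g ^ p = 1 → a g = g → g ∈ Subgroup.zpowers z := by
    intro g hg hag
    obtain ⟨e, f, rfl⟩ := hspanW g hg
    rw [haW] at hag
    have hzf : z ^ f = 1 := mul_eq_right.1 hag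
    have hpf : p ∣ f := by
      rw [← orderOf_eq_prime hz hz1]
      exact orderOf_dvd_of_pow_eq_one hzf
    obtain ⟨f', rfl⟩ := hpf
    rw [pow_mul, hw, one_pow, mul_one]
    exact Subgroup.pow_mem _ (Subgroup.mem_zpowers z) e
  have hQ : ∀ g : L, a g = g → g ^ p ∈ Subgroup.zpowers z → g ∈ Subgroup.zpowers z := by
    intro g hag hgp
    have h1 : g ^ p ∈ Submonoid.powers z := mem_powers_iff_mem_zpowers.2 hgp
    obtain ⟨l, hl⟩ := (Submonoid.mem_powers_iff _ _).1 h1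
    have hg2 : (g ^ p) ^ p = 1 := by rw [← hl, ← pow_mul, mul_comm, pow_mul, hz, one_pow]
    by_cases hzl : z ^ l = 1
    · exact hWfix g (by rw [← hl, hzl]) hag
    · exfalso
      have hylp : (y ^ l) ^ p = z ^ l := by rw [← pow_mul, mul_comm l p, pow_mul, hyp]
      have hyl2 : (((y ^ l)⁻¹) ^ p) ^ p = 1 := by
        apply hL₂inv
        rw [hylp, ← pow_mul, mul_comm, pow_mul, hz, one_pow]
      obtain ⟨w', hw'⟩ : ∃ w' : L, w' = g * (y ^ l)⁻¹ := ⟨_, rfl⟩
      have hw'p : w' ^ p = 1 := by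
        rw [hw', hpow _ _ hg2 hyl2, inv_pow, hylp, hl, mul_inv_cancel]
      have hg' : g = w' * y ^ l := by rw [hw']; group
      obtain ⟨e, f, hef⟩ := hspanW w' hw'p
      have haw' : a w' = z ^ f * w' := by rw [hef, haW]
      have h2 : a g = z ^ f * w' * (y ^ l * w₁ ^ l) := by
        rw [hg', map_mul, map_pow, haw', hay, cw₁y.symm.mul_pow]
      rw [hag] at h2
      have hzfp : (z ^ f) ^ p = 1 := by rw [← pow_mul, mul_comm, pow_mul, hz, one_pow]
      have c1 : Commute (z ^ f) w' := hcomm _ _ hzfp (hW₂ w' hw'p)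
      have c2 : Commute (y ^ l) (w₁ ^ l) := (cw₁y.symm.pow_pow l l)
      have h3 : z ^ f * w₁ ^ l = 1 := by
        have h4 : w' * y ^ l = w' * (z ^ f * w₁ ^ l) * y ^ l := by
          calc w' * y ^ l = g := hg'.symm
            _ = z ^ f * w' * (y ^ l * w₁ ^ l) := h2
            _ = w' * z ^ f * (w₁ ^ l * y ^ l) := by rw [c1.eq, c2.eq]
            _ = w' * (z ^ f * w₁ ^ l) * y ^ l := by simp only [mul_assoc]
        have h5 := mul_right_cancel h4
        exact (mul_eq_left.1 h5.symm)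
      have hzji : Commute (z ^ j) (w ^ i) := (hzw.pow_pow j i)
      have h7 : w₁ ^ l = z ^ (j * l) * w ^ (i * l) := by
        rw [hji, hzji.mul_pow, ← pow_mul, ← pow_mul]
      have h6 : w ^ (i * l) ∈ Subgroup.zpowers z := by
        rw [h7, ← mul_assoc] at h3
        have h8 : w ^ (i * l) = (z ^ f * z ^ (j * l))⁻¹ := eq_inv_of_mul_eq_one_right h3
        rw [h8]
        exact Subgroup.inv_mem _ (Subgroup.mul_mem _
          (Subgroup.pow_mem _ (Subgroup.mem_zpowers z) _)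
          (Subgroup.pow_mem _ (Subgroup.mem_zpowers z) _))
      have h9 : w ^ (i * l) = 1 := by
        by_contra hne
        obtain ⟨k, hk⟩ :=
          Helper87.exists_pow_eq_of_prime_order hpp hw hne (Subgroup.mem_zpowers w)
        exact hwz (hk ▸ Subgroup.pow_mem _ h6 k)
      have h10 : p ∣ i * l := by
        rw [← orderOf_eq_prime hw hw1]
        exact orderOf_dvd_of_pow_eq_one h9
      rcases (Nat.Prime.dvd_mul hpp).1 h10 with h | h
      · exact hpi h
      · apply hzl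
        obtain ⟨l', rfl⟩ := h
        rw [pow_mul, hz, one_pow]
  have hgen : ∀ k : ℕ, ∀ g : L, a g = g → g ^ (p ^ k) ∈ Subgroup.zpowers z →
      g ∈ Subgroup.zpowers z := by
    intro k
    induction k with
    | zero =>
      intro g _ h
      simpa using h
    | succ k ih =>
      intro g hag h
      apply ih g hag
      apply hQ (g ^ (p ^ k)) (by rw [map_pow, hag])
      rw [← pow_mul, ← pow_succ]
      exact h
  intro g hag
  obtain ⟨k, hk⟩ := hL g
  exact hgen k g hag (by rw [hk]; exact Subgroup.one_mem _)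

/-- elements fixed by `a` are fixed by the powers of `a`. -/
theorem fixed_of_mem_zpowers {a : MulAut L} {x : L} (hx : a x = x)
    (b : Subgroup.zpowers a) : (Subgroup.zpowers a).subtype b x = x := by
  obtain ⟨b, hb⟩ := b
  obtain ⟨k, rfl⟩ := Subgroup.mem_zpowers_iff.1 hb
  show (a ^ k) x = x
  have hinv : a⁻¹ x = x := by
    have h1 : a⁻¹ (a x) = x := by simp
    rw [hx] at h1
    exact h1
  have hnat : ∀ n : ℕ, (a ^ n) x = x := by
    intro n
    induction n with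
    | zero => simp
    | succ n ih => rw [pow_succ, MulAut.mul_apply, hx, ih]
  have hnat' : ∀ n : ℕ, ((a⁻¹) ^ n) x = x := by
    intro n
    induction n with
    | zero => simp
    | succ n ih => rw [pow_succ, MulAut.mul_apply, hinv, ih]
  cases k with
  | ofNat n => simpa using hnat n
  | negSucc n =>
    rw [zpow_negSucc, ← inv_pow]
    exact hnat' (n + 1)

theorem forward (hp : p ≠ 2) (hL : IsPGroup p L) (hmc : Cfsg.IsMetacyclic L)
    (hnc : ∀ C : Subgroup L, IsCyclic C → C.index ≠ p)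
    (a : MulAut L) (ha : orderOf a = p) (m : ℕ) (hm : Nat.card L = p ^ m)
    (hex : ∃ x : L, orderOf x = p ∧ a x ≠ x) :
    p = 3 ∧ Group.nilpotencyClass
      (SemidirectProduct L ↥(Subgroup.zpowers a) (Subgroup.zpowers a).subtype) = m := by
  have hpp : p.Prime := Fact.out
  obtain ⟨w, hwo, haw⟩ := hex
  have hw : w ^ p = 1 := by
    rw [← hwo]
    exact pow_orderOf_eq_one w
  have hw1 : w ≠ 1 := by
    rintro rfl
    rw [orderOf_one] at hwo
    exact hpp.one_lt.ne hwo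
  have hnt : Nontrivial L := ⟨⟨w, 1, hw1⟩⟩
  obtain ⟨W, L₂, hW, hL₂, hWc, hL₂c, hS3, hS4, hsurj, hcen⟩ := structure_thm hp hL hmc hnc hnt
  obtain ⟨hc, hmul, -, hcard⟩ := Helper87.metacyclic_omega hL hp hmc
  have hspan : ∀ e₁ e₂ : L, e₁ ^ p = 1 → e₂ ^ p = 1 → e₁ ≠ 1 → e₂ ∉ Subgroup.zpowers e₁ →
      ∀ v : L, v ^ p = 1 → ∃ i j : ℕ, v = e₁ ^ i * e₂ ^ j :=
    fun e₁ e₂ he₁ he₂ hne hind => Helper87.rank_two_span hmul hcard he₁ he₂ hne hind
  have hap : a ^ p = 1 := by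
    rw [← ha]
    exact pow_orderOf_eq_one a
  haveI hfin : Finite (L ⋊[(Subgroup.zpowers a).subtype] ↥(Subgroup.zpowers a)) :=
    semi_finite _
  have hGc : Nat.card (L ⋊[(Subgroup.zpowers a).subtype] ↥(Subgroup.zpowers a)) = p ^ (m + 1) := by
    rw [SemidirectProduct.card, hm, Nat.card_zpowers, ha, pow_succ]
  have hGp : IsPGroup p (L ⋊[(Subgroup.zpowers a).subtype] ↥(Subgroup.zpowers a)) :=
    IsPGroup.of_card hGc
  have hWn : W.Normal := by
    constructor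
    intro x hx g
    rw [hW] at hx ⊢
    rw [conj_pow, hx, mul_one, mul_inv_cancel]
  have hWinv : ∀ b : Subgroup.zpowers a, ∀ x ∈ W, (Subgroup.zpowers a).subtype b x ∈ W := by
    intro b x hx
    rw [hW] at hx ⊢
    rw [← map_pow, hx, map_one]
  haveI hWGn := map_inl_normal (Subgroup.zpowers a).subtype W hWinv
  have hne : W.map (SemidirectProduct.inl :
      L →* L ⋊[(Subgroup.zpowers a).subtype] ↥(Subgroup.zpowers a)) ≠ ⊥ := by
    intro h
    have h1 : (SemidirectProduct.inl w : L ⋊[(Subgroup.zpowers a).subtype] ↥(Subgroup.zpowers a))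
        ∈ W.map SemidirectProduct.inl := ⟨w, (hW w).2 hw, rfl⟩
    rw [h, Subgroup.mem_bot] at h1
    exact hw1 (SemidirectProduct.inl_injective (h1.trans (map_one _).symm))
  obtain ⟨z', hz'W, hz'1, hz'c⟩ :=
    Helper53.exists_mem_center_of_normal_of_ne_bot hGp _ hne
  obtain ⟨z₀, hz₀W, rfl⟩ := hz'W
  have hz₀ : z₀ ^ p = 1 := (hW z₀).1 hz₀W
  have hz₀1 : z₀ ≠ 1 := by
    rintro rfl
    exact hz'1 (map_one _)
  have haz₀ : a z₀ = z₀ := by
    have h1 := Subgroup.mem_center_iff.1 hz'c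
      (SemidirectProduct.inr ⟨a, Subgroup.mem_zpowers a⟩)
    have h2 := congrArg SemidirectProduct.left h1
    simpa using h2
  obtain ⟨z, hz, hz1, haz, hawz⟩ := exists_shift hap hc hspan hw haw hz₀ hz₀1 haz₀
  obtain ⟨x, hx⟩ := hsurj w hw
  obtain ⟨hp3, hfix⟩ := fix_structure hp hap hL hS3 hS4 hspan hw hz hz1 haz hawz hx
  refine ⟨hp3, ?_⟩
  have hiff : ∀ l : L, (Subgroup.zpowers a).subtype ⟨a, Subgroup.mem_zpowers a⟩ l = l ↔
      l ∈ Subgroup.zpowers z := by
    intro l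
    constructor
    · intro h
      exact hfix l h
    · intro h
      obtain ⟨k, rfl⟩ := Subgroup.mem_zpowers_iff.1 h
      show a (z ^ k) = z ^ k
      rw [map_zpow, haz]
  have hcomm : ∀ c : Subgroup.zpowers a, (⟨a, Subgroup.mem_zpowers a⟩ : Subgroup.zpowers a) * c
      = c * ⟨a, Subgroup.mem_zpowers a⟩ := by
    intro c
    obtain ⟨c, hc'⟩ := c
    obtain ⟨k, rfl⟩ := Subgroup.mem_zpowers_iff.1 hc'
    exact Subtype.ext ((Commute.refl a).zpow_right k).eq
  have hcent : Nat.card (Subgroup.centralizer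
      ({SemidirectProduct.inr ⟨a, Subgroup.mem_zpowers a⟩} :
        Set (L ⋊[(Subgroup.zpowers a).subtype] ↥(Subgroup.zpowers a)))) = p ^ 2 := by
    rw [card_centralizer_inr _ _ hcomm (Subgroup.zpowers z) hiff, Nat.card_zpowers,
      Nat.card_zpowers, orderOf_eq_prime hz hz1, ha, sq]
  have hcl := Helper73.nilpotencyClass_of_card_centralizer_eq_sq (m + 1) _ hGc ⟨_, hcent⟩
  simpa using hcl

end forward

end Cfsg.Agent.Lib.Helper42.MetaOm
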