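import Mathlib
import Cfsg.Agent.Lib.Helper42.MetaOmA
import Cfsg.Agent.Lib.Helper85.MaxCls

set_option autoImplicit false

/-!
An automorphism `a` of order `p` of a metacyclic `p`-group `L` (`p` odd, no cyclic subgroup of
index `p`) that fixes every element of order `p`: then `L ⋊ ⟨a⟩` is not of maximal class.
-/

namespace Cfsg.Agent.Lib.Helper42.MetaOm

open Cfsg Cfsg.Agent.Lib

open scoped commutatorElement

universe u

section backward

variable {L : Type u} [Group L] [Finite L] {p : ℕ} [Fact p.Prime]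

theorem backward (hp : p ≠ 2) (hL : IsPGroup p L) (hmc : Cfsg.IsMetacyclic L)
    (hnc : ∀ C : Subgroup L, IsCyclic C → C.index ≠ p)
    (a : MulAut L) (ha : orderOf a = p) (m : ℕ) (hm : Nat.card L = p ^ m)
    (hcl : Group.nilpotencyClass
      (SemidirectProduct L ↥(Subgroup.zpowers a) (Subgroup.zpowers a).subtype) = m) :
    ∃ x : L, orderOf x = p ∧ a x ≠ x := by
  have hpp : p.Prime := Fact.out
  by_contra hno
  push Not at hno
  have hfixW : ∀ x : L, x ^ p = 1 → a x = x := by
    intro x hx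
    by_cases h1 : x = 1
    · rw [h1, map_one]
    · exact hno x (orderOf_eq_prime hx h1)
  have hnt : Nontrivial L := by
    by_contra h
    rw [not_nontrivial_iff_subsingleton] at h
    have h1 : a = 1 := by
      ext x
      exact Subsingleton.elim _ _
    rw [h1, orderOf_one] at ha
    exact hpp.one_lt.ne ha
  obtain ⟨W, L₂, hW, hL₂, hWc, hL₂c, hS3, hS4, hsurj, hcen⟩ := structure_thm hp hL hmc hnc hnt
  obtain ⟨hc, hmul, -, hcard⟩ := Helper87.metacyclic_omega hL hp hmc
  have hm4 : 4 ≤ m := by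
    have h1 : Nat.card L₂ ∣ Nat.card L := Subgroup.card_subgroup_dvd_card L₂
    rw [hL₂c, hm] at h1
    exact (Nat.pow_dvd_pow_iff_le_right hpp.one_lt).1 h1
  haveI hfin : Finite (L ⋊[(Subgroup.zpowers a).subtype] ↥(Subgroup.zpowers a)) :=
    semi_finite _
  have hGc : Nat.card (L ⋊[(Subgroup.zpowers a).subtype] ↥(Subgroup.zpowers a)) = p ^ (m + 1) := by
    rw [SemidirectProduct.card, hm, Nat.card_zpowers, ha, pow_succ]
  have hGp : IsPGroup p (L ⋊[(Subgroup.zpowers a).subtype] ↥(Subgroup.zpowers a)) :=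
    IsPGroup.of_card hGc
  haveI hGnil : Group.IsNilpotent (L ⋊[(Subgroup.zpowers a).subtype] ↥(Subgroup.zpowers a)) :=
    hGp.isNilpotent
  have hcl' : Group.nilpotencyClass
      (L ⋊[(Subgroup.zpowers a).subtype] ↥(Subgroup.zpowers a)) = (m + 1) - 1 := by
    rw [hcl]
    rfl
  have hZ := Helper85.MaxCls.card_center (m + 1) (by omega) hGc hcl'
  have hZ2 := Helper85.MaxCls.card_ucs_two (m + 1) (by omega) hGc hcl'
  have hfixb : ∀ x : L, x ^ p = 1 → ∀ b : Subgroup.zpowers a,
      (Subgroup.zpowers a).subtype b x = x :=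
    fun x hx b => fixed_of_mem_zpowers (hfixW x hx) b
  have hcommW : ∀ x l : L, x ^ p = 1 → (x * l * x⁻¹ * l⁻¹) ^ p = 1 := by
    intro x l hx
    have h2 : (l * x⁻¹ * l⁻¹) ^ p = 1 := by
      rw [conj_pow, inv_pow, hx, inv_one, mul_one, mul_inv_cancel]
    have h3 := hmul x (l * x⁻¹ * l⁻¹) hx h2
    have h4 : x * (l * x⁻¹ * l⁻¹) = x * l * x⁻¹ * l⁻¹ := by group
    rw [h4] at h3
    exact h3
  -- `W` is the second centre
  have hWle : W.map (SemidirectProduct.inl :
      L →* L ⋊[(Subgroup.zpowers a).subtype] ↥(Subgroup.zpowers a)) ≤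
      Subgroup.upperCentralSeries _ 2 := by
    rintro _ ⟨x, hx, rfl⟩
    replace hx := (hW x).1 hx
    rw [Subgroup.mem_upperCentralSeries_succ_iff]
    intro g
    rw [Subgroup.upperCentralSeries_one, commutatorElement_def, commutator_inl, hfixb x hx]
    apply inl_mem_center
    · intro l
      exact hcen x g.left hx l
    · intro b
      exact hfixb _ (hcommW x g.left hx) b
  have hWeq : W.map (SemidirectProduct.inl :
      L →* L ⋊[(Subgroup.zpowers a).subtype] ↥(Subgroup.zpowers a)) =
      Subgroup.upperCentralSeries _ 2 := by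
    apply Subgroup.eq_of_le_of_card_ge hWle
    rw [hZ2, Subgroup.card_map_of_injective SemidirectProduct.inl_injective, hWc]
  have hmemW : ∀ v : L, (SemidirectProduct.inl v :
      L ⋊[(Subgroup.zpowers a).subtype] ↥(Subgroup.zpowers a)) ∈
      Subgroup.upperCentralSeries _ 2 → v ^ p = 1 := by
    intro v hv
    rw [← hWeq] at hv
    obtain ⟨x, hx, hxv⟩ := hv
    have h1 := SemidirectProduct.inl_injective hxv
    rw [← h1, ← hW]
    exact hx
  -- the commutator subgroup lies in `W`
  obtain ⟨N, hNn, hNc, hQc⟩ := hmc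
  have hDN : commutator L ≤ N := by
    rw [commutator_eq_closure, Subgroup.closure_le]
    rintro _ ⟨g₁, g₂, rfl⟩
    show ⁅g₁, g₂⁆ ∈ N
    rw [← QuotientGroup.eq_one_iff, commutatorElement_def]
    simp only [QuotientGroup.mk_mul, QuotientGroup.mk_inv]
    have h1 := (IsCyclic.commutative (α := L ⧸ N)).is_comm.comm (g₁ : L ⧸ N) (g₂ : L ⧸ N)
    rw [h1]
    group
  have hDchar : ∀ b : MulAut L, ∀ c ∈ commutator L, b c ∈ commutator L := by
    intro b c hc'
    have h1 : (commutator L).Characteristic := by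
      rw [commutator_def]
      infer_instance
    exact (Subgroup.characteristic_iff_le_comap.1 h1) b hc'
  have hL₂n : L₂.Normal := by
    refine ⟨fun x hx g => (hL₂ _).2 ?_⟩
    have hx' := (hL₂ x).1 hx
    rw [conj_pow, conj_pow, hx', mul_one, mul_inv_cancel]
  have hVn : (commutator L ⊓ L₂).Normal := inferInstance
  have hVinv : ∀ b : Subgroup.zpowers a, ∀ x ∈ commutator L ⊓ L₂,
      (Subgroup.zpowers a).subtype b x ∈ commutator L ⊓ L₂ := by
    intro b x hx
    have h1 := (hL₂ x).1 hx.2
    exact ⟨hDchar _ x hx.1, (hL₂ _).2 (by rw [← map_pow, ← map_pow, h1, map_one])⟩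
  haveI hVGn := map_inl_normal (Subgroup.zpowers a).subtype (commutator L ⊓ L₂) hVinv
  have hVN : commutator L ⊓ L₂ ≤ N := inf_le_left.trans hDN
  have hVcyc : IsCyclic ↥(commutator L ⊓ L₂) := by
    haveI := hNc
    exact isCyclic_of_surjective (Subgroup.subgroupOfEquivOfLe hVN).toMonoidHom
      (Subgroup.subgroupOfEquivOfLe hVN).surjective
  have hVGcyc : IsCyclic ↥((commutator L ⊓ L₂).map (SemidirectProduct.inl :
      L →* L ⋊[(Subgroup.zpowers a).subtype] ↥(Subgroup.zpowers a))) := by
    haveI := hVcyc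
    exact isCyclic_of_surjective (SemidirectProduct.inl.subgroupMap _)
      (SemidirectProduct.inl.subgroupMap_surjective _)
  have hE2a : ∀ v ∈ commutator L, (v ^ p) ^ p = 1 → v ^ p = 1 := by
    intro v hvD hv2
    apply hmemW
    rw [Subgroup.mem_upperCentralSeries_succ_iff]
    intro g
    rw [Subgroup.upperCentralSeries_one]
    obtain ⟨s, hs, hconj⟩ := Helper87.exists_conj_pow hGp _ hVGcyc g
    have hvV : (SemidirectProduct.inl v :
        L ⋊[(Subgroup.zpowers a).subtype] ↥(Subgroup.zpowers a)) ∈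
        (commutator L ⊓ L₂).map SemidirectProduct.inl :=
      ⟨v, ⟨hvD, (hL₂ v).2 hv2⟩, rfl⟩
    have h1 := hconj _ hvV
    have h2 : ⁅(SemidirectProduct.inl v :
        L ⋊[(Subgroup.zpowers a).subtype] ↥(Subgroup.zpowers a)), g⁆ =
        SemidirectProduct.inl (v * (v ^ s)⁻¹) := by
      rw [commutatorElement_def, map_mul, map_inv, map_pow, ← h1, mul_inv_rev, mul_inv_rev,
        inv_inv]
      simp only [mul_assoc]
    rw [h2]
    have hs' : s = p * (s / p) + 1 := by
      have h0 := Nat.div_add_mod s p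
      omega
    obtain ⟨q, hq⟩ : ∃ q : ℕ, s = p * q + 1 := ⟨s / p, hs'⟩
    have h3 : v * (v ^ s)⁻¹ = ((v ^ p) ^ q)⁻¹ := by
      rw [hq, pow_add, pow_one, pow_mul]
      group
    have hvN : v ∈ N := hDN hvD
    have h4 : ((v ^ p) ^ q)⁻¹ ∈ N := N.inv_mem (N.pow_mem (N.pow_mem hvN _) _)
    have h5 : (((v ^ p) ^ q)⁻¹) ^ p = 1 := by
      rw [inv_pow, ← pow_mul, mul_comm, pow_mul, hv2, one_pow, inv_one]
    rw [h3]
    apply inl_mem_center
    · intro l
      exact (Helper87.central_of_mem_cyclic_normal hL N hNc h4 h5 l).symm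
    · intro b
      exact hfixb _ h5 b
  have hE2 : ∀ c ∈ commutator L, c ^ p = 1 := by
    have hgen : ∀ k : ℕ, ∀ c ∈ commutator L, c ^ (p ^ k) = 1 → c ^ p = 1 := by
      intro k
      induction k with
      | zero =>
        intro c _ h
        rw [pow_zero, pow_one] at h
        rw [h, one_pow]
      | succ k ih =>
        intro c hcD h
        rcases k with _ | k'
        · rw [zero_add, pow_one] at h
          exact h
        · apply ih c hcD
          have h1 := hE2a (c ^ (p ^ k')) ((commutator L).pow_mem hcD _) (by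
            rw [← pow_mul, ← pow_mul]
            have h0 : p ^ k' * (p * p) = p ^ (k' + 1 + 1) := by ring
            rw [h0]
            exact h)
          rw [← pow_mul, ← pow_succ] at h1
          exact h1
    intro c hcD
    obtain ⟨k, hk⟩ := hL c
    exact hgen k c hcD hk
  -- `L₂` lies in the third centre
  have hL₂le : L₂.map (SemidirectProduct.inl :
      L →* L ⋊[(Subgroup.zpowers a).subtype] ↥(Subgroup.zpowers a)) ≤
      Subgroup.upperCentralSeries _ 3 := by
    rintro _ ⟨g, hg, rfl⟩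
    replace hg := (hL₂ g).1 hg
    rw [Subgroup.mem_upperCentralSeries_succ_iff]
    intro t
    rw [← hWeq, commutatorElement_def, commutator_inl]
    refine ⟨_, ?_, rfl⟩
    rw [SetLike.mem_coe, hW]
    have h1 : g * t.left * ((Subgroup.zpowers a).subtype t.right g)⁻¹ * t.left⁻¹ =
        (g * t.left * g⁻¹ * t.left⁻¹) *
          (t.left * (g * ((Subgroup.zpowers a).subtype t.right g)⁻¹) * t.left⁻¹) := by
      group
    rw [h1]
    apply hmul
    · apply hE2
      rw [commutator_def]
      exact Subgroup.commutator_mem_commutator (Subgroup.mem_top g) (Subgroup.mem_top t.left)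
    · rw [conj_pow]
      have h2 : ((((Subgroup.zpowers a).subtype t.right g)⁻¹) ^ p) ^ p = 1 := by
        rw [inv_pow, inv_pow, ← map_pow, ← map_pow, hg, map_one, inv_one]
      rw [hS4 g _ hg h2, inv_pow, ← map_pow, hfixb _ hg, mul_inv_cancel, mul_one,
        mul_inv_cancel]
  -- but the third centre has order `p ^ 3`
  have hq : Nat.card ((L ⋊[(Subgroup.zpowers a).subtype] ↥(Subgroup.zpowers a)) ⧸
      Subgroup.center (L ⋊[(Subgroup.zpowers a).subtype] ↥(Subgroup.zpowers a))) = p ^ m := by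
    have h1 := Subgroup.card_eq_card_quotient_mul_card_subgroup
      (Subgroup.center (L ⋊[(Subgroup.zpowers a).subtype] ↥(Subgroup.zpowers a)))
    rw [hGc, hZ, pow_succ] at h1
    exact (Nat.eq_of_mul_eq_mul_right hpp.pos h1).symm
  have hcq : Group.nilpotencyClass ((L ⋊[(Subgroup.zpowers a).subtype] ↥(Subgroup.zpowers a)) ⧸
      Subgroup.center (L ⋊[(Subgroup.zpowers a).subtype] ↥(Subgroup.zpowers a))) = m - 1 := by
    rw [Group.nilpotencyClass_quotient_center, hcl]
  have hZ2q := Helper85.MaxCls.card_ucs_two m hm4 hq hcq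
  have h3 := Subgroup.comap_upperCentralSeries_quotient_center
    (G := L ⋊[(Subgroup.zpowers a).subtype] ↥(Subgroup.zpowers a)) 2
  have hZ3 : Nat.card (Subgroup.upperCentralSeries
      (L ⋊[(Subgroup.zpowers a).subtype] ↥(Subgroup.zpowers a)) 3) = p ^ 3 := by
    rw [← h3, Helper85.Pearl.card_comap_mk, hZ2q, hZ, ← pow_succ]
  have h4 := Subgroup.card_le_of_le hL₂le
  rw [hZ3, Subgroup.card_map_of_injective SemidirectProduct.inl_injective, hL₂c] at h4
  have h5 : p ^ 3 < p ^ 4 := Nat.pow_lt_pow_right hpp.one_lt (by norm_num)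
  omega

end backward

end Cfsg.Agent.Lib.Helper42.MetaOm
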