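import Mathlib
import Cfsg.Agent.Lib.Helper84.StronglyEmb

set_option autoImplicit false

namespace Cfsg.Agent.Lib.Helper42.MetaSup

open Cfsg Cfsg.Agent.Lib

section homo

variable {A : Type*} [CommGroup A]

/-- the automorphism `(x, y) ↦ (y, x⁻¹ y⁻¹)` of order three -/
def betaAut : MulAut (A × A) where
  toFun z := (z.2, z.1⁻¹ * z.2⁻¹)
  invFun z := (z.1⁻¹ * z.2⁻¹, z.1)
  left_inv z := by ext <;> simp
  right_inv z := by ext <;> simp
  map_mul' z w := by
    ext
    · rfl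
    · show (z.1 * w.1)⁻¹ * (z.2 * w.2)⁻¹ = z.1⁻¹ * z.2⁻¹ * (w.1⁻¹ * w.2⁻¹)
      rw [mul_inv, mul_inv, mul_mul_mul_comm]

theorem betaAut_apply (z : A × A) : betaAut z = (z.2, z.1⁻¹ * z.2⁻¹) := rfl

theorem betaAut_pow_three : (betaAut : MulAut (A × A)) ^ 3 = 1 := by
  ext z <;> simp [pow_succ, betaAut_apply]

theorem homocyclic_two [Finite A] (a : A) (ha : a ≠ 1) :
    ∃ H : Subgroup (MulAut (A × A)), (Nat.card H).Coprime 2 ∧ ∃ h ∈ H, h ≠ 1 := by
  refine ⟨Subgroup.zpowers betaAut, ?_, betaAut, Subgroup.mem_zpowers _, ?_⟩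
  · rw [Nat.card_zpowers]
    have h3 : orderOf (betaAut : MulAut (A × A)) ∣ 3 :=
      orderOf_dvd_of_pow_eq_one betaAut_pow_three
    exact Nat.Coprime.coprime_dvd_left h3 (by norm_num)
  · intro h
    have h1 := congrArg (fun f : MulAut (A × A) => (f (a, 1)).1) h
    simp [betaAut_apply] at h1
    exact ha h1.symm

/-- the swap -/
def sigmaAut : MulAut (A × A) := MulEquiv.prodComm

/-- inversion of the first coordinate -/
def tauAut : MulAut (A × A) := MulEquiv.prodCongr (MulEquiv.inv A) (MulEquiv.refl A)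

/-- inversion of the second coordinate -/
def tauAut' : MulAut (A × A) := MulEquiv.prodCongr (MulEquiv.refl A) (MulEquiv.inv A)

theorem sigmaAut_apply (z : A × A) : sigmaAut z = (z.2, z.1) := rfl
theorem tauAut_apply (z : A × A) : tauAut z = (z.1⁻¹, z.2) := rfl
theorem tauAut'_apply (z : A × A) : tauAut' z = (z.1, z.2⁻¹) := rfl

theorem sigma_sq : (sigmaAut : MulAut (A × A)) ^ 2 = 1 := by
  ext z <;> simp [pow_succ, sigmaAut_apply]

theorem tau_sq : (tauAut : MulAut (A × A)) ^ 2 = 1 := by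
  ext z <;> simp [pow_succ, tauAut_apply]

theorem tau'_sq : (tauAut' : MulAut (A × A)) ^ 2 = 1 := by
  ext z <;> simp [pow_succ, tauAut'_apply]

theorem sigma_inv : (sigmaAut : MulAut (A × A))⁻¹ = sigmaAut := by
  rw [inv_eq_iff_mul_eq_one, ← pow_two, sigma_sq]

theorem sigma_tau : (sigmaAut : MulAut (A × A)) * tauAut * sigmaAut⁻¹ = tauAut' := by
  rw [sigma_inv]
  ext z <;> simp [sigmaAut_apply, tauAut_apply, tauAut'_apply]

theorem sigma_tau' : (sigmaAut : MulAut (A × A)) * tauAut' * sigmaAut⁻¹ = tauAut := by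
  rw [sigma_inv]
  ext z <;> simp [sigmaAut_apply, tauAut_apply, tauAut'_apply]

theorem tau_comm : (tauAut : MulAut (A × A)) * tauAut' = tauAut' * tauAut := by
  ext z <;> simp [tauAut_apply, tauAut'_apply]

theorem isPGroup_zpowers_of_sq {G : Type*} [Group G] (x : G) (hx : x ^ 2 = 1) :
    IsPGroup 2 (Subgroup.zpowers x) := by
  rintro ⟨g, hg⟩
  obtain ⟨k, rfl⟩ := Subgroup.mem_zpowers_iff.mp hg
  refine ⟨1, Subtype.ext ?_⟩
  show (x ^ k) ^ (2 ^ 1) = 1
  rw [pow_one, ← zpow_natCast, ← zpow_mul, mul_comm, zpow_mul, zpow_natCast, hx, one_zpow]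

theorem homocyclic_odd [Finite A] (a : A) (ha : a * a ≠ 1) :
    ∃ H : Subgroup (MulAut (A × A)), (∃ k, Nat.card H = 2 ^ k) ∧
      ∃ x ∈ H, ∃ y ∈ H, x * y ≠ y * x := by
  obtain ⟨K, hK⟩ : ∃ K : Subgroup (MulAut (A × A)),
      K = Subgroup.zpowers tauAut ⊔ Subgroup.zpowers tauAut' := ⟨_, rfl⟩
  have hKp : IsPGroup 2 K := by
    rw [hK]
    refine IsPGroup.to_sup_of_normal_right' (isPGroup_zpowers_of_sq _ tau_sq)
      (isPGroup_zpowers_of_sq _ tau'_sq) ?_
    rw [Subgroup.zpowers_le]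
    apply Subgroup.centralizer_le_normalizer
    rw [Subgroup.mem_centralizer_iff]
    intro h hh
    obtain ⟨k, rfl⟩ := Subgroup.mem_zpowers_iff.mp hh
    exact ((Commute.zpow_left (show Commute tauAut' tauAut from tau_comm.symm) k)).eq
  have hmap : K.map (MulAut.conj (sigmaAut : MulAut (A × A))).toMonoidHom = K := by
    rw [hK, Subgroup.map_sup, MonoidHom.map_zpowers, MonoidHom.map_zpowers]
    have e1 : (MulAut.conj (sigmaAut : MulAut (A × A))).toMonoidHom tauAut = tauAut' :=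
      sigma_tau
    have e2 : (MulAut.conj (sigmaAut : MulAut (A × A))).toMonoidHom tauAut' = tauAut :=
      sigma_tau'
    rw [e1, e2, sup_comm]
  have hσN : (sigmaAut : MulAut (A × A)) ∈ Subgroup.normalizer (K : Set (MulAut (A × A))) := by
    apply Helper84.mem_normalizer_of_conj_mem
    intro x hx
    rw [← hmap]
    exact ⟨x, hx, rfl⟩
  have hHp : IsPGroup 2 ↥(Subgroup.zpowers (sigmaAut : MulAut (A × A)) ⊔ K) :=
    IsPGroup.to_sup_of_normal_right' (isPGroup_zpowers_of_sq _ sigma_sq) hKp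
      (by rw [Subgroup.zpowers_le]; exact hσN)
  refine ⟨Subgroup.zpowers (sigmaAut : MulAut (A × A)) ⊔ K, IsPGroup.iff_card.mp hHp,
    sigmaAut, Subgroup.mem_sup_left (Subgroup.mem_zpowers _),
    tauAut, Subgroup.mem_sup_right (by rw [hK]; exact Subgroup.mem_sup_left (Subgroup.mem_zpowers _)),
    ?_⟩
  intro h
  have h1 := congrArg (fun f : MulAut (A × A) => (f (a, 1)).2) h
  simp [sigmaAut_apply, tauAut_apply] at h1
  apply ha
  calc a * a = a⁻¹ * a := by rw [h1]
    _ = 1 := inv_mul_cancel a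

end homo

/-! ### transport of condition (b) -/

theorem b_transfer {S B : Type*} [Group S] [Group B] (e : S ≃* B) (p : ℕ)
    (hb : ∀ H : Subgroup (MulAut S), (Nat.card H).Coprime p →
      IsMulCommutative H ∧ ∀ h ∈ H, h ^ (p - 1) = 1)
    (H' : Subgroup (MulAut B)) (hH' : (Nat.card H').Coprime p) :
    (∀ x ∈ H', ∀ y ∈ H', x * y = y * x) ∧ ∀ h ∈ H', h ^ (p - 1) = 1 := by
  obtain ⟨f, hf⟩ : ∃ f : MulAut B ≃* MulAut S, f = (MulAut.congr e).symm := ⟨_, rfl⟩
  have hcard : Nat.card (H'.map f.toMonoidHom) = Nat.card H' :=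
    Nat.card_congr (f.subgroupMap H').toEquiv.symm
  obtain ⟨h1, h2⟩ := hb (H'.map f.toMonoidHom) (by rw [hcard]; exact hH')
  constructor
  · intro x hx y hy
    have h3 := h1.is_comm.comm (⟨f x, Subgroup.mem_map_of_mem _ hx⟩ : H'.map f.toMonoidHom)
      ⟨f y, Subgroup.mem_map_of_mem _ hy⟩
    have h4 : f x * f y = f y * f x := congrArg Subtype.val h3
    rw [← map_mul, ← map_mul] at h4
    exact f.injective h4
  · intro h hh
    have h3 := h2 (f h) (Subgroup.mem_map_of_mem _ hh)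
    rw [← map_pow] at h3
    exact f.injective (h3.trans (map_one f).symm)

theorem homocyclic_contra {S : Type*} [Group S] (p : ℕ) [Fact p.Prime] (n : ℕ) (hn : 0 < n)
    (e : S ≃* Multiplicative (ZMod (p ^ n)) × Multiplicative (ZMod (p ^ n)))
    (hb : ∀ H : Subgroup (MulAut S), (Nat.card H).Coprime p →
      IsMulCommutative H ∧ ∀ h ∈ H, h ^ (p - 1) = 1) : False := by
  have hp : p.Prime := Fact.out
  have : NeZero (p ^ n) := ⟨pow_ne_zero n hp.ne_zero⟩
  have hpn : 2 ≤ p ^ n := le_trans hp.two_le (Nat.le_self_pow hn.ne' p)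
  rcases hp.eq_two_or_odd' with rfl | hodd
  · have ha : (Multiplicative.ofAdd (1 : ZMod (2 ^ n))) ≠ 1 := by
      intro h
      have h1 : (1 : ZMod (2 ^ n)) = 0 := h
      have h2 : ((1 : ℕ) : ZMod (2 ^ n)) = 0 := by rw [Nat.cast_one]; exact h1
      rw [ZMod.natCast_eq_zero_iff] at h2
      have := Nat.le_of_dvd (by norm_num) h2
      omega
    obtain ⟨H, hH, h, hh, hh1⟩ := homocyclic_two _ ha
    have h3 := (b_transfer e 2 hb H hH).2 h hh
    rw [show 2 - 1 = 1 from rfl, pow_one] at h3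
    exact hh1 h3
  · have ha : (Multiplicative.ofAdd (1 : ZMod (p ^ n))) * (Multiplicative.ofAdd (1 : ZMod (p ^ n)))
        ≠ 1 := by
      intro h
      have h1 : (1 : ZMod (p ^ n)) + 1 = 0 := h
      have h2 : ((2 : ℕ) : ZMod (p ^ n)) = 0 := by
        rw [← h1]; push_cast; ring
      rw [ZMod.natCast_eq_zero_iff] at h2
      have h4 : p ∣ 2 := (dvd_pow_self p hn.ne').trans h2
      have h5 := Nat.le_of_dvd (by norm_num) h4
      have h6 := hp.two_le
      have h7 : p = 2 := le_antisymm h5 h6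
      rw [h7] at hodd
      exact absurd hodd (by decide)
    obtain ⟨H, ⟨k, hk⟩, x, hx, y, hy, hxy⟩ := homocyclic_odd _ ha
    have hcop : (Nat.card H).Coprime p := by
      rw [hk]
      exact Nat.Coprime.pow_left k (Nat.coprime_two_left.mpr hodd)
    exact hxy ((b_transfer e p hb H hcop).1 x hx y hy)

end Cfsg.Agent.Lib.Helper42.MetaSup
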