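import Mathlib
import Cfsg.Agent.Lib.Helper42.EssP3

set_option autoImplicit false

namespace Cfsg.Agent.Lib.Helper42.MetaSup

open Cfsg Cfsg.Agent.Lib

/-! ### Automorphisms induced on a cyclic quotient -/

section quot

variable {X : Type*} [Group X]

theorem map_eq_of_invariant (N : Subgroup X) (B : Subgroup (MulAut X))
    (hB : ∀ β ∈ B, ∀ x ∈ N, β x ∈ N) : ∀ β ∈ B, N.map (β : X →* X) = N := by
  intro β hβ
  apply le_antisymm
  · rintro _ ⟨x, hx, rfl⟩
    exact hB β hβ x hx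
  · intro x hx
    refine ⟨β⁻¹ x, hB β⁻¹ (B.inv_mem hβ) x hx, ?_⟩
    show β (β⁻¹ x) = x
    exact MulAut.apply_inv_self _ β x

/-- the action on the quotient by an invariant normal subgroup -/
def quotAut (N : Subgroup X) [N.Normal] (B : Subgroup (MulAut X))
    (hB : ∀ β ∈ B, N.map (β : X →* X) = N) : B →* MulAut (X ⧸ N) where
  toFun β := QuotientGroup.congr N N β.1 (hB β.1 β.2)
  map_one' := by
    ext x
    obtain ⟨x, rfl⟩ := QuotientGroup.mk_surjective x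
    rfl
  map_mul' a b := by
    ext x
    obtain ⟨x, rfl⟩ := QuotientGroup.mk_surjective x
    rfl

theorem quotAut_mk (N : Subgroup X) [N.Normal] (B : Subgroup (MulAut X))
    (hB : ∀ β ∈ B, N.map (β : X →* X) = N) (β : B) (x : X) :
    quotAut N B hB β (QuotientGroup.mk x) = QuotientGroup.mk ((β : MulAut X) x) := rfl

theorem mem_of_quotAut_eq_one (N : Subgroup X) [N.Normal] (B : Subgroup (MulAut X))
    (hB : ∀ β ∈ B, N.map (β : X →* X) = N) (β : B) (h : quotAut N B hB β = 1) (x : X) :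
    x⁻¹ * (β : MulAut X) x ∈ N := by
  have h1 := quotAut_mk N B hB β x
  rw [h] at h1
  have h2 : (QuotientGroup.mk x : X ⧸ N) = QuotientGroup.mk ((β : MulAut X) x) := h1
  exact QuotientGroup.eq.mp h2

theorem mulAut_comm_of_cyclic {Y : Type*} [Group Y] [IsCyclic Y] (a b : MulAut Y) :
    a * b = b * a := by
  apply (IsCyclic.mulAutMulEquiv Y).injective
  rw [map_mul, map_mul, mul_comm]

theorem quot_cyclic [Finite X] (N : Subgroup X) [N.Normal] (hc : IsCyclic (X ⧸ N))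
    (B : Subgroup (MulAut X)) (hB : ∀ β ∈ B, ∀ x ∈ N, β x ∈ N) :
    (∀ β₁ ∈ B, ∀ β₂ ∈ B, ∀ x, x⁻¹ * (β₁ * β₂ * β₁⁻¹ * β₂⁻¹) x ∈ N) ∧
    (∀ β ∈ B, ∀ m : ℕ, Nat.totient (Nat.card (X ⧸ N)) ∣ m → ∀ x, x⁻¹ * (β ^ m) x ∈ N) := by
  have hB' := map_eq_of_invariant N B hB
  constructor
  · intro β₁ h₁ β₂ h₂ x
    have h3 : quotAut N B hB' (⟨β₁, h₁⟩ * ⟨β₂, h₂⟩ * (⟨β₁, h₁⟩ : B)⁻¹ * (⟨β₂, h₂⟩ : B)⁻¹) = 1 := by
      rw [map_mul, map_mul, map_mul, map_inv, map_inv,
        mulAut_comm_of_cyclic (quotAut N B hB' ⟨β₁, h₁⟩) (quotAut N B hB' ⟨β₂, h₂⟩)]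
      group
    exact mem_of_quotAut_eq_one N B hB' _ h3 x
  · intro β hβ m hm x
    have h3 : quotAut N B hB' ((⟨β, hβ⟩ : B) ^ m) = 1 := by
      rw [map_pow]
      obtain ⟨c, rfl⟩ := hm
      rw [pow_mul, ← IsCyclic.card_mulAut (X ⧸ N), pow_card_eq_one', one_pow]
    exact mem_of_quotAut_eq_one N B hB' _ h3 x

end quot

/-! ### Restriction to an invariant subgroup -/

section restr

variable {S : Type*} [Group S]

/-- restriction of automorphisms to an invariant subgroup -/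
def restrictHom (H : Subgroup (MulAut S)) (L : Subgroup S)
    (hL : ∀ h ∈ H, L.map (h : S →* S) = L) : H →* MulAut L where
  toFun h := ((h : MulAut S).subgroupMap L).trans (MulEquiv.subgroupCongr (hL h h.2))
  map_one' := by
    ext x
    rfl
  map_mul' a b := by
    ext x
    rfl

theorem restrictHom_apply (H : Subgroup (MulAut S)) (L : Subgroup S)
    (hL : ∀ h ∈ H, L.map (h : S →* S) = L) (h : H) (x : L) :
    ((restrictHom H L hL h x : L) : S) = (h : MulAut S) x := rfl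

end restr

/-! ### The chain lemma -/

theorem comm_of_chain {S : Type*} [Group S] [Finite S] {p : ℕ} [Fact p.Prime]
    (hS : IsPGroup p S) (H : Subgroup (MulAut S)) (hH : (Nat.card H).Coprime p)
    (L : Subgroup S) (hΦL : frattini S ≤ L) (hLH : ∀ h ∈ H, ∀ x ∈ L, h x ∈ L)
    (h1 : (frattini S).relIndex L ∣ p) (h2 : L.index ∣ p) :
    (∀ x ∈ H, ∀ y ∈ H, x * y = y * x) ∧ ∀ h ∈ H, h ^ (p - 1) = 1 := by
  have hp : p.Prime := Fact.out
  have hLn : L.Normal := by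
    refine ⟨fun n hn g => ?_⟩
    have h3 : g * n * g⁻¹ = (g * n * g⁻¹ * n⁻¹) * n := by group
    rw [h3]
    exact L.mul_mem (hΦL (Helper87.comm_mem_frattini hS g n)) hn
  -- cyclic quotients
  have cyc_of_dvd : ∀ {Y : Type _} [Group Y] [Finite Y], Nat.card Y ∣ p →
      IsCyclic Y ∧ Nat.totient (Nat.card Y) ∣ p - 1 := by
    intro Y _ _ hY
    rcases (Nat.dvd_prime hp).1 hY with h | h
    · have : Subsingleton Y := (Nat.card_eq_one_iff_unique.mp h).1
      exact ⟨isCyclic_of_subsingleton, by rw [h, Nat.totient_one]; exact one_dvd _⟩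
    · exact ⟨isCyclic_of_prime_card h, by rw [h, Nat.totient_prime hp]⟩
  obtain ⟨hc1, ht1⟩ := cyc_of_dvd (Y := S ⧸ L) h2
  obtain ⟨hq1a, hq1b⟩ := quot_cyclic L hc1 H hLH
  -- second layer
  have hLmap := map_eq_of_invariant L H hLH
  obtain ⟨ρ, hρ⟩ : ∃ ρ : H →* MulAut L, ∀ (h : H) (x : L), ((ρ h x : L) : S) = (h : MulAut S) x :=
    ⟨restrictHom H L hLmap, restrictHom_apply H L hLmap⟩
  have hinv2 : ∀ β ∈ ρ.range, ∀ x ∈ (frattini S).subgroupOf L, β x ∈ (frattini S).subgroupOf L := by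
    rintro _ ⟨h, rfl⟩ x hx
    rw [Subgroup.mem_subgroupOf] at hx ⊢
    rw [hρ]
    exact (Helper84.aut_mem_frattini (h : MulAut S)).2 hx
  obtain ⟨hc2, ht2⟩ := cyc_of_dvd (Y := L ⧸ (frattini S).subgroupOf L) h1
  obtain ⟨hq2a, hq2b⟩ := quot_cyclic ((frattini S).subgroupOf L) hc2 ρ.range hinv2
  -- a `p'`-element of the stabiliser of the chain is trivial
  have triv : ∀ c ∈ H, c ∈ Helper84.stabChain L → c = 1 := by
    intro c hcH hc
    obtain ⟨k, hk⟩ := (EssP3.isPGroup_stabChain' hS L) ⟨c, hc⟩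
    have hk' : c ^ p ^ k = 1 := congrArg Subtype.val hk
    have hk2 : c ^ Nat.card H = 1 := by
      have h3 := pow_card_eq_one' (G := H) (x := ⟨c, hcH⟩)
      exact congrArg Subtype.val h3
    have hd1 : orderOf c ∣ Nat.card H := orderOf_dvd_of_pow_eq_one hk2
    have hd2 : orderOf c ∣ p ^ k := orderOf_dvd_of_pow_eq_one hk'
    have hd3 : orderOf c ∣ Nat.gcd (Nat.card H) (p ^ k) := Nat.dvd_gcd hd1 hd2
    rw [show Nat.gcd (Nat.card H) (p ^ k) = 1 from Nat.Coprime.pow_right k hH] at hd3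
    exact orderOf_eq_one_iff.1 (Nat.dvd_one.1 hd3)
  constructor
  · intro x hx y hy
    have hmem : x * y * x⁻¹ * y⁻¹ ∈ Helper84.stabChain L := by
      refine ⟨hq1a x hx y hy, fun z hz => ?_⟩
      have h3 := hq2a (ρ ⟨x, hx⟩) ⟨_, rfl⟩ (ρ ⟨y, hy⟩) ⟨_, rfl⟩ ⟨z, hz⟩
      rw [← map_inv, ← map_inv, ← map_mul, ← map_mul, ← map_mul, Subgroup.mem_subgroupOf] at h3
      rw [Subgroup.coe_mul, Subgroup.coe_inv, hρ] at h3
      exact h3
    have h3 := triv _ (H.mul_mem (H.mul_mem (H.mul_mem hx hy) (H.inv_mem hx)) (H.inv_mem hy)) hmem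
    calc x * y = (x * y * x⁻¹ * y⁻¹) * (y * x) := by group
      _ = y * x := by rw [h3, one_mul]
  · intro h hh
    have hmem : h ^ (p - 1) ∈ Helper84.stabChain L := by
      refine ⟨hq1b h hh (p - 1) ht1, fun z hz => ?_⟩
      have h3 := hq2b (ρ ⟨h, hh⟩) ⟨_, rfl⟩ (p - 1) ht2 ⟨z, hz⟩
      rw [← map_pow, Subgroup.mem_subgroupOf] at h3
      rw [Subgroup.coe_mul, Subgroup.coe_inv, hρ] at h3
      exact h3
    exact triv _ (H.pow_mem hh _) hmem

end Cfsg.Agent.Lib.Helper42.MetaSup
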