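import Mathlib
import Cfsg.Prelude.Def_FusionSystem
import Cfsg.Agent.Lib.Helper85.Realized
import Cfsg.Agent.Lib.Helper54.Frobenius
import Cfsg.Agent.S5283

set_option autoImplicit false

namespace Cfsg.Agent.Lib.Helper42.MetaSup

open Cfsg Cfsg.FusionSystem Cfsg.Agent.Lib

section pull

variable {Ω : Type*} [Group Ω] {S : Subgroup Ω} {G : Type*} [Group G]

theorem pull_inj (ι : S →* G) (hι : Function.Injective ι) {P : Subgroup Ω} {φ : P →* Ω}
    (hP : P ≤ S) (hφ : ∀ x : P, φ x ∈ S) (g : G)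
    (hg : ∀ x : P, ι ⟨φ x, hφ x⟩ = g * ι ⟨x, hP x.2⟩ * g⁻¹) : Function.Injective φ := by
  intro a b hab
  have h1 : ι ⟨φ a, hφ a⟩ = ι ⟨φ b, hφ b⟩ := by
    congr 1
    exact Subtype.ext hab
  rw [hg a, hg b] at h1
  have h2 : ι ⟨a, hP a.2⟩ = ι ⟨b, hP b.2⟩ := mul_left_cancel (mul_right_cancel h1)
  have h3 := congrArg Subtype.val (hι h2)
  exact Subtype.ext h3

/-- the fusion system on `S` pulled back from conjugation in `G` along an injective
homomorphism `ι : S →* G`. -/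
def pullSys (ι : S →* G) (hι : Function.Injective ι) : FusionSystem S where
  Hom P := {φ | ∃ (hP : P ≤ S) (hφ : ∀ x : P, φ x ∈ S), ∃ g : G,
    ∀ x : P, ι ⟨φ x, hφ x⟩ = g * ι ⟨x, hP x.2⟩ * g⁻¹}
  le_of_mem := by
    rintro P φ ⟨hP, hφ, -⟩
    exact ⟨hP, hφ⟩
  injective_of_mem := by
    rintro P φ ⟨hP, hφ, g, hg⟩
    exact pull_inj ι hι hP hφ g hg
  conj_mem := by
    intro P g hP hg
    refine ⟨hP, fun x => S.mul_mem (S.mul_mem hg (hP x.2)) (S.inv_mem hg), ι ⟨g, hg⟩,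
      fun x => ?_⟩
    rw [← map_inv, ← map_mul, ← map_mul]
    rfl
  comp_mem := by
    rintro P Q φ ψ ⟨hP, hφ, g, hg⟩ ⟨hQ, hψ, k, hk⟩ h
    refine ⟨hP, fun x => hψ _, k * g, fun x => ?_⟩
    have h1 := hk (φ.codRestrict Q h x)
    have h2 : (⟨((φ.codRestrict Q h x : Q) : Ω), hQ (φ.codRestrict Q h x).2⟩ : S)
        = ⟨φ x, hφ x⟩ := rfl
    rw [h2, hg x] at h1
    rw [mul_inv_rev]
    calc ι ⟨(ψ.comp (φ.codRestrict Q h)) x, hψ _⟩
        = k * (g * ι ⟨x, hP x.2⟩ * g⁻¹) * k⁻¹ := h1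
      _ = k * g * ι ⟨x, hP x.2⟩ * (g⁻¹ * k⁻¹) := by group
  inv_mem := by
    rintro P φ ⟨hP, hφ, g, hg⟩
    have hinj := pull_inj ι hι hP hφ g hg
    let e : P ≃* φ.range := MonoidHom.ofInjective hinj
    have he : ∀ x : P, ((e x : φ.range) : Ω) = φ x := fun x => rfl
    have hrS : φ.range ≤ S := by
      rintro _ ⟨x, rfl⟩
      exact hφ x
    refine ⟨P.subtype.comp e.symm.toMonoidHom, ⟨hrS, fun y => hP (e.symm y).2, g⁻¹, ?_⟩, ?_⟩
    · intro y
      obtain ⟨x, rfl⟩ := e.surjective y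
      have h1 : (P.subtype.comp e.symm.toMonoidHom) (e x) = (x : Ω) := by
        show ((e.symm (e x) : P) : Ω) = x
        rw [e.symm_apply_apply]
      have h2 : (⟨(P.subtype.comp e.symm.toMonoidHom) (e x), hP (e.symm (e x)).2⟩ : S)
          = ⟨x, hP x.2⟩ := Subtype.ext h1
      have h3 : (⟨((e x : φ.range) : Ω), hrS (e x).2⟩ : S) = ⟨φ x, hφ x⟩ := rfl
      rw [h2, h3, hg x]
      group
    · intro x
      have h1 : (⟨φ x, ⟨x, rfl⟩⟩ : φ.range) = e x := rfl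
      rw [h1]
      show ((e.symm (e x) : P) : Ω) = x
      rw [e.symm_apply_apply]

theorem pullSys_realized (ι : S →* G) (hι : Function.Injective ι) :
    (pullSys ι hι).IsRealizedBy ι := by
  refine ⟨hι, fun P hP φ hφ => ⟨?_, ?_⟩⟩
  · rintro ⟨_, _, g, hg⟩
    exact ⟨g, hg⟩
  · rintro ⟨g, hg⟩
    exact ⟨hP, hφ, g, hg⟩

/-- if `S` is normal in every saturated fusion system over `S` and `Aut(S)` has no nontrivial
`p'`-element, then every finite group with a Sylow `p`-subgroup isomorphic to `S` has a normal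
`p`-complement (Frobenius). -/
theorem exists_complement_of_resistant [Finite S] [Finite G] {p : ℕ} [Fact p.Prime]
    (ha : ∀ F : FusionSystem S, F.IsSaturated p → F.IsNormal S)
    (hb : ∀ α : MulAut S, (orderOf α).Coprime p → α = 1)
    (ι : S →* G) (hι : Function.Injective ι) (T : Sylow p G)
    (hT : (T : Subgroup G) = ι.range) :
    ∃ N : Subgroup G, N.Normal ∧ N.IsComplement' (T : Subgroup G) := by
  have hp : p.Prime := Fact.out
  have hsat : (pullSys ι hι).IsSaturated p :=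
    Helper85.realized_isSaturated (pullSys_realized ι hι) T hT
  have hn := ha (pullSys ι hι) hsat
  rw [Helper54.frobenius_sylow T]
  intro Q hQ g hg hcop
  let P : Subgroup Ω := (Q.comap ι).map S.subtype
  have hPS : P ≤ S := by
    rintro _ ⟨x, -, rfl⟩
    exact x.2
  have hPQ : ∀ x : P, ι ⟨x, hPS x.2⟩ ∈ Q := by
    rintro ⟨_, x, hx, rfl⟩
    exact hx
  have hQr : Q ≤ ι.range := hT ▸ hQ
  let e : S ≃* ι.range := MonoidHom.ofInjective hι
  have hgQ : ∀ y ∈ Q, g * y * g⁻¹ ∈ Q := fun y hy => (Subgroup.mem_normalizer_iff.1 hg y).1 hy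
  let f0 : P →* G := (MulAut.conj g).toMonoidHom.comp (ι.comp (Subgroup.inclusion hPS))
  have hf0 : ∀ x : P, f0 x = g * ι ⟨x, hPS x.2⟩ * g⁻¹ := fun x => rfl
  let f1 : P →* ι.range := f0.codRestrict ι.range (fun x => hQr (hgQ _ (hPQ x)))
  let φ : P →* Ω := S.subtype.comp (e.symm.toMonoidHom.comp f1)
  have hφS : ∀ x : P, φ x ∈ S := fun x => (e.symm (f1 x)).2
  have hφι : ∀ x : P, ι ⟨φ x, hφS x⟩ = g * ι ⟨x, hPS x.2⟩ * g⁻¹ := by
    intro x
    have h1 := e.apply_symm_apply (f1 x)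
    exact congrArg Subtype.val h1
  have hφF : φ ∈ (pullSys ι hι).Hom P := ⟨hPS, hφS, g, hφι⟩
  obtain ⟨α, -, hαx⟩ := Cfsg.Agent.S5283.exists_aut_of_isNormal_top (pullSys ι hι) hn hφF
  obtain ⟨k, hk⟩ : ∃ k, α ^ (p ^ k) = 1 := by
    have hpos : 0 < orderOf α := orderOf_pos α
    obtain ⟨k, m, hm, hkm⟩ := Nat.exists_eq_pow_mul_and_not_dvd hpos.ne' p hp.ne_one
    refine ⟨k, hb _ ?_⟩
    have h1 : orderOf (α ^ (p ^ k)) = m := by
      rw [orderOf_pow_of_dvd (pow_ne_zero k hp.ne_zero) (hkm ▸ dvd_mul_right _ _), hkm,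
        Nat.mul_div_cancel_left _ (pow_pos hp.pos k)]
    rw [h1]
    exact ((Nat.Prime.coprime_iff_not_dvd hp).2 hm).symm
  have hiter : ∀ j : ℕ, ∀ x : S, ι x ∈ Q →
      ι ((α ^ j) x) = g ^ j * ι x * (g ^ j)⁻¹ ∧ ι ((α ^ j) x) ∈ Q := by
    intro j
    induction j with
    | zero =>
      intro x hx
      simp [hx]
    | succ j ih =>
      intro x hx
      obtain ⟨h1, h2⟩ := ih x hx
      have hx'P : (((α ^ j) x : S) : Ω) ∈ P := ⟨(α ^ j) x, h2, rfl⟩
      have h3 := hαx ⟨_, hx'P⟩ ((α ^ j) x).2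
      have h4 := hφι ⟨_, hx'P⟩
      have h5 : ι ((α ^ (j + 1)) x) = g * ι ((α ^ j) x) * g⁻¹ := by
        rw [pow_succ', MulAut.mul_apply]
        have h6 : (α ((α ^ j) x) : S) = ⟨φ ⟨_, hx'P⟩, hφS _⟩ := Subtype.ext h3.symm
        rw [h6]
        exact h4
      refine ⟨?_, ?_⟩
      · rw [h5, h1, pow_succ']
        group
      · rw [h5]
        exact hgQ _ h2
  rw [Subgroup.mem_centralizer_iff]
  intro y hy
  obtain ⟨x, rfl⟩ := hQr hy
  have h1 := (hiter (p ^ k) x hy).1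
  rw [hk, MulAut.one_apply] at h1
  obtain ⟨m, hm⟩ := exists_pow_eq_self_of_coprime (x := g) (n := p ^ k)
    (Nat.Coprime.pow_left k hcop.symm)
  have h2 : Commute (g ^ (p ^ k)) (ι x) := by
    show g ^ (p ^ k) * ι x = ι x * g ^ (p ^ k)
    have h3 : ι x * g ^ (p ^ k) = (g ^ (p ^ k) * ι x * (g ^ (p ^ k))⁻¹) * g ^ (p ^ k) := by
      rw [← h1]
    rw [h3]
    group
  have h3 : Commute g (ι x) := by
    rw [← hm]
    exact h2.pow_left m
  exact h3.eq.symm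

end pull

section nocomp

variable {G : Type*} [Group G]

/-- a finite group with two elements `u, v` of odd order such that `u v u` is a nontrivial
`2`-element has no normal `2`-complement. -/
theorem no_complement [Finite G] (T : Sylow 2 G) (u v : G) (m₁ m₂ j : ℕ) (hm₁ : Odd m₁)
    (hm₂ : Odd m₂) (hu : u ^ m₁ = 1) (hv : v ^ m₂ = 1) (hw1 : u * v * u ≠ 1)
    (hw : (u * v * u) ^ (2 ^ j) = 1) :
    ¬ ∃ N : Subgroup G, N.Normal ∧ N.IsComplement' (T : Subgroup G) := by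
  haveI : Fact (Nat.Prime 2) := ⟨Nat.prime_two⟩
  rintro ⟨N, hN, hc⟩
  obtain ⟨-, hcop, k, hk⟩ := Helper54.isNormalPComplement_of_isComplement' hN hc
  haveI := hN
  have hmem : ∀ (x : G) (m : ℕ), Odd m → x ^ m = 1 → x ∈ N := by
    intro x m hm hx
    rw [← QuotientGroup.eq_one_iff]
    have h1 : (QuotientGroup.mk x : G ⧸ N) ^ m = 1 := by
      rw [← QuotientGroup.mk_pow, hx]
      rfl
    have h2 : (QuotientGroup.mk x : G ⧸ N) ^ (2 ^ k) = 1 := by
      have h3 : Nat.card (G ⧸ N) = 2 ^ k := hk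
      rw [← h3]
      exact pow_card_eq_one'
    have h3 : orderOf (QuotientGroup.mk x : G ⧸ N) ∣ Nat.gcd m (2 ^ k) :=
      Nat.dvd_gcd (orderOf_dvd_of_pow_eq_one h1) (orderOf_dvd_of_pow_eq_one h2)
    have h4 : Nat.gcd m (2 ^ k) = 1 := Nat.Coprime.pow_right k (Nat.coprime_two_right.2 hm)
    rw [h4, Nat.dvd_one, orderOf_eq_one_iff] at h3
    exact h3
  have hwN : u * v * u ∈ N :=
    N.mul_mem (N.mul_mem (hmem u m₁ hm₁ hu) (hmem v m₂ hm₂ hv)) (hmem u m₁ hm₁ hu)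
  have h1 : (⟨u * v * u, hwN⟩ : N) ^ Nat.card N = 1 := pow_card_eq_one'
  have h2 : (u * v * u) ^ Nat.card N = 1 := congrArg Subtype.val h1
  have h3 : orderOf (u * v * u) ∣ Nat.gcd (Nat.card N) (2 ^ j) :=
    Nat.dvd_gcd (orderOf_dvd_of_pow_eq_one h2) (orderOf_dvd_of_pow_eq_one hw)
  have h4 : Nat.gcd (Nat.card N) (2 ^ j) = 1 := Nat.Coprime.pow_right j hcop
  rw [h4, Nat.dvd_one, orderOf_eq_one_iff] at h3
  exact hw1 h3

theorem sylow_two_card [Finite G] (T : Sylow 2 G) (e m : ℕ) (hm : Odd m)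
    (h : Nat.card G = 2 ^ e * m) : Nat.card T = 2 ^ e := by
  haveI : Fact (Nat.Prime 2) := ⟨Nat.prime_two⟩
  obtain ⟨a, ha⟩ := IsPGroup.iff_card.1 T.isPGroup'
  have h1 : 2 ^ e ∣ Nat.card T := T.pow_dvd_card_of_pow_dvd_card (h ▸ dvd_mul_right _ _)
  have h2 : Nat.card T ∣ Nat.card G := Subgroup.card_subgroup_dvd_card _
  rw [ha] at h1 h2 ⊢
  rw [h] at h2
  have h3 : 2 ^ a ∣ 2 ^ e :=
    (Nat.Coprime.pow_left a (Nat.coprime_two_left.2 hm)).dvd_of_dvd_mul_right h2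
  exact Nat.dvd_antisymm h3 h1

end nocomp

end Cfsg.Agent.Lib.Helper42.MetaSup
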