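import Mathlib
import Cfsg.Prelude.Def_Local

/-!
# Group theory for the reduction to normal subsystems

Canonical normal subgroups between two subgroups `A ≤ B` of a group: `A` together with the
elements of `B` of order prime to `p` (resp. of `p`-power order), and the consequence of
`p`-solvability of `B / A` used for the induction.
-/

set_option autoImplicit false

namespace Cfsg.Agent.Lib.Helper42.Red

variable {M : Type*} [Group M]

/-- `A` together with the elements of `B` of order prime to `p`. -/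
def Kp (p : ℕ) (A B : Subgroup M) : Subgroup M :=
  A ⊔ Subgroup.closure {b : M | b ∈ B ∧ (orderOf b).Coprime p}

/-- `A` together with the elements of `B` of `p`-power order. -/
def Kq (p : ℕ) (A B : Subgroup M) : Subgroup M :=
  A ⊔ Subgroup.closure {b : M | b ∈ B ∧ ∃ k : ℕ, orderOf b = p ^ k}

theorem Kp_le {p : ℕ} {A B : Subgroup M} (h : A ≤ B) : Kp p A B ≤ B :=
  sup_le h ((Subgroup.closure_le _).2 (fun _ hb => hb.1))

theorem Kq_le {p : ℕ} {A B : Subgroup M} (h : A ≤ B) : Kq p A B ≤ B :=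
  sup_le h ((Subgroup.closure_le _).2 (fun _ hb => hb.1))

theorem le_Kp {p : ℕ} {A B : Subgroup M} : A ≤ Kp p A B := le_sup_left

theorem le_Kq {p : ℕ} {A B : Subgroup M} : A ≤ Kq p A B := le_sup_left

theorem mem_Kp_of_coprime {p : ℕ} {A B : Subgroup M} {b : M} (hb : b ∈ B)
    (ho : (orderOf b).Coprime p) : b ∈ Kp p A B :=
  Subgroup.mem_sup_right (Subgroup.subset_closure ⟨hb, ho⟩)

theorem mem_Kq_of_ppow {p : ℕ} {A B : Subgroup M} {b : M} (hb : b ∈ B)
    (ho : ∃ k : ℕ, orderOf b = p ^ k) : b ∈ Kq p A B :=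
  Subgroup.mem_sup_right (Subgroup.subset_closure ⟨hb, ho⟩)

theorem Kp_conj {p : ℕ} {A B : Subgroup M} {g : M} (hA : ∀ a ∈ A, g * a * g⁻¹ ∈ A)
    (hB : ∀ b ∈ B, g * b * g⁻¹ ∈ B) : ∀ k ∈ Kp p A B, g * k * g⁻¹ ∈ Kp p A B := by
  have hle : Kp p A B ≤ (Kp p A B).comap (MulAut.conj g).toMonoidHom := by
    refine sup_le ?_ ((Subgroup.closure_le _).2 ?_)
    · intro a ha
      exact Subgroup.mem_comap.2 (le_Kp (hA a ha))
    · rintro b ⟨hb, ho⟩
      have h1 : orderOf ((MulAut.conj g) b) = orderOf b := (MulAut.conj g).orderOf_eq b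
      rw [MulAut.conj_apply] at h1
      refine Subgroup.mem_comap.2 ?_
      show g * b * g⁻¹ ∈ Kp p A B
      exact mem_Kp_of_coprime (hB b hb) (by rw [h1]; exact ho)
  intro k hk
  exact Subgroup.mem_comap.1 (hle hk)

theorem Kq_conj {p : ℕ} {A B : Subgroup M} {g : M} (hA : ∀ a ∈ A, g * a * g⁻¹ ∈ A)
    (hB : ∀ b ∈ B, g * b * g⁻¹ ∈ B) : ∀ k ∈ Kq p A B, g * k * g⁻¹ ∈ Kq p A B := by
  have hle : Kq p A B ≤ (Kq p A B).comap (MulAut.conj g).toMonoidHom := by
    refine sup_le ?_ ((Subgroup.closure_le _).2 ?_)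
    · intro a ha
      exact Subgroup.mem_comap.2 (le_Kq (hA a ha))
    · rintro b ⟨hb, ho⟩
      have h1 : orderOf ((MulAut.conj g) b) = orderOf b := (MulAut.conj g).orderOf_eq b
      rw [MulAut.conj_apply] at h1
      refine Subgroup.mem_comap.2 ?_
      show g * b * g⁻¹ ∈ Kq p A B
      exact mem_Kq_of_ppow (hB b hb) (by rw [h1]; exact ho)
  intro k hk
  exact Subgroup.mem_comap.1 (hle hk)

theorem mem_of_pow_mem_coprime (H : Subgroup M) {x : M} {a b : ℕ} (ha : x ^ a ∈ H)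
    (hb : x ^ b ∈ H) (hab : Nat.Coprime a b) : x ∈ H := by
  have h1 := Nat.gcd_eq_gcd_ab a b
  rw [hab] at h1
  have h2 : x = (x ^ a) ^ (Nat.gcdA a b) * (x ^ b) ^ (Nat.gcdB a b) := by
    rw [← zpow_natCast x a, ← zpow_natCast x b, ← zpow_mul, ← zpow_mul, ← zpow_add, ← h1]
    simp
  rw [h2]
  exact H.mul_mem (H.zpow_mem ha _) (H.zpow_mem hb _)

theorem pow_relIndex_mem {Q : Type*} [Group Q] (N K : Subgroup Q) [hN : N.Normal] {y : Q}
    (hy : y ∈ K) : y ^ N.relIndex K ∈ N := by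
  have : (N.subgroupOf K).Normal := hN.subgroupOf K
  have h := Subgroup.pow_index_mem (N.subgroupOf K) (⟨y, hy⟩ : K)
  exact Subgroup.mem_subgroupOf.1 h

/-- the consequence of `p`-solvability of `B / A`: every subgroup `B'` strictly between is moved by
one of the two canonical constructions. -/
theorem hered_of_solv {p : ℕ} [Fact p.Prime] {A B : Subgroup M} (hAB : A ≤ B)
    [hn : (A.subgroupOf B).Normal]
    (hsolv : Cfsg.IsPSolvable p (↥B ⧸ A.subgroupOf B)) :
    ∀ B' : Subgroup M, A ≤ B' → B' ≤ B → B' ≠ A → Kp p A B' ≠ B' ∨ Kq p A B' ≠ B' := by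
  obtain ⟨n, H, h0, hlast, hmono, hnorm, hstep⟩ := hsolv
  intro B' hAB' hB'B hne
  have hex : ∃ b', b' ∈ B' ∧ b' ∉ A := by
    by_contra hcon
    push_neg at hcon
    exact hne (le_antisymm hcon hAB')
  obtain ⟨b', hb', hb'A⟩ := hex
  have key : ∀ i : ℕ, ∀ hi : i < n + 1,
      (∀ x (hx : x ∈ B'), (QuotientGroup.mk' (A.subgroupOf B)) ⟨x, hB'B hx⟩ ∈ H ⟨i, hi⟩) →
      ∃ j : Fin n,
        (¬ ∀ x (hx : x ∈ B'), (QuotientGroup.mk' (A.subgroupOf B)) ⟨x, hB'B hx⟩ ∈ H j.castSucc) ∧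
        ∀ x (hx : x ∈ B'), (QuotientGroup.mk' (A.subgroupOf B)) ⟨x, hB'B hx⟩ ∈ H j.succ := by
    intro i
    induction i with
    | zero =>
      intro hi h
      exfalso
      have h1 := h b' hb'
      have h2 : (⟨0, hi⟩ : Fin (n + 1)) = 0 := rfl
      rw [h2, h0, Subgroup.mem_bot, QuotientGroup.mk'_apply, QuotientGroup.eq_one_iff] at h1
      exact hb'A (Subgroup.mem_subgroupOf.1 h1)
    | succ i ih =>
      intro hi h
      by_cases hg : ∀ x (hx : x ∈ B'),
          (QuotientGroup.mk' (A.subgroupOf B)) ⟨x, hB'B hx⟩ ∈ H ⟨i, by omega⟩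
      · exact ih (by omega) hg
      · exact ⟨⟨i, by omega⟩, hg, h⟩
  obtain ⟨j, hj1, hj2⟩ := key n (by omega) (fun x hx => by
    have h2 : (⟨n, by omega⟩ : Fin (n + 1)) = Fin.last n := rfl
    rw [h2, hlast]; exact Subgroup.mem_top _)
  haveI := hnorm j.castSucc
  have hpow : ∀ x (hx : x ∈ B'), ((QuotientGroup.mk' (A.subgroupOf B)) ⟨x, hB'B hx⟩) ^ orderOf x
      ∈ H j.castSucc := by
    intro x hx
    have h1 : (⟨x, hB'B hx⟩ : B) ^ orderOf x = 1 := by
      apply Subtype.ext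
      simp [pow_orderOf_eq_one]
    rw [← map_pow, h1, map_one]
    exact Subgroup.one_mem _
  have hA' : ∀ a (ha : a ∈ A),
      (QuotientGroup.mk' (A.subgroupOf B)) ⟨a, hAB ha⟩ ∈ H j.castSucc := by
    intro a ha
    have h1 : (QuotientGroup.mk' (A.subgroupOf B)) ⟨a, hAB ha⟩ = 1 := by
      rw [QuotientGroup.mk'_apply, QuotientGroup.eq_one_iff]
      exact Subgroup.mem_subgroupOf.2 ha
    rw [h1]; exact Subgroup.one_mem _
  rcases hstep j with ⟨m, hm⟩ | hcop
  · left
    intro hK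
    apply hj1
    have hle : Kp p A B' ≤
        ((H j.castSucc).comap (QuotientGroup.mk' (A.subgroupOf B))).map B.subtype := by
      refine sup_le ?_ ((Subgroup.closure_le _).2 ?_)
      · intro a ha
        exact ⟨⟨a, hAB ha⟩, Subgroup.mem_comap.2 (hA' a ha), rfl⟩
      · rintro b ⟨hb, ho⟩
        refine ⟨⟨b, hB'B hb⟩, Subgroup.mem_comap.2 ?_, rfl⟩
        have h1 := pow_relIndex_mem (H j.castSucc) (H j.succ) (hj2 b hb)
        rw [hm] at h1
        exact mem_of_pow_mem_coprime _ (hpow b hb) h1 (Nat.Coprime.pow_right m ho)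
    intro x hx
    rw [← hK] at hx
    obtain ⟨y, hy, hyx⟩ := hle hx
    have e : y = ⟨x, hB'B (by rw [← hK]; exact hx)⟩ := Subtype.ext hyx
    rw [← e]
    exact Subgroup.mem_comap.1 hy
  · right
    intro hK
    apply hj1
    have hle : Kq p A B' ≤
        ((H j.castSucc).comap (QuotientGroup.mk' (A.subgroupOf B))).map B.subtype := by
      refine sup_le ?_ ((Subgroup.closure_le _).2 ?_)
      · intro a ha
        exact ⟨⟨a, hAB ha⟩, Subgroup.mem_comap.2 (hA' a ha), rfl⟩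
      · rintro b ⟨hb, k, hk⟩
        refine ⟨⟨b, hB'B hb⟩, Subgroup.mem_comap.2 ?_, rfl⟩
        have h1 := pow_relIndex_mem (H j.castSucc) (H j.succ) (hj2 b hb)
        have h2 := hpow b hb
        rw [hk] at h2
        exact mem_of_pow_mem_coprime _ h2 h1 (Nat.Coprime.pow_left k hcop.symm)
    intro x hx
    rw [← hK] at hx
    obtain ⟨y, hy, hyx⟩ := hle hx
    have e : y = ⟨x, hB'B (by rw [← hK]; exact hx)⟩ := Subtype.ext hyx
    rw [← e]
    exact Subgroup.mem_comap.1 hy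

/-- a normal subgroup containing all elements of `p`-power order has index prime to `p`. -/
theorem card_quot_coprime {G : Type*} [Group G] [Finite G] {p : ℕ} [hp : Fact p.Prime]
    (N : Subgroup G) [N.Normal] (h : ∀ g : G, (∃ k : ℕ, orderOf g = p ^ k) → g ∈ N) :
    (Nat.card (G ⧸ N)).Coprime p := by
  obtain ⟨P⟩ := (inferInstance : Nonempty (Sylow p G))
  have hPN : (P : Subgroup G) ≤ N := by
    intro g hg
    apply h
    obtain ⟨k, hk⟩ := P.isPGroup' ⟨g, hg⟩
    have h1 : g ^ p ^ k = 1 := by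
      have := congrArg Subtype.val hk
      simpa using this
    have h2 : orderOf g ∣ p ^ k := orderOf_dvd_of_pow_eq_one h1
    obtain ⟨j, -, hj⟩ := (Nat.dvd_prime_pow hp.out).1 h2
    exact ⟨j, hj⟩
  have h1 : N.index ∣ (P : Subgroup G).index := Subgroup.index_dvd_of_le hPN
  have h2 : ¬ p ∣ (P : Subgroup G).index := P.not_dvd_index
  have h3 : ¬ p ∣ Nat.card (G ⧸ N) := by
    rw [← Subgroup.index_eq_card]
    exact fun h4 => h2 (h4.trans h1)
  exact ((Nat.Prime.coprime_iff_not_dvd hp.out).2 h3).symm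

/-- a suitable `p`-power power of an element of finite order has order prime to `p`. -/
theorem exists_pow_coprime_order {G : Type*} [Group G] [Finite G] (p : ℕ) [hp : Fact p.Prime]
    (g : G) : ∃ k : ℕ, (orderOf (g ^ p ^ k)).Coprime p := by
  have hn : orderOf g ≠ 0 := (orderOf_pos g).ne'
  obtain ⟨e, m, hm, hnm⟩ := Nat.exists_eq_pow_mul_and_not_dvd hn p hp.out.ne_one
  refine ⟨e, ?_⟩
  have hpe : p ^ e ≠ 0 := pow_ne_zero _ hp.out.ne_zero
  rw [orderOf_pow' g hpe, hnm, Nat.gcd_eq_right (Dvd.intro _ rfl),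
    Nat.mul_div_cancel_left _ (Nat.pos_of_ne_zero hpe)]
  exact ((Nat.Prime.coprime_iff_not_dvd hp.out).2 hm).symm

end Cfsg.Agent.Lib.Helper42.Red
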