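import Mathlib
import Cfsg.Agent.Lib.Helper86.PPower
import Cfsg.Agent.Lib.Helper87.HPh
import Cfsg.Agent.Lib.Helper84.PPrimeRes2

/-!
# Residual subsystems and residual limits: formal properties

Transitivity properties of index prime to `p`, idempotence of the `p'`-residual, and existence of
the residual limit of a saturated fusion system.
-/

set_option autoImplicit false

namespace Cfsg.Agent.Lib.Helper42.Red

open Cfsg Cfsg.FusionSystem

variable {Ω : Type*} [Group Ω] {S : Subgroup Ω}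

/-- the subgroup generated by the elements of `p`-power order of a subgroup. -/
def Oq {M : Type*} [Group M] (p : ℕ) (A : Subgroup M) : Subgroup M :=
  Subgroup.closure {a : M | a ∈ A ∧ ∃ k : ℕ, orderOf a = p ^ k}

theorem map_Oq_eq {M : Type*} [Group M] (p : ℕ) (A : Subgroup M) :
    (Subgroup.closure {α : A | ∃ k : ℕ, orderOf α = p ^ k}).map A.subtype = Oq p A := by
  unfold Oq
  rw [MonoidHom.map_closure]
  congr 1
  ext a
  constructor
  · rintro ⟨α, ⟨k, hk⟩, rfl⟩
    refine ⟨α.2, k, ?_⟩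
    rw [← hk]
    exact Subgroup.orderOf_coe α
  · rintro ⟨ha, k, hk⟩
    refine ⟨⟨a, ha⟩, ⟨k, ?_⟩, rfl⟩
    rw [← hk]
    exact (Subgroup.orderOf_coe (⟨a, ha⟩ : A)).symm

theorem Oq_le {M : Type*} [Group M] (p : ℕ) (A : Subgroup M) : Oq p A ≤ A :=
  (Subgroup.closure_le _).2 (fun _ ha => ha.1)

theorem Oq_mono_of {M : Type*} [Group M] {p : ℕ} {X Y : Subgroup M}
    (h : ∀ a ∈ Y, (∃ k : ℕ, orderOf a = p ^ k) → a ∈ X) : Oq p Y ≤ Oq p X :=
  Subgroup.closure_mono (fun a ha => ⟨h a ha.1 ha.2, ha.2⟩)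

theorem Oq_mono {M : Type*} [Group M] {p : ℕ} {X Y : Subgroup M} (h : X ≤ Y) :
    Oq p X ≤ Oq p Y :=
  Subgroup.closure_mono (fun _ ha => ⟨h ha.1, ha.2⟩)

theorem primeIdx_iff {E F : FusionSystem S} {p : ℕ} :
    E.HasPrimeToPIndexIn F p ↔
      E.IsSubsystemOf F ∧ ∀ P : Subgroup Ω, P ≤ S → Oq p (F.autGroup P) ≤ E.autGroup P := by
  unfold FusionSystem.HasPrimeToPIndexIn
  constructor
  · rintro ⟨h1, h2⟩
    exact ⟨h1, fun P hP => by rw [← map_Oq_eq]; exact h2 P hP⟩
  · rintro ⟨h1, h2⟩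
    exact ⟨h1, fun P hP => by rw [map_Oq_eq]; exact h2 P hP⟩

theorem autGroup_mono' {T : Subgroup Ω} {E : FusionSystem T} {F : FusionSystem S}
    (h : E.IsSubsystemOf F) (P : Subgroup Ω) : E.autGroup P ≤ F.autGroup P := by
  unfold FusionSystem.autGroup
  exact Subgroup.closure_mono (fun α hα => h P hα)

theorem primeIdx_refl (F : FusionSystem S) (p : ℕ) : F.HasPrimeToPIndexIn F p :=
  primeIdx_iff.2 ⟨fun _ => subset_rfl, fun _ _ => Oq_le p _⟩

theorem primeIdx_trans {D'' D F : FusionSystem S} {p : ℕ} (h₁ : D''.HasPrimeToPIndexIn D p)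
    (h₂ : D.HasPrimeToPIndexIn F p) : D''.HasPrimeToPIndexIn F p := by
  rw [primeIdx_iff] at h₁ h₂ ⊢
  refine ⟨fun P => (h₁.1 P).trans (h₂.1 P), fun P hP => ?_⟩
  refine le_trans (Oq_mono_of (X := D.autGroup P) ?_) (h₁.2 P hP)
  intro a ha hk
  exact h₂.2 P hP (Subgroup.subset_closure ⟨ha, hk⟩)

theorem primeIdx_mid {D F₁ F : FusionSystem S} {p : ℕ} (hDF₁ : D.IsSubsystemOf F₁)
    (hF₁F : F₁.IsSubsystemOf F) (h : D.HasPrimeToPIndexIn F p) : D.HasPrimeToPIndexIn F₁ p := by
  rw [primeIdx_iff] at h ⊢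
  exact ⟨hDF₁, fun P hP => (Oq_mono (autGroup_mono' hF₁F P)).trans (h.2 P hP)⟩

/-- the `p'`-residual is its own `p'`-residual. -/
theorem pprime_idem {F D : FusionSystem S} {p : ℕ} (h : F.IsPPrimeResidual p D) :
    D.IsPPrimeResidual p D :=
  ⟨h.1, primeIdx_refl D p, fun D'' hsat hidx => h.2.2 D'' hsat (primeIdx_trans hidx h.2.1)⟩

/-- the `p'`-residual of `F` is the `p'`-residual of every saturated subsystem of index prime to
`p`. -/
theorem pprime_of_primeIdx {F F₁ D : FusionSystem S} {p : ℕ} (hsat : F₁.IsSaturated p)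
    (hidx : F₁.HasPrimeToPIndexIn F p) (h : F.IsPPrimeResidual p D) :
    F₁.IsPPrimeResidual p D :=
  ⟨h.1, primeIdx_mid (h.2.2 F₁ hsat hidx) hidx.1 h.2.1,
    fun D'' hsat'' hidx'' => h.2.2 D'' hsat'' (primeIdx_trans hidx'' hidx)⟩

/-- a residual limit is a subsystem. -/
theorem residualLimit_sub : ∀ {T : Subgroup Ω} (L : FusionSystem T) {S : Subgroup Ω}
    (F : FusionSystem S) (p : ℕ), L.IsResidualLimitOf F p → L.IsSubsystemOf F := by
  intro T L S F p h
  induction h with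
  | stable F p h1 h2 => exact fun _ => subset_rfl
  | step F p D D' hD hD' hlim ih =>
    exact fun P => ((ih P).trans (hD'.2.1.1 P)).trans (hD.2.1 P)

/-- existence of the residual limit. -/
theorem exists_residualLimit (p : ℕ) [Fact p.Prime] : ∀ n : ℕ, ∀ (S : Subgroup Ω)
    (F : FusionSystem S), Finite S → IsPGroup p S → F.IsSaturated p → Nat.card S = n →
    ∃ (V : Subgroup Ω) (L : FusionSystem V), L.IsResidualLimitOf F p := by
  intro n
  induction n using Nat.strong_induction_on with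
  | _ n ih =>
    intro S F hfin hS hF hn
    have hHS : F.hyperfocalSubgroup p ≤ S := Helper86.hyperfocal_le F p
    haveI hfinH : Finite (F.hyperfocalSubgroup p) := Helper84.finite_of_le hHS
    have hHp : IsPGroup p (F.hyperfocalSubgroup p) := hS.to_le hHS
    obtain ⟨A, ⟨hAsat, hAidx⟩, -⟩ :=
      Helper87.ppow_exists_unique87 p hS F hF (F.hyperfocalSubgroup p) hHS le_rfl
    obtain ⟨A', hA'⟩ := Helper84.PPrimeRes.exists_pPrimeResidual p hHp A hAsat
    have hA : F.IsPResidual p A := ⟨hAsat, hAidx⟩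
    have hcardH : Nat.card (F.hyperfocalSubgroup p) ≤ Nat.card S :=
      Subgroup.card_le_of_le hHS
    by_cases hc : Nat.card (F.hyperfocalSubgroup p) < n
    · obtain ⟨V, L, hL⟩ := ih _ hc (F.hyperfocalSubgroup p) A' hfinH hHp hA'.1 rfl
      exact ⟨V, L, IsResidualLimitOf.step F p A A' hA hA' hL⟩
    · have hH2 : A'.hyperfocalSubgroup p ≤ F.hyperfocalSubgroup p :=
        Helper86.hyperfocal_le A' p
      haveI hfinH2 : Finite (A'.hyperfocalSubgroup p) := Helper84.finite_of_le hH2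
      have hH2p : IsPGroup p (A'.hyperfocalSubgroup p) := hHp.to_le hH2
      obtain ⟨B, ⟨hBsat, hBidx⟩, -⟩ :=
        Helper87.ppow_exists_unique87 p hHp A' hA'.1 (A'.hyperfocalSubgroup p) hH2 le_rfl
      obtain ⟨B', hB'⟩ := Helper84.PPrimeRes.exists_pPrimeResidual p hH2p B hBsat
      by_cases hc2 : Nat.card (A'.hyperfocalSubgroup p) < n
      · obtain ⟨V, L, hL⟩ := ih _ hc2 (A'.hyperfocalSubgroup p) B' hfinH2 hH2p hB'.1 rfl
        exact ⟨V, L, IsResidualLimitOf.step F p A A' hA hA'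
          (IsResidualLimitOf.step A' p B B' ⟨hBsat, hBidx⟩ hB' hL)⟩
      · have heq : A'.hyperfocalSubgroup p = F.hyperfocalSubgroup p := by
          apply Subgroup.eq_of_le_of_card_ge hH2
          omega
        exact ⟨_, A', IsResidualLimitOf.step F p A A' hA hA'
          (IsResidualLimitOf.stable A' p heq (pprime_idem hA'))⟩

theorem exists_residualLimit' [Finite S] (p : ℕ) [Fact p.Prime] (hS : IsPGroup p S)
    (F : FusionSystem S) (hF : F.IsSaturated p) :
    ∃ (V : Subgroup Ω) (L : FusionSystem V), L.IsResidualLimitOf F p :=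
  exists_residualLimit p _ S F inferInstance hS hF rfl

end Cfsg.Agent.Lib.Helper42.Red
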