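import Mathlib
import Cfsg.Agent.Lib.Helper24.ClassTwo

/-!
Helper42: power-sum operators for a group acting on an abelian group, and a
"centralizer-avoiding vector" lemma (`Eprime`) for `p`-groups (`p` odd) with a central element `z`
of order `p` acting fixed-point-freely and a normal subgroup `W` of exponent `p` with
`[W, S] ≤ ⟨z⟩`: there is a vector whose stabilizer in `S` centralizes `W`.
-/

set_option autoImplicit false

namespace Cfsg.Agent.Lib.Helper42.Wie

section basic

variable {Γ N : Type*} [Group Γ] [AddCommGroup N] [DistribMulAction Γ N]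

theorem smul_pow_fixed {g : Γ} {m : N} (h : g • m = m) (n : ℕ) : (g ^ n) • m = m := by
  induction n with
  | zero => simp
  | succ n ih => rw [pow_succ, mul_smul, h, ih]

theorem smul_zpowers_fixed {g g' : Γ} {m : N} (h : g • m = m) (hg' : g' ∈ Subgroup.zpowers g) :
    g' • m = m := by
  have h1 : Subgroup.zpowers g ≤ MulAction.stabilizer Γ m := by
    rw [Subgroup.zpowers_le]
    exact h
  exact h1 hg'

theorem pow_smul_mem {M : AddSubgroup N} {g : Γ} (hg : ∀ m ∈ M, g • m ∈ M) (n : ℕ) {m : N}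
    (hm : m ∈ M) : (g ^ n) • m ∈ M := by
  induction n with
  | zero => simpa using hm
  | succ n ih => rw [pow_succ', mul_smul]; exact hg _ ih

/-- the power-sum operator `1 + g + ... + g^(p-1)` -/
def psum (p : ℕ) (g : Γ) (m : N) : N := ∑ t ∈ Finset.range p, (g ^ t) • m

theorem psum_fixed {p : ℕ} {g : Γ} (hg : g ^ p = 1) (m : N) : g • psum p g m = psum p g m := by
  unfold psum
  rw [Finset.smul_sum]
  have h1 : ∑ t ∈ Finset.range p, g • (g ^ t) • m = ∑ t ∈ Finset.range p, (g ^ (t + 1)) • m := by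
    refine Finset.sum_congr rfl fun t _ => ?_
    rw [smul_smul, ← pow_succ']
  rw [h1]
  have h2 := Finset.sum_range_succ (fun t => (g ^ t) • m) p
  have h3 := Finset.sum_range_succ' (fun t => (g ^ t) • m) p
  rw [h2] at h3
  simp only [hg, one_smul, pow_zero] at h3
  exact (add_right_cancel h3).symm

theorem psum_of_fixed {p : ℕ} {g : Γ} {m : N} (h : g • m = m) : psum p g m = p • m := by
  unfold psum
  rw [Finset.sum_congr rfl (fun t _ => smul_pow_fixed h t)]
  simp

theorem psum_add (p : ℕ) (g : Γ) (m m' : N) : psum p g (m + m') = psum p g m + psum p g m' := by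
  unfold psum
  rw [← Finset.sum_add_distrib]
  exact Finset.sum_congr rfl fun t _ => smul_add _ _ _

theorem psum_comm {p : ℕ} {g h : Γ} (hc : Commute h g) (m : N) :
    h • psum p g m = psum p g (h • m) := by
  unfold psum
  rw [Finset.smul_sum]
  refine Finset.sum_congr rfl fun t _ => ?_
  rw [smul_smul, smul_smul, (hc.pow_right t).eq]

theorem psum_mem {p : ℕ} {g : Γ} {M : AddSubgroup N} (hg : ∀ m ∈ M, g • m ∈ M) {m : N}
    (hm : m ∈ M) : psum p g m ∈ M := by
  unfold psum
  exact AddSubgroup.sum_mem _ fun t _ => pow_smul_mem hg t hm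

theorem fixed_of_pow_fixed {p : ℕ} (hp : p.Prime) {z : Γ} (hz : z ^ p = 1) {t : ℕ}
    (ht0 : t % p ≠ 0) {x : N} (h : (z ^ t) • x = x) : z • x = x := by
  have hcop : Nat.Coprime t p := by
    rw [Nat.coprime_comm, hp.coprime_iff_not_dvd]
    intro hd
    exact ht0 (Nat.mod_eq_zero_of_dvd hd)
  obtain ⟨m, -, hm⟩ := Nat.exists_mul_mod_eq_one_of_coprime hcop hp.one_lt
  have h1 : (z ^ t) ^ m = z := by
    rw [← pow_mul, pow_eq_pow_mod (t * m) hz, hm, pow_one]
  have h2 := smul_pow_fixed h m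
  rwa [h1] at h2

theorem eq_zero_of_two_weights {p : ℕ} (hp : p.Prime) {z b : Γ} (hz : z ^ p = 1)
    {M : AddSubgroup N} (hbM : ∀ m ∈ M, b • m ∈ M)
    (hfpf : ∀ m ∈ M, z • m = m → m = 0) {i k : ℕ} (hik : ¬ k ≡ i [MOD p]) {x : N} (hx : x ∈ M)
    (h1 : (z ^ i * b) • x = x) (h2 : (z ^ k * b) • x = x) : x = 0 := by
  wlog hki : k ≤ i generalizing i k
  · exact this (fun h => hik h.symm) h2 h1 (le_of_not_ge hki)
  have hyM : b • x ∈ M := hbM x hx
  have e1 : (z ^ i) • (b • x) = x := by rw [← mul_smul]; exact h1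
  have e2 : (z ^ k) • (b • x) = x := by rw [← mul_smul]; exact h2
  have e3 : (z ^ (i - k)) • (b • x) = b • x := by
    have : (z ^ k) • ((z ^ (i - k)) • (b • x)) = (z ^ k) • (b • x) := by
      rw [← mul_smul, ← pow_add, Nat.add_sub_cancel' hki, e1, e2]
    exact smul_left_cancel _ this
  have ht : (i - k) % p ≠ 0 := by
    intro h0
    exact hik ((Nat.modEq_iff_dvd' hki).mpr (Nat.dvd_of_mod_eq_zero h0))
  have hzy : z • (b • x) = b • x := fixed_of_pow_fixed hp hz ht e3
  have hy0 : b • x = 0 := hfpf _ hyM hzy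
  rw [← e2, hy0, smul_zero]

theorem psum_weight {p : ℕ} (hp : p.Prime) {z b : Γ} (hzb : Commute z b) (hz : z ^ p = 1)
    (hb : b ^ p = 1) {M : AddSubgroup N} (hzM : ∀ m ∈ M, z • m ∈ M) (hbM : ∀ m ∈ M, b • m ∈ M)
    (hfpf : ∀ m ∈ M, z • m = m → m = 0) (i k : ℕ) {m : N} (hm : m ∈ M)
    (h1 : (z ^ i * b) • m = m) :
    psum p (z ^ k * b) m = if k ≡ i [MOD p] then p • m else 0 := by
  split_ifs with h
  · have : z ^ k = z ^ i := by
      rw [pow_eq_pow_mod k hz, pow_eq_pow_mod i hz, h]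
    rw [this]
    exact psum_of_fixed h1
  · have hgM : ∀ m ∈ M, (z ^ k * b) • m ∈ M := fun m hm => by
      rw [mul_smul]
      exact pow_smul_mem hzM k (hbM m hm)
    have hx : psum p (z ^ k * b) m ∈ M := psum_mem hgM hm
    have hpow : (z ^ k * b) ^ p = 1 := by
      rw [(hzb.pow_left k).mul_pow, ← pow_mul, mul_comm k p, pow_mul, hz, one_pow, hb, one_mul]
    have hcomm : Commute (z ^ i * b) (z ^ k * b) := by
      have h1 : Commute (z ^ i) (z ^ k) := (Commute.refl z).pow_pow i k
      have h2 : Commute (z ^ i) b := hzb.pow_left i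
      have h3 : Commute (z ^ k) b := hzb.pow_left k
      exact (h1.mul_right h2).mul_left (h3.symm.mul_right (Commute.refl b))
    apply eq_zero_of_two_weights hp hz hbM hfpf h hx
    · rw [psum_comm hcomm, h1]
    · exact psum_fixed hpow m

theorem psum_dec {p : ℕ} (hp : p.Prime) {z b : Γ} (hzb : Commute z b) (hz : z ^ p = 1)
    {M : AddSubgroup N} (hzM : ∀ m ∈ M, z • m ∈ M) (hbM : ∀ m ∈ M, b • m ∈ M)
    (hfpf : ∀ m ∈ M, z • m = m → m = 0) {m : N} (hm : m ∈ M) :
    ∑ k ∈ Finset.range p, psum p (z ^ k * b) m = p • m := by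
  unfold psum
  rw [Finset.sum_comm]
  have hterm : ∀ t ∈ Finset.range p,
      ∑ k ∈ Finset.range p, ((z ^ k * b) ^ t) • m = if t = 0 then p • m else 0 := by
    intro t ht
    have ht' : t < p := Finset.mem_range.mp ht
    split_ifs with h0
    · subst h0; simp
    · have e : ∑ k ∈ Finset.range p, ((z ^ k * b) ^ t) • m = psum p (z ^ t) ((b ^ t) • m) := by
        unfold psum
        refine Finset.sum_congr rfl fun k _ => ?_
        rw [(hzb.pow_left k).mul_pow, mul_smul, ← pow_mul, ← pow_mul, mul_comm k t]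
      rw [e]
      have hbt : (b ^ t) • m ∈ M := pow_smul_mem hbM t hm
      have hx : psum p (z ^ t) ((b ^ t) • m) ∈ M :=
        psum_mem (fun m hm => pow_smul_mem hzM t hm) hbt
      have hfix : (z ^ t) • psum p (z ^ t) ((b ^ t) • m) = psum p (z ^ t) ((b ^ t) • m) :=
        psum_fixed (by rw [← pow_mul, mul_comm, pow_mul, hz, one_pow]) _
      have : t % p ≠ 0 := by rw [Nat.mod_eq_of_lt ht']; exact h0
      exact hfpf _ hx (fixed_of_pow_fixed hp hz this hfix)
  rw [Finset.sum_congr rfl hterm, Finset.sum_ite_eq']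
  simp [hp.pos]

theorem zpowers_eq_of_mem {G : Type*} [Group G] [Finite G] {p : ℕ} (hp : p.Prime) {z z' : G}
    (hz : z ^ p = 1) (hmem : z' ∈ Subgroup.zpowers z) (h1 : z' ≠ 1) :
    Subgroup.zpowers z' = Subgroup.zpowers z := by
  have hz1 : z ≠ 1 := by
    rintro rfl
    rw [Subgroup.zpowers_one_eq_bot, Subgroup.mem_bot] at hmem
    exact h1 hmem
  have ho : orderOf z = p := by
    rcases (Nat.dvd_prime hp).mp (orderOf_dvd_of_pow_eq_one hz) with h | h
    · exact absurd (orderOf_eq_one_iff.mp h) hz1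
    · exact h
  obtain ⟨k, rfl⟩ := Subgroup.mem_zpowers_iff.mp hmem
  have hz'p : (z ^ k) ^ p = 1 := by
    rw [← zpow_natCast, ← zpow_mul, mul_comm, zpow_mul, zpow_natCast, hz, one_zpow]
  have ho' : orderOf (z ^ k) = p := by
    rcases (Nat.dvd_prime hp).mp (orderOf_dvd_of_pow_eq_one hz'p) with h | h
    · exact absurd (orderOf_eq_one_iff.mp h) h1
    · exact h
  apply Subgroup.eq_of_le_of_card_ge
  · exact Subgroup.zpowers_le.mpr hmem
  · rw [Nat.card_zpowers, Nat.card_zpowers, ho, ho']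

end basic

end Cfsg.Agent.Lib.Helper42.Wie
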