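import Mathlib
import Cfsg.Agent.Lib.Helper42.WieA

/-!
Helper42: the lemma `Eprime`.  A finite group `S` acting on an abelian group, `z ∈ Z(S)` of order
`p` (odd) acting fixed-point-freely on an `S`-invariant subgroup `M ≠ 0`, `W ⊴ S` of exponent `p`
with `[W, S] ≤ ⟨z⟩`: some nonzero `v ∈ M` has stabilizer in `S` centralizing `W`.
-/

set_option autoImplicit false

namespace Cfsg.Agent.Lib.Helper42.Wie

variable {Γ N : Type*} [Group Γ] [AddCommGroup N] [DistribMulAction Γ N]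

/-- the data of `Eprime` -/
structure EData (p : ℕ) (S W : Subgroup Γ) (M : AddSubgroup N) (z : Γ) : Prop where
  zS : z ∈ S
  zc : ∀ s ∈ S, z * s = s * z
  zp : z ^ p = 1
  SM : ∀ s ∈ S, ∀ m ∈ M, s • m ∈ M
  fpf : ∀ m ∈ M, z • m = m → m = 0
  WS : W ≤ S
  Wn : ∀ s ∈ S, ∀ w ∈ W, s * w * s⁻¹ ∈ W
  Wp : ∀ w ∈ W, w ^ p = 1
  Wc : ∀ w ∈ W, ∀ s ∈ S, w⁻¹ * (s * w * s⁻¹) ∈ Subgroup.zpowers z

theorem exists_ne_zero_of_ne_bot {M : AddSubgroup N} (hM : M ≠ ⊥) : ∃ v ∈ M, v ≠ 0 := by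
  by_contra h
  push_neg at h
  exact hM ((AddSubgroup.eq_bot_iff_forall M).mpr h)

/-- conjugation data: for `s ∈ S`, `s * b = b * z ^ j * s` for some `j < p` -/
theorem EData.exists_shift [Finite Γ] {p : ℕ} (hp : p.Prime) {S W : Subgroup Γ} {M : AddSubgroup N}
    {z : Γ} (hD : EData p S W M z) {b : Γ} (hbW : b ∈ W) {s : Γ} (hs : s ∈ S) :
    ∃ j < p, s * b = b * z ^ j * s := by
  have h1 := hD.Wc b hbW s hs
  rw [← mem_powers_iff_mem_zpowers] at h1
  obtain ⟨j, hj0⟩ := h1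
  have hj : z ^ j = b⁻¹ * (s * b * s⁻¹) := hj0
  refine ⟨j % p, Nat.mod_lt _ hp.pos, ?_⟩
  rw [← pow_eq_pow_mod j hD.zp, hj]
  group

/-- weight shift -/
theorem EData.shift {p : ℕ} {S W : Subgroup Γ} {M : AddSubgroup N}
    {z : Γ} (hD : EData p S W M z) {b : Γ} (hbS : b ∈ S) {s : Γ} (hs : s ∈ S) {j : ℕ}
    (hj : s * b = b * z ^ j * s) (i : ℕ) {m : N} (hm : (z ^ i * b) • m = m) :
    (z ^ (i + j) * b) • (s • m) = s • m := by
  have hzs : Commute z s := hD.zc s hs
  have hzb : Commute z b := hD.zc b hbS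
  have e : z ^ (i + j) * b * s = s * (z ^ i * b) := by
    calc z ^ (i + j) * b * s = z ^ i * (z ^ j * b) * s := by rw [pow_add]; group
      _ = z ^ i * (b * z ^ j * s) := by rw [(hzb.pow_left j).eq]; group
      _ = z ^ i * (s * b) := by rw [hj]
      _ = s * (z ^ i * b) := by rw [← mul_assoc, (hzs.pow_left i).eq, mul_assoc]
  rw [← mul_smul, e, mul_smul, hm]

theorem Estep [Finite Γ] {p : ℕ} (hp : p.Prime) (hp2 : p ≠ 2) (hN : ∀ m : N, p • m = 0 → m = 0)
    {S W : Subgroup Γ} {M : AddSubgroup N} {z : Γ} (hD : EData p S W M z) (hM : M ≠ ⊥)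
    {b c : Γ} (hbW : b ∈ W) (hcS : c ∈ S) (hcb : c * b * c⁻¹ = b * z) (hz1 : z ≠ 1)
    (hc : c ∈ W ∨ ∀ w ∈ W, w * b = b * w)
    (ih : ∀ (S' W' : Subgroup Γ) (M' : AddSubgroup N) (z' : Γ), Nat.card S' < Nat.card S →
      EData p S' W' M' z' → M' ≠ ⊥ →
      ∃ v ∈ M', v ≠ 0 ∧ ∀ s ∈ S', s • v = v → ∀ w ∈ W', s * w = w * s) :
    ∃ v ∈ M, v ≠ 0 ∧ ∀ s ∈ S, s • v = v → ∀ w ∈ W, s * w = w * s := by
  have hbS : b ∈ S := hD.WS hbW
  have hzb : Commute z b := hD.zc b hbS
  have hzc : Commute z c := hD.zc c hcS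
  have hbp : b ^ p = 1 := hD.Wp b hbW
  have hzM : ∀ m ∈ M, z • m ∈ M := hD.SM z hD.zS
  have hbM : ∀ m ∈ M, b • m ∈ M := hD.SM b hbS
  have hcM : ∀ m ∈ M, c • m ∈ M := hD.SM c hcS
  have hp3 : 3 ≤ p := by
    have := hp.two_le
    omega
  have hpN : ∀ m m' : N, p • m = p • m' → m = m' := by
    intro m m' h
    have : p • (m - m') = 0 := by rw [smul_sub, h, sub_self]
    exact sub_eq_zero.mp (hN _ this)
  -- c shifts weights by one
  have hcb' : c * b = b * z ^ 1 * c := by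
    rw [pow_one]
    calc c * b = c * b * c⁻¹ * c := by group
      _ = b * z * c := by rw [hcb]
  have hcpow : ∀ n : ℕ, c ^ n * b = b * z ^ n * c ^ n := by
    intro n
    induction n with
    | zero => simp
    | succ n ih =>
      calc c ^ (n + 1) * b = c ^ n * (c * b) := by rw [pow_succ]; group
        _ = c ^ n * (b * z ^ 1 * c) := by rw [hcb']
        _ = (c ^ n * b) * z * c := by rw [pow_one]; group
        _ = b * z ^ n * c ^ n * z * c := by rw [ih]
        _ = b * z ^ n * (c ^ n * z) * c := by group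
        _ = b * z ^ n * (z * c ^ n) * c := by rw [(hzc.pow_right n).eq]
        _ = b * z ^ (n + 1) * c ^ (n + 1) := by rw [pow_succ, pow_succ]; group
  -- the subgroup S_b
  set Sb : Subgroup Γ := S ⊓ Subgroup.centralizer {b} with hSb
  have hmemSb : ∀ s : Γ, s ∈ Sb ↔ s ∈ S ∧ s * b = b * s := by
    intro s
    rw [hSb, Subgroup.mem_inf, Subgroup.mem_centralizer_iff]
    constructor
    · rintro ⟨h1, h2⟩
      exact ⟨h1, (h2 b rfl).symm⟩
    · rintro ⟨h1, h2⟩
      exact ⟨h1, fun h hh => by rw [Set.mem_singleton_iff.mp hh]; exact h2.symm⟩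
  have hcnot : c ∉ Sb := by
    intro h
    have h2 := ((hmemSb c).mp h).2
    apply hz1
    have : b * z = b := by
      rw [← hcb, h2]
      group
    exact mul_left_cancel (this.trans (mul_one b).symm)
  have hSble : Sb ≤ S := inf_le_left
  have hcard : Nat.card Sb < Nat.card S := by
    have h1 : Nat.card Sb ≤ Nat.card S := Nat.le_of_dvd Nat.card_pos (Subgroup.card_dvd_of_le hSble)
    rcases Nat.lt_or_ge (Nat.card Sb) (Nat.card S) with h | h
    · exact h
    · exact absurd (Subgroup.eq_of_le_of_card_ge hSble h ▸ hcS) hcnot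
  -- the module M0
  let M0 : AddSubgroup N :=
    { carrier := {m | m ∈ M ∧ b • m = m}
      zero_mem' := ⟨M.zero_mem, smul_zero b⟩
      add_mem' := fun ha hb => ⟨M.add_mem ha.1 hb.1, by rw [smul_add, ha.2, hb.2]⟩
      neg_mem' := fun ha => ⟨M.neg_mem ha.1, by rw [smul_neg, ha.2]⟩ }
  have hM0mem : ∀ m : N, m ∈ M0 ↔ m ∈ M ∧ b • m = m := fun m => Iff.rfl
  -- iterated shift by c
  have hcshift : ∀ (n i : ℕ) (m : N), (z ^ i * b) • m = m →
      (z ^ (i + n) * b) • ((c ^ n) • m) = (c ^ n) • m := by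
    intro n i m hm
    exact hD.shift hbS (S.pow_mem hcS n) (hcpow n) i hm
  have hM0 : M0 ≠ ⊥ := by
    obtain ⟨m, hm, hm0⟩ := exists_ne_zero_of_ne_bot hM
    have hdec := psum_dec hp hzb hD.zp hzM hbM hD.fpf hm
    have hpm : p • m ≠ 0 := fun h => hm0 (hN m h)
    obtain ⟨k, hk, hk0⟩ : ∃ k ∈ Finset.range p, psum p (z ^ k * b) m ≠ 0 := by
      by_contra hcon
      push_neg at hcon
      exact hpm (hdec ▸ Finset.sum_eq_zero hcon)
    have hkp : k < p := Finset.mem_range.mp hk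
    have hgM : ∀ m ∈ M, (z ^ k * b) • m ∈ M := fun m hm => by
      rw [mul_smul]
      exact pow_smul_mem hzM k (hbM m hm)
    have hxM : psum p (z ^ k * b) m ∈ M := psum_mem hgM hm
    have hpow : (z ^ k * b) ^ p = 1 := by
      rw [(hzb.pow_left k).mul_pow, ← pow_mul, mul_comm k p, pow_mul, hD.zp, one_pow, hbp, one_mul]
    have hxfix := psum_fixed (N := N) hpow m
    have h2 := hcshift (p - k) k _ hxfix
    rw [Nat.add_sub_cancel' hkp.le, hD.zp, one_mul] at h2
    intro hbot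
    have hmem : (c ^ (p - k)) • psum p (z ^ k * b) m ∈ M0 :=
      (hM0mem _).mpr ⟨pow_smul_mem hcM _ hxM, h2⟩
    rw [hbot, AddSubgroup.mem_bot] at hmem
    exact hk0 ((smul_eq_zero_iff_eq _).mp hmem)
  -- data for the induction
  have hD0 : EData p Sb (W ⊓ Sb) M0 z := by
    refine ⟨(hmemSb z).mpr ⟨hD.zS, hzb.eq⟩, fun s hs => hD.zc s (hSble hs), hD.zp, ?_,
      fun m hm => hD.fpf m hm.1, inf_le_right, ?_, fun w hw => hD.Wp w hw.1,
      fun w hw s hs => hD.Wc w hw.1 s (hSble hs)⟩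
    · intro s hs m hm
      have hs' := (hmemSb s).mp hs
      refine (hM0mem _).mpr ⟨hD.SM s hs'.1 m hm.1, ?_⟩
      rw [← mul_smul, ← hs'.2, mul_smul, hm.2]
    · intro s hs w hw
      exact ⟨hD.Wn s (hSble hs) w hw.1, Sb.mul_mem (Sb.mul_mem hs hw.2) (Sb.inv_mem hs)⟩
  obtain ⟨v0, hv0M, hv0, hv0prop⟩ := ih Sb (W ⊓ Sb) M0 z hcard hD0 hM0
  have hv0M' : v0 ∈ M := hv0M.1
  have hbv0 : b • v0 = v0 := hv0M.2
  have hw0 : (z ^ 0 * b) • v0 = v0 := by rw [pow_zero, one_mul]; exact hbv0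
  have hw1 : (z ^ 1 * b) • (c • v0) = c • v0 := by
    have := hD.shift hbS hcS hcb' 0 hw0
    rwa [zero_add] at this
  have hcv0M : c • v0 ∈ M := hcM _ hv0M'
  have hcv0 : c • v0 ≠ 0 := fun h => hv0 ((smul_eq_zero_iff_eq _).mp h)
  have hn01 : ¬ (0 ≡ 1 [MOD p]) := by
    intro h
    have h' : 0 % p = 1 % p := h
    rw [Nat.zero_mod, Nat.mod_eq_of_lt (by omega)] at h'
    omega
  have hn10 : ¬ (1 ≡ 0 [MOD p]) := fun h => hn01 h.symm
  have hlt : ∀ a b' : ℕ, a < p → b' < p → a ≡ b' [MOD p] → a = b' := by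
    intro a b' ha hb' h
    have h' : a % p = b' % p := h
    rwa [Nat.mod_eq_of_lt ha, Nat.mod_eq_of_lt hb'] at h'
  refine ⟨v0 + c • v0, M.add_mem hv0M' hcv0M, ?_, ?_⟩
  · intro h
    have h1 := congrArg (psum p (z ^ 0 * b)) h
    rw [psum_add, psum_weight hp hzb hD.zp hbp hzM hbM hD.fpf 0 0 hv0M' hw0,
      psum_weight hp hzb hD.zp hbp hzM hbM hD.fpf 1 0 hcv0M hw1, if_pos (Nat.ModEq.refl 0),
      if_neg hn01, add_zero] at h1
    have h2 : psum p (z ^ 0 * b) (0 : N) = 0 := by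
      unfold psum
      simp
    rw [h2] at h1
    exact hv0 (hN _ h1)
  · intro s hs hsv w hw
    obtain ⟨j, hjp, hj⟩ := hD.exists_shift hp hbW hs
    have hsM : ∀ m ∈ M, s • m ∈ M := hD.SM s hs
    have hws0 : (z ^ j * b) • (s • v0) = s • v0 := by
      have := hD.shift hbS hs hj 0 hw0
      rwa [zero_add] at this
    have hws1 : (z ^ (1 + j) * b) • (s • (c • v0)) = s • (c • v0) :=
      hD.shift hbS hs hj 1 hw1
    have hsv' : s • v0 + s • (c • v0) = v0 + c • v0 := by rw [← smul_add]; exact hsv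
    have hE0 := congrArg (psum p (z ^ 0 * b)) hsv'
    rw [psum_add, psum_add, psum_weight hp hzb hD.zp hbp hzM hbM hD.fpf j 0 (hsM _ hv0M') hws0,
      psum_weight hp hzb hD.zp hbp hzM hbM hD.fpf (1 + j) 0 (hsM _ hcv0M) hws1,
      psum_weight hp hzb hD.zp hbp hzM hbM hD.fpf 0 0 hv0M' hw0,
      psum_weight hp hzb hD.zp hbp hzM hbM hD.fpf 1 0 hcv0M hw1, if_pos (Nat.ModEq.refl 0),
      if_neg hn01, add_zero] at hE0
    have hE1 := congrArg (psum p (z ^ 1 * b)) hsv'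
    rw [psum_add, psum_add, psum_weight hp hzb hD.zp hbp hzM hbM hD.fpf j 1 (hsM _ hv0M') hws0,
      psum_weight hp hzb hD.zp hbp hzM hbM hD.fpf (1 + j) 1 (hsM _ hcv0M) hws1,
      psum_weight hp hzb hD.zp hbp hzM hbM hD.fpf 0 1 hv0M' hw0,
      psum_weight hp hzb hD.zp hbp hzM hbM hD.fpf 1 1 hcv0M hw1, if_neg hn10,
      if_pos (Nat.ModEq.refl 1), zero_add] at hE1
    -- j = 0
    have hj0 : j = 0 := by
      by_contra hjne
      have c1 : ¬ (0 ≡ j [MOD p]) := fun h => hjne (hlt 0 j hp.pos hjp h).symm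
      have c2 : ¬ (1 ≡ 1 + j [MOD p]) := by
        intro h
        have h' : 1 + 0 ≡ 1 + j [MOD p] := h
        have h'' := Nat.ModEq.add_left_cancel' 1 h'
        exact hjne (hlt 0 j hp.pos hjp h'').symm
      rw [if_neg c1, zero_add] at hE0
      rw [if_neg c2, add_zero] at hE1
      by_cases c3 : 1 ≡ j [MOD p]
      · have hj1 : j = 1 := (hlt 1 j (by omega) hjp c3).symm
        subst hj1
        have c4 : ¬ (0 ≡ 1 + 1 [MOD p]) := by
          intro h
          have h' : 0 % p = (1 + 1) % p := h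
          rw [Nat.zero_mod, Nat.mod_eq_of_lt (by omega)] at h'
          omega
        rw [if_neg c4] at hE0
        exact hv0 (hN _ hE0.symm)
      · rw [if_neg c3] at hE1
        exact hcv0 (hN _ hE1.symm)
    subst hj0
    rw [if_pos (Nat.ModEq.refl 0), if_neg (show ¬ (0 ≡ 1 + 0 [MOD p]) from hn01),
      add_zero] at hE0
    rw [if_neg hn10, if_pos (show 1 ≡ 1 + 0 [MOD p] from Nat.ModEq.refl 1), zero_add] at hE1
    have hsv0 : s • v0 = v0 := hpN _ _ hE0
    have hscv0 : s • (c • v0) = c • v0 := hpN _ _ hE1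
    have hsb : s * b = b * s := by rw [hj, pow_zero, mul_one]
    have hsSb : s ∈ Sb := (hmemSb s).mpr ⟨hs, hsb⟩
    have hprop := hv0prop s hsSb hsv0
    rcases hc with hcW | hWb
    · -- c ∈ W
      have h1 := hD.Wc c hcW s hs
      rw [← mem_powers_iff_mem_zpowers] at h1
      obtain ⟨k, hk0⟩ := h1
      have hk : z ^ k = c⁻¹ * (s * c * s⁻¹) := hk0
      have hsinv : s⁻¹ • v0 = v0 := inv_smul_eq_iff.mpr hsv0.symm
      have hkfix : (z ^ k) • v0 = v0 := by
        rw [hk, mul_smul, mul_smul, mul_smul, hsinv, hscv0, inv_smul_smul]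
      have hzk : z ^ k = 1 := by
        by_contra hne
        have hkp : k % p ≠ 0 := by
          intro h0
          apply hne
          rw [pow_eq_pow_mod k hD.zp, h0, pow_zero]
        exact hv0 (hD.fpf v0 hv0M' (fixed_of_pow_fixed hp hD.zp hkp hkfix))
      have hsc : s * c = c * s := by
        rw [hzk] at hk
        have : s * c * s⁻¹ = c := by
          have := congrArg (fun t => c * t) hk
          simpa using this.symm
        calc s * c = s * c * s⁻¹ * s := by group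
          _ = c * s := by rw [this]
      obtain ⟨i, -, hi⟩ := hD.exists_shift hp hbW (hD.WS hw)
      have hci := hcpow i
      have huW : (c ^ i)⁻¹ * w ∈ W := W.mul_mem (W.inv_mem (W.pow_mem hcW i)) hw
      have hub : (c ^ i)⁻¹ * w * b = b * ((c ^ i)⁻¹ * w) := by
        have e1 : c ^ i * ((c ^ i)⁻¹ * w * b) = b * z ^ i * w := by
          calc c ^ i * ((c ^ i)⁻¹ * w * b) = w * b := by group
            _ = b * z ^ i * w := hi
        have e2 : c ^ i * (b * ((c ^ i)⁻¹ * w)) = b * z ^ i * w := by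
          calc c ^ i * (b * ((c ^ i)⁻¹ * w)) = (c ^ i * b) * ((c ^ i)⁻¹ * w) := by group
            _ = b * z ^ i * c ^ i * ((c ^ i)⁻¹ * w) := by rw [hci]
            _ = b * z ^ i * w := by group
        exact mul_left_cancel (e1.trans e2.symm)
      have huSb : (c ^ i)⁻¹ * w ∈ Sb :=
        (hmemSb _).mpr ⟨S.mul_mem (S.inv_mem (S.pow_mem hcS i)) (hD.WS hw), hub⟩
      have hsu := hprop _ ⟨huW, huSb⟩
      have hsci : s * c ^ i = c ^ i * s := (Commute.pow_right (show Commute s c from hsc) i).eq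
      calc s * w = s * c ^ i * ((c ^ i)⁻¹ * w) := by group
        _ = c ^ i * (s * ((c ^ i)⁻¹ * w)) := by rw [hsci]; group
        _ = c ^ i * ((c ^ i)⁻¹ * w * s) := by rw [hsu]
        _ = w * s := by group
    · exact hprop w ⟨hw, (hmemSb w).mpr ⟨hD.WS hw, hWb w hw⟩⟩

/-- **Eprime.** -/
theorem Eprime [Finite Γ] {p : ℕ} (hp : p.Prime) (hp2 : p ≠ 2) (hN : ∀ m : N, p • m = 0 → m = 0) :
    ∀ n : ℕ, ∀ (S W : Subgroup Γ) (M : AddSubgroup N) (z : Γ), Nat.card S ≤ n →
      EData p S W M z → M ≠ ⊥ →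
      ∃ v ∈ M, v ≠ 0 ∧ ∀ s ∈ S, s • v = v → ∀ w ∈ W, s * w = w * s := by
  intro n
  induction n with
  | zero =>
    intro S W M z hn
    exfalso
    have := Nat.card_pos (α := S)
    omega
  | succ n ih =>
    intro S W M z hn hD hM
    by_cases hcen : ∀ w ∈ W, ∀ s ∈ S, s * w = w * s
    · obtain ⟨v, hv, hv0⟩ := exists_ne_zero_of_ne_bot hM
      exact ⟨v, hv, hv0, fun s hs _ w hw => hcen w hw s hs⟩
    · push_neg at hcen
      obtain ⟨b, hbW, c₀, hc₀S, hc₀⟩ := hcen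
      obtain ⟨c, hcS, hcb, hc⟩ : ∃ c ∈ S, c * b ≠ b * c ∧ (c ∈ W ∨ ∀ w ∈ W, w * b = b * w) := by
        by_cases hW : ∃ c ∈ W, c * b ≠ b * c
        · obtain ⟨c, hcW, hcb⟩ := hW
          exact ⟨c, hD.WS hcW, hcb, Or.inl hcW⟩
        · push_neg at hW
          exact ⟨c₀, hc₀S, hc₀, Or.inr hW⟩
      have hz'mem : b⁻¹ * (c * b * c⁻¹) ∈ Subgroup.zpowers z := hD.Wc b hbW c hcS
      have hz'1 : b⁻¹ * (c * b * c⁻¹) ≠ 1 := by
        intro h
        apply hcb
        have h2 : c * b * c⁻¹ = b := by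
          have := congrArg (fun t => b * t) h
          simpa using this
        calc c * b = c * b * c⁻¹ * c := by group
          _ = b * c := by rw [h2]
      have hzeq := zpowers_eq_of_mem hp hD.zp hz'mem hz'1
      obtain ⟨k, hk⟩ := Subgroup.mem_zpowers_iff.mp hz'mem
      have hD' : EData p S W M (b⁻¹ * (c * b * c⁻¹)) := by
        refine ⟨?_, ?_, ?_, hD.SM, ?_, hD.WS, hD.Wn, hD.Wp, ?_⟩
        · rw [← hk]
          exact S.zpow_mem hD.zS k
        · intro s hs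
          rw [← hk]
          exact ((show Commute z s from hD.zc s hs).zpow_left k).eq
        · rw [← hk, ← zpow_natCast, ← zpow_mul, mul_comm, zpow_mul, zpow_natCast, hD.zp, one_zpow]
        · intro m hm hfix
          have hzmem : z ∈ Subgroup.zpowers (b⁻¹ * (c * b * c⁻¹)) := by
            rw [hzeq]
            exact Subgroup.mem_zpowers z
          exact hD.fpf m hm (smul_zpowers_fixed hfix hzmem)
        · intro w hw s hs
          rw [hzeq]
          exact hD.Wc w hw s hs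
      refine Estep hp hp2 hN hD' hM hbW hcS (by group) hz'1 hc ?_
      intro S' W' M' z' hlt hD'' hM'
      exact ih S' W' M' z' (by omega) hD'' hM'

end Cfsg.Agent.Lib.Helper42.Wie
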