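import Mathlib
import Cfsg.Agent.Lib.Helper42.WieE
import Cfsg.Agent.Lib.Helper20.PGroupOdd

/-!
Helper42: the "orbit" theorem behind the odd-`p` Wielandt-type subnormality criterion.
A group `L` acting on a finite abelian `p'`-group, `S ⊴ L` acting as a nontrivial `p`-group
(`p` odd): there is a vector whose stabilizer in `S` lies in an `L`-invariant subgroup not
containing `S`  (`Good`).
-/

set_option autoImplicit false

namespace Cfsg.Agent.Lib.Helper42.Wie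

section defs

variable {Γ N : Type*} [Group Γ] [AddCommGroup N] [DistribMulAction Γ N]

/-- fixed points of `H` in `M` -/
def fixOn (H : Subgroup Γ) (M : AddSubgroup N) : AddSubgroup N where
  carrier := {m | m ∈ M ∧ ∀ h ∈ H, h • m = m}
  zero_mem' := ⟨M.zero_mem, fun h _ => smul_zero h⟩
  add_mem' := fun ha hb => ⟨M.add_mem ha.1 hb.1, fun h hh => by rw [smul_add, ha.2 h hh, hb.2 h hh]⟩
  neg_mem' := fun ha => ⟨M.neg_mem ha.1, fun h hh => by rw [smul_neg, ha.2 h hh]⟩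

/-- kernel of the action of `S` on `M` -/
def kerOn (S : Subgroup Γ) (M : AddSubgroup N) : Subgroup Γ where
  carrier := {s | s ∈ S ∧ ∀ m ∈ M, s • m = m}
  one_mem' := ⟨S.one_mem, fun m _ => one_smul _ m⟩
  mul_mem' := fun ha hb => ⟨S.mul_mem ha.1 hb.1, fun m hm => by rw [mul_smul, hb.2 m hm, ha.2 m hm]⟩
  inv_mem' := fun ha => ⟨S.inv_mem ha.1, fun m hm => by rw [inv_smul_eq_iff, ha.2 m hm]⟩

/-- trace over a subgroup -/
noncomputable def tr (H : Subgroup Γ) (m : N) : N := ∑ᶠ h : H, (h : Γ) • m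

theorem tr_eq_sum (H : Subgroup Γ) [Fintype H] (m : N) : tr H m = ∑ h : H, (h : Γ) • m :=
  finsum_eq_sum_of_fintype _

variable [Finite Γ]

theorem tr_add (H : Subgroup Γ) (m m' : N) : tr H (m + m') = tr H m + tr H m' := by
  cases nonempty_fintype H
  simp only [tr_eq_sum, smul_add, Finset.sum_add_distrib]

theorem tr_zero (H : Subgroup Γ) : tr H (0 : N) = 0 := by
  cases nonempty_fintype H
  simp [tr_eq_sum]

theorem tr_sub (H : Subgroup Γ) (m m' : N) : tr H (m - m') = tr H m - tr H m' := by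
  cases nonempty_fintype H
  simp only [tr_eq_sum, smul_sub, Finset.sum_sub_distrib]

theorem tr_nsmul (H : Subgroup Γ) (k : ℕ) (m : N) : tr H (k • m) = k • tr H m := by
  cases nonempty_fintype H
  simp only [tr_eq_sum, Finset.smul_sum]
  exact Finset.sum_congr rfl fun h _ => smul_comm _ _ _

/-- trace as an additive map -/
noncomputable def trHom (H : Subgroup Γ) : N →+ N where
  toFun := tr H
  map_zero' := tr_zero H
  map_add' := tr_add H

theorem tr_smul_of_mem {H : Subgroup Γ} {g : Γ} (hg : g ∈ H) (m : N) : g • tr H m = tr H m := by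
  cases nonempty_fintype H
  rw [tr_eq_sum, Finset.smul_sum]
  exact Fintype.sum_equiv (Equiv.mulLeft (⟨g, hg⟩ : H)) _ _ (fun h => by simp [mul_smul])

theorem tr_of_fixed {H : Subgroup Γ} {m : N} (h : ∀ g ∈ H, g • m = m) :
    tr H m = Nat.card H • m := by
  cases nonempty_fintype H
  rw [tr_eq_sum, Finset.sum_congr rfl (fun (g : H) _ => h (g : Γ) g.2), Finset.sum_const,
    Finset.card_univ, Nat.card_eq_fintype_card]

theorem tr_comm {H : Subgroup Γ} {g : Γ} (hg : ∀ h ∈ H, g * h = h * g) (m : N) :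
    g • tr H m = tr H (g • m) := by
  cases nonempty_fintype H
  rw [tr_eq_sum, tr_eq_sum, Finset.smul_sum]
  refine Finset.sum_congr rfl fun h _ => ?_
  rw [smul_smul, smul_smul, hg h h.2]

theorem tr_conj {H : Subgroup Γ} {x : Γ} (hx : ∀ h ∈ H, x * h * x⁻¹ ∈ H)
    (hx' : ∀ h ∈ H, x⁻¹ * h * x ∈ H) (m : N) : x • tr H m = tr H (x • m) := by
  cases nonempty_fintype H
  rw [tr_eq_sum, tr_eq_sum, Finset.smul_sum]
  let e : H ≃ H :=
    { toFun := fun h => ⟨x * h * x⁻¹, hx h h.2⟩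
      invFun := fun h => ⟨x⁻¹ * h * x, hx' h h.2⟩
      left_inv := fun h => by ext; simp [mul_assoc]
      right_inv := fun h => by ext; simp [mul_assoc] }
  exact Fintype.sum_equiv e _ _ (fun h => by simp [e, smul_smul, mul_assoc])

theorem tr_mem {H : Subgroup Γ} {M : AddSubgroup N} (hH : ∀ h ∈ H, ∀ m ∈ M, h • m ∈ M) {m : N}
    (hm : m ∈ M) : tr H m ∈ M := by
  cases nonempty_fintype H
  rw [tr_eq_sum]
  exact AddSubgroup.sum_mem _ fun h _ => hH h h.2 m hm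

/-- hypotheses of the orbit theorem -/
structure Hyp (p : ℕ) (L S : Subgroup Γ) (M : AddSubgroup N) : Prop where
  SL : S ≤ L
  norm : ∀ x ∈ L, ∀ s ∈ S, x * s * x⁻¹ ∈ S
  pg : ∀ s ∈ S, ∃ k : ℕ, ∀ m ∈ M, (s ^ (p ^ k)) • m = m
  inv : ∀ x ∈ L, ∀ m ∈ M, x • m ∈ M
  nontriv : ∃ s ∈ S, ∃ m ∈ M, s • m ≠ m

/-- conclusion of the orbit theorem -/
def Good (L S : Subgroup Γ) (M : AddSubgroup N) : Prop :=
  ∃ v ∈ M, ∃ S' : Subgroup Γ, (∀ x ∈ L, ∀ s ∈ S', x * s * x⁻¹ ∈ S') ∧ ¬ S ≤ S' ∧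
    ∀ s ∈ S, s • v = v → s ∈ S'

/-- the measure -/
noncomputable def meas (S : Subgroup Γ) (M : AddSubgroup N) : ℕ :=
  (kerOn S M).relIndex S + Nat.card M

theorem relIndex_lt_card {K S : Subgroup Γ} (hKS : K ≤ S) (hK : K ≠ ⊥) :
    K.relIndex S < Nat.card S := by
  have h1 : Nat.card (K.subgroupOf S) * (K.subgroupOf S).index = Nat.card S :=
    Subgroup.card_mul_index _
  have h2 : Nat.card (K.subgroupOf S) = Nat.card K :=
    Nat.card_congr (Subgroup.subgroupOfEquivOfLe hKS).toEquiv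
  have h3 : 1 < Nat.card K := (Subgroup.one_lt_card_iff_ne_bot K).mpr hK
  have h4 : 0 < Nat.card S := Nat.card_pos
  rw [h2] at h1
  show (K.subgroupOf S).index < Nat.card S
  nlinarith

theorem mem_fixOn {H : Subgroup Γ} {M : AddSubgroup N} {m : N} :
    m ∈ fixOn H M ↔ m ∈ M ∧ ∀ h ∈ H, h • m = m := Iff.rfl

theorem mem_kerOn {S : Subgroup Γ} {M : AddSubgroup N} {s : Γ} :
    s ∈ kerOn S M ↔ s ∈ S ∧ ∀ m ∈ M, s • m = m := Iff.rfl

theorem fixOn_le (H : Subgroup Γ) (M : AddSubgroup N) : fixOn H M ≤ M := fun _ hm => hm.1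

/-- the trace-zero part -/
def trKer (Z : Subgroup Γ) (M : AddSubgroup N) : AddSubgroup N where
  carrier := {m | m ∈ M ∧ tr Z m = 0}
  zero_mem' := ⟨M.zero_mem, tr_zero Z⟩
  add_mem' := fun ha hb => ⟨M.add_mem ha.1 hb.1, by rw [tr_add, ha.2, hb.2, add_zero]⟩
  neg_mem' := fun {a} ha => ⟨M.neg_mem ha.1, by
    have h := tr_sub Z 0 a
    rw [zero_sub, tr_zero, ha.2, sub_zero] at h
    exact h⟩

theorem mem_trKer {Z : Subgroup Γ} {M : AddSubgroup N} {m : N} :
    m ∈ trKer Z M ↔ m ∈ M ∧ tr Z m = 0 := Iff.rfl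

/-- the conjugate subgroup `x H x⁻¹` -/
def cj (x : Γ) (H : Subgroup Γ) : Subgroup Γ where
  carrier := {g | x⁻¹ * g * x ∈ H}
  one_mem' := by
    show x⁻¹ * 1 * x ∈ H
    simp [H.one_mem]
  mul_mem' := fun {a b} ha hb => by
    show x⁻¹ * (a * b) * x ∈ H
    have : x⁻¹ * (a * b) * x = (x⁻¹ * a * x) * (x⁻¹ * b * x) := by group
    rw [this]
    exact H.mul_mem ha hb
  inv_mem' := fun {a} ha => by
    show x⁻¹ * a⁻¹ * x ∈ H
    have : x⁻¹ * a⁻¹ * x = (x⁻¹ * a * x)⁻¹ := by group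
    rw [this]
    exact H.inv_mem ha

theorem mem_cj {x g : Γ} {H : Subgroup Γ} : g ∈ cj x H ↔ x⁻¹ * g * x ∈ H := Iff.rfl

theorem card_cj (x : Γ) (H : Subgroup Γ) : Nat.card (cj x H) = Nat.card H := by
  refine Nat.card_congr
    { toFun := fun g => ⟨x⁻¹ * g * x, g.2⟩
      invFun := fun h => ⟨x * h * x⁻¹, ?_⟩
      left_inv := fun g => by ext; simp [mul_assoc]
      right_inv := fun h => by ext; simp [mul_assoc] }
  show x⁻¹ * (x * h * x⁻¹) * x ∈ H
  have : x⁻¹ * (x * (h : Γ) * x⁻¹) * x = h := by group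
  rw [this]
  exact h.2

theorem pow_smul_cancel {p : ℕ} (hN : ∀ m : N, p • m = 0 → m = 0) (k : ℕ) {y : N}
    (h : (p ^ k) • y = 0) : y = 0 := by
  induction k with
  | zero => simpa using h
  | succ k ih =>
    apply ih
    apply hN
    rw [← mul_nsmul', ← pow_succ']
    exact h

theorem card_smul_cancel {p : ℕ} [Fact p.Prime] (hN : ∀ m : N, p • m = 0 → m = 0)
    {H : Subgroup Γ} (hH : IsPGroup p H) {y : N} (h : Nat.card H • y = 0) : y = 0 := by
  obtain ⟨k, hk⟩ := IsPGroup.iff_card.mp hH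
  rw [hk] at h
  exact pow_smul_cancel hN k h

theorem exists_pow_order_p {G : Type*} [Group G] {p : ℕ} {g : G} (k : ℕ) (h : g ^ (p ^ k) = 1)
    (h1 : g ≠ 1) : ∃ j, g ^ (p ^ j) ≠ 1 ∧ (g ^ (p ^ j)) ^ p = 1 := by
  induction k with
  | zero => exact absurd (by simpa using h) h1
  | succ k ih =>
    by_cases hk : g ^ (p ^ k) = 1
    · exact ih hk
    · exact ⟨k, hk, by rw [← pow_mul, ← pow_succ]; exact h⟩

/-- `Ω₁(Z(S))` as a subgroup of `Γ` -/
def omZ (p : ℕ) (S : Subgroup Γ) : Subgroup Γ where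
  carrier := {z | z ∈ S ∧ z ^ p = 1 ∧ ∀ s ∈ S, s * z = z * s}
  one_mem' := ⟨S.one_mem, one_pow _, fun s _ => by simp⟩
  mul_mem' := fun {a b} ha hb => ⟨S.mul_mem ha.1 hb.1, by
    have hc : Commute a b := hb.2.2 a ha.1
    rw [hc.mul_pow, ha.2.1, hb.2.1, one_mul], fun s hs => by
    rw [← mul_assoc, ha.2.2 s hs, mul_assoc, hb.2.2 s hs, mul_assoc]⟩
  inv_mem' := fun {a} ha => ⟨S.inv_mem ha.1, by rw [inv_pow, ha.2.1, inv_one], fun s hs => by
    have hc : Commute s a := ha.2.2 s hs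
    exact hc.inv_right.eq⟩

theorem mem_omZ {p : ℕ} {S : Subgroup Γ} {z : Γ} :
    z ∈ omZ p S ↔ z ∈ S ∧ z ^ p = 1 ∧ ∀ s ∈ S, s * z = z * s := Iff.rfl

theorem omZ_le (p : ℕ) (S : Subgroup Γ) : omZ p S ≤ S := fun _ hz => hz.1

theorem omZ_conj {p : ℕ} {L S : Subgroup Γ} (hnorm : ∀ x ∈ L, ∀ s ∈ S, x * s * x⁻¹ ∈ S) :
    ∀ x ∈ L, ∀ z ∈ omZ p S, x * z * x⁻¹ ∈ omZ p S := by
  intro x hx z hz
  refine ⟨hnorm x hx z hz.1, by rw [conj_pow, hz.2.1, mul_one, mul_inv_cancel], ?_⟩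
  intro s hs
  have h1 := hnorm x⁻¹ (L.inv_mem hx) s hs
  rw [inv_inv] at h1
  have h2 := hz.2.2 _ h1
  calc s * (x * z * x⁻¹) = x * ((x⁻¹ * s * x) * z) * x⁻¹ := by group
    _ = x * (z * (x⁻¹ * s * x)) * x⁻¹ := by rw [h2]
    _ = x * z * x⁻¹ * s := by group

theorem omZ_ne_bot {p : ℕ} [Fact p.Prime] {S : Subgroup Γ} (hSp : IsPGroup p S) (hS : S ≠ ⊥) :
    omZ p S ≠ ⊥ := by
  haveI : Nontrivial S := (Subgroup.nontrivial_iff_ne_bot S).mpr hS
  haveI := hSp.center_nontrivial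
  obtain ⟨c, hc⟩ := exists_ne (1 : Subgroup.center S)
  obtain ⟨k, hk⟩ := hSp (c : S)
  have hc1 : ((c : S) : Γ) ≠ 1 := fun h => hc (Subtype.ext (Subtype.ext h))
  have hk' : ((c : S) : Γ) ^ (p ^ k) = 1 := by
    have := congrArg Subtype.val hk
    simpa using this
  obtain ⟨j, hj1, hj2⟩ := exists_pow_order_p k hk' hc1
  intro hbot
  have hmem : ((c : S) : Γ) ^ (p ^ j) ∈ omZ p S := by
    refine ⟨S.pow_mem (c : S).2 _, hj2, fun s hs => ?_⟩
    have h1 := Subgroup.mem_center_iff.mp c.2 ⟨s, hs⟩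
    have h2 : s * ((c : S) : Γ) = ((c : S) : Γ) * s := congrArg Subtype.val h1
    exact (Commute.pow_right h2 _).eq
  rw [hbot, Subgroup.mem_bot] at hmem
  exact hj1 hmem

/-- Step A: the central subgroup `Z` has nonzero fixed points: pass to the trace-zero part. -/
theorem stepA [Finite N] {p : ℕ} [Fact p.Prime] (hN : ∀ m : N, p • m = 0 → m = 0)
    {L S Z : Subgroup Γ} {M : AddSubgroup N} (hH : Hyp p L S M)
    (hfaith : ∀ s ∈ S, (∀ m ∈ M, s • m = m) → s = 1)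
    (hZS : Z ≤ S) (hZp : IsPGroup p Z) (hZ1 : Z ≠ ⊥)
    (hZL : ∀ x ∈ L, ∀ z ∈ Z, x * z * x⁻¹ ∈ Z)
    (hF : fixOn Z M ≠ ⊥)
    (IH : ∀ (L' S' : Subgroup Γ) (M' : AddSubgroup N), Hyp p L' S' M' →
      meas S' M' < Nat.card S + Nat.card M → Good L' S' M') : Good L S M := by
  have hM'M : trKer Z M ≤ M := fun m hm => hm.1
  have hZM : ∀ z ∈ Z, ∀ m ∈ M, z • m ∈ M := fun z hz m hm => hH.inv z (hH.SL (hZS hz)) m hm
  have hH' : Hyp p L S (trKer Z M) := by
    refine ⟨hH.SL, hH.norm, ?_, ?_, ?_⟩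
    · intro s hs
      obtain ⟨k, hk⟩ := hH.pg s hs
      exact ⟨k, fun m hm => hk m hm.1⟩
    · intro x hx m hm
      refine ⟨hH.inv x hx m hm.1, ?_⟩
      have hx' : ∀ h ∈ Z, x⁻¹ * h * x ∈ Z := by
        intro h hh
        have := hZL x⁻¹ (L.inv_mem hx) h hh
        rwa [inv_inv] at this
      rw [← tr_conj (hZL x hx) hx' m, hm.2, smul_zero]
    · by_contra hcon
      push_neg at hcon
      have hM'0 : ∀ m ∈ trKer Z M, m = 0 := by
        intro m hm
        have h1 : tr Z m = Nat.card Z • m := tr_of_fixed (fun g hg => hcon g (hZS hg) m hm)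
        rw [hm.2] at h1
        exact card_smul_cancel hN hZp h1.symm
      have h2 : ∀ m ∈ M, Nat.card Z • m = tr Z m := by
        intro m hm
        have hmem : Nat.card Z • m - tr Z m ∈ trKer Z M := by
          refine ⟨M.sub_mem (M.nsmul_mem hm _) (tr_mem hZM hm), ?_⟩
          rw [tr_sub, tr_nsmul, tr_of_fixed (fun g hg => tr_smul_of_mem hg m), sub_self]
        exact sub_eq_zero.mp (hM'0 _ hmem)
      apply hZ1
      rw [Subgroup.eq_bot_iff_forall]
      intro z hz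
      apply hfaith z (hZS hz)
      intro m hm
      have h3 : Nat.card Z • (z • m - m) = 0 := by
        rw [smul_sub, smul_comm (Nat.card Z) z m, h2 m hm, tr_smul_of_mem hz, sub_self]
      exact sub_eq_zero.mp (card_smul_cancel hN hZp h3)
  have hlt : Nat.card (trKer Z M) < Nat.card M := by
    have hss : (trKer Z M : Set N) ⊂ (M : Set N) := by
      refine ⟨hM'M, ?_⟩
      intro hsub
      obtain ⟨f, hf, hf0⟩ := exists_ne_zero_of_ne_bot hF
      have hfM' : f ∈ trKer Z M := hsub hf.1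
      have h1 : tr Z f = Nat.card Z • f := tr_of_fixed hf.2
      rw [hfM'.2] at h1
      exact hf0 (card_smul_cancel hN hZp h1.symm)
    exact Set.Finite.card_lt_card (Set.toFinite _) hss
  have hmeas : meas S (trKer Z M) < Nat.card S + Nat.card M := by
    unfold meas
    have := Nat.le_of_dvd Nat.card_pos (Subgroup.relIndex_dvd_card (kerOn S (trKer Z M)) S)
    omega
  obtain ⟨v, hv, S', h1, h2, h3⟩ := IH L S (trKer Z M) hH' hmeas
  exact ⟨v, hM'M hv, S', h1, h2, h3⟩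

end defs

end Cfsg.Agent.Lib.Helper42.Wie
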