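import Mathlib
import Cfsg.Agent.Lib.Helper42.WieB

/-!
Helper42: step B1 of the orbit theorem (a proper subgroup of `Ω₁(Z(S))` with nonzero fixed
points: induce from the normalizer of a maximal such subgroup).
-/

set_option autoImplicit false

namespace Cfsg.Agent.Lib.Helper42.Wie

section stepB

variable {Γ N : Type*} [Group Γ] [AddCommGroup N] [DistribMulAction Γ N] [Finite Γ]

theorem smul_mem_fixOn_cj {L H : Subgroup Γ} {M : AddSubgroup N}
    (hinv : ∀ x ∈ L, ∀ m ∈ M, x • m ∈ M) {x : Γ} (hx : x ∈ L) {w : N} (hw : w ∈ fixOn H M) :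
    x • w ∈ fixOn (cj x H) M := by
  refine ⟨hinv x hx w hw.1, fun g hg => ?_⟩
  have h1 : (x⁻¹ * g * x) • w = w := hw.2 _ hg
  have h2 : g * x = x * (x⁻¹ * g * x) := by group
  rw [smul_smul, h2, mul_smul, h1]

theorem tr_eq_zero_of_sup {K K' : Subgroup Γ} {M : AddSubgroup N}
    (hKM : ∀ h ∈ K, ∀ m ∈ M, h • m ∈ M)
    (hcomm : ∀ g ∈ K', ∀ h ∈ K, g * h = h * g)
    (hbot : fixOn (K ⊔ K') M = ⊥) {y : N} (hy : y ∈ fixOn K' M) : tr K y = 0 := by
  have hmem : tr K y ∈ fixOn (K ⊔ K') M := by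
    refine ⟨tr_mem hKM hy.1, ?_⟩
    have hle : K ⊔ K' ≤ MulAction.stabilizer Γ (tr K y) := by
      refine sup_le (fun g hg => ?_) (fun g hg => ?_)
      · exact MulAction.mem_stabilizer_iff.mpr (tr_smul_of_mem hg y)
      · rw [MulAction.mem_stabilizer_iff, tr_comm (hcomm g hg) y, hy.2 g hg]
    exact fun g hg => MulAction.mem_stabilizer_iff.mp (hle hg)
  rw [hbot, AddSubgroup.mem_bot] at hmem
  exact hmem

/-- Step B1. -/
theorem stepB1 [Finite N] {p : ℕ} [Fact p.Prime] (hN : ∀ m : N, p • m = 0 → m = 0)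
    {L S Z : Subgroup Γ} {M : AddSubgroup N} (hH : Hyp p L S M)
    (hSp : IsPGroup p S)
    (hZS : Z ≤ S) (hZc : ∀ z ∈ Z, ∀ s ∈ S, s * z = z * s)
    (hZL : ∀ x ∈ L, ∀ z ∈ Z, x * z * x⁻¹ ∈ Z)
    (hF : fixOn Z M = ⊥)
    {H₀ : Subgroup Γ} (hH₀Z : H₀ ≤ Z) (hH₀1 : H₀ ≠ ⊥) (hH₀F : fixOn H₀ M ≠ ⊥)
    (IH : ∀ (L' S' : Subgroup Γ) (M' : AddSubgroup N), Hyp p L' S' M' →
      meas S' M' < Nat.card S + Nat.card M → Good L' S' M') : Good L S M := by
  obtain ⟨H, ⟨hHZ, hHF⟩, hmax⟩ := Set.exists_max_image {H : Subgroup Γ | H ≤ Z ∧ fixOn H M ≠ ⊥}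
    (fun H => Nat.card H) (Set.toFinite _) ⟨H₀, hH₀Z, hH₀F⟩
  have hH1 : H ≠ ⊥ := by
    intro h
    have h1 : Nat.card H₀ ≤ Nat.card H := hmax H₀ ⟨hH₀Z, hH₀F⟩
    have h2 : 1 < Nat.card H₀ := (Subgroup.one_lt_card_iff_ne_bot H₀).mpr hH₀1
    rw [h, Subgroup.card_bot] at h1
    omega
  have hZM : ∀ z ∈ Z, ∀ m ∈ M, z • m ∈ M := fun z hz m hm => hH.inv z (hH.SL (hZS hz)) m hm
  have hLHdef : ∀ x, x ∈ L ⊓ Subgroup.normalizer (H : Set Γ) ↔
      x ∈ L ∧ ∀ h, h ∈ H ↔ x * h * x⁻¹ ∈ H := by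
    intro x
    rw [Subgroup.mem_inf, Subgroup.mem_normalizer_iff]
  have hH' : Hyp p (L ⊓ Subgroup.normalizer (H : Set Γ)) S (fixOn H M) := by
    refine ⟨?_, ?_, ?_, ?_, ?_⟩
    · intro s hs
      rw [hLHdef]
      refine ⟨hH.SL hs, fun h => ⟨fun hh => ?_, fun hh => ?_⟩⟩
      · have e : s * h = h * s := hZc h (hHZ hh) s hs
        have : s * h * s⁻¹ = h := by rw [e]; group
        rw [this]; exact hh
      · have e : s * (s * h * s⁻¹) = (s * h * s⁻¹) * s := hZc _ (hHZ hh) s hs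
        have : s * h * s⁻¹ = h := by
          have e2 : s * (s * h * s⁻¹) = s * h := by rw [e]; group
          exact mul_left_cancel e2
        rw [← this]; exact hh
    · intro x hx s hs
      exact hH.norm x ((hLHdef x).mp hx).1 s hs
    · intro s hs
      obtain ⟨k, hk⟩ := hH.pg s hs
      exact ⟨k, fun m hm => hk m hm.1⟩
    · intro x hx m hm
      obtain ⟨hxL, hxN⟩ := (hLHdef x).mp hx
      refine ⟨hH.inv x hxL m hm.1, fun h hh => ?_⟩
      have h1 : x⁻¹ * h * x ∈ H := by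
        rw [hxN (x⁻¹ * h * x)]
        have : x * (x⁻¹ * h * x) * x⁻¹ = h := by group
        rw [this]; exact hh
      have h2 : h * x = x * (x⁻¹ * h * x) := by group
      rw [smul_smul, h2, mul_smul, hm.2 _ h1]
    · by_contra hcon
      push_neg at hcon
      apply hHF
      rw [AddSubgroup.eq_bot_iff_forall]
      intro m hm
      have hmZ : m ∈ fixOn Z M := ⟨hm.1, fun z hz => hcon z (hZS hz) m hm⟩
      rw [hF, AddSubgroup.mem_bot] at hmZ
      exact hmZ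
  have hmeas : meas S (fixOn H M) < Nat.card S + Nat.card M := by
    unfold meas
    have hK : kerOn S (fixOn H M) ≠ ⊥ := by
      intro hbot
      apply hH1
      rw [Subgroup.eq_bot_iff_forall]
      intro h hh
      have : h ∈ kerOn S (fixOn H M) := ⟨hZS (hHZ hh), fun m hm => hm.2 h hh⟩
      rw [hbot, Subgroup.mem_bot] at this
      exact this
    have h1 := relIndex_lt_card (fun s hs => hs.1 : kerOn S (fixOn H M) ≤ S) hK
    have h2 : Nat.card (fixOn H M) ≤ Nat.card M := AddSubgroup.card_le_of_le (fixOn_le H M)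
    omega
  obtain ⟨w, hw, S1, hS1n, hS1S, hS1w⟩ := IH _ S (fixOn H M) hH' hmeas
  have hcjZ : ∀ x ∈ L, cj x H ≤ Z := by
    intro x hx g hg
    have h1 : x⁻¹ * g * x ∈ Z := hHZ hg
    have h2 := hZL x hx _ h1
    have h3 : x * (x⁻¹ * g * x) * x⁻¹ = g := by group
    rwa [h3] at h2
  have hdist : ∀ x ∈ L, ∀ y ∈ L, cj x H ≠ cj y H → fixOn (cj x H ⊔ cj y H) M = ⊥ := by
    intro x hx y hy hne
    by_contra hnb
    have h1 : Nat.card (cj x H ⊔ cj y H : Subgroup Γ) ≤ Nat.card H :=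
      hmax _ ⟨sup_le (hcjZ x hx) (hcjZ y hy), hnb⟩
    have h2 : cj x H = cj x H ⊔ cj y H :=
      Subgroup.eq_of_le_of_card_ge le_sup_left (by rw [card_cj]; exact h1)
    have h3 : cj y H = cj x H ⊔ cj y H :=
      Subgroup.eq_of_le_of_card_ge le_sup_right (by rw [card_cj]; exact h1)
    exact hne (h2.trans h3.symm)
  let I := {K : Subgroup Γ // ∃ x ∈ L, K = cj x H}
  let rep : I → Γ := fun K => Classical.choose K.2
  have hrepL : ∀ K : I, rep K ∈ L := fun K => (Classical.choose_spec K.2).1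
  have hrepK : ∀ K : I, K.1 = cj (rep K) H := fun K => (Classical.choose_spec K.2).2
  cases nonempty_fintype I
  let v : N := ∑ K : I, rep K • w
  have hvM : v ∈ M := AddSubgroup.sum_mem _ fun K _ => hH.inv _ (hrepL K) w hw.1
  have hKZ : ∀ K : I, K.1 ≤ Z := fun K => by
    have := hcjZ _ (hrepL K)
    rwa [← hrepK K] at this
  have hfixK : ∀ K : I, rep K • w ∈ fixOn K.1 M := fun K => by
    have := smul_mem_fixOn_cj hH.inv (hrepL K) hw
    rwa [← hrepK K] at this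
  have key : ∀ K : I, tr K.1 v = Nat.card K.1 • (rep K • w) := by
    intro K
    have e1 : tr K.1 v = ∑ K' : I, tr K.1 (rep K' • w) := map_sum (trHom K.1) _ _
    rw [e1, Finset.sum_eq_single K]
    · exact tr_of_fixed (hfixK K).2
    · intro K' _ hne
      have hne' : K.1 ≠ K'.1 := fun h => hne (Subtype.ext h).symm
      have hb : fixOn (K.1 ⊔ K'.1) M = ⊥ := by
        have := hdist (rep K) (hrepL K) (rep K') (hrepL K')
          (by rw [← hrepK K, ← hrepK K']; exact hne')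
        rwa [← hrepK K, ← hrepK K'] at this
      exact tr_eq_zero_of_sup (fun h hh m hm => hZM h (hKZ K hh) m hm)
        (fun g hg h hh => hZc h (hKZ K hh) g (hZS (hKZ K' hg))) hb (hfixK K')
    · intro h
      exact absurd (Finset.mem_univ K) h
  have hstab : ∀ s ∈ S, s • v = v → ∀ K : I, s • (rep K • w) = rep K • w := by
    intro s hs hsv K
    have hcomm : ∀ h ∈ K.1, s * h = h * s := fun h hh => hZc h (hKZ K hh) s hs
    have h0 : Nat.card K.1 • (s • (rep K • w) - rep K • w) = 0 := by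
      rw [smul_sub, smul_comm (Nat.card K.1) s (rep K • w), ← key K, tr_comm hcomm v, hsv,
        sub_self]
    exact sub_eq_zero.mp (card_smul_cancel hN (hSp.to_le ((hKZ K).trans hZS)) h0)
  let S' : Subgroup Γ :=
    { carrier := {s | s ∈ S ∧ ∀ x ∈ L, x⁻¹ * s * x ∈ S1}
      one_mem' := ⟨S.one_mem, fun x _ => by simp [S1.one_mem]⟩
      mul_mem' := fun {a b} ha hb => ⟨S.mul_mem ha.1 hb.1, fun x hx => by
        have : x⁻¹ * (a * b) * x = (x⁻¹ * a * x) * (x⁻¹ * b * x) := by group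
        rw [this]; exact S1.mul_mem (ha.2 x hx) (hb.2 x hx)⟩
      inv_mem' := fun {a} ha => ⟨S.inv_mem ha.1, fun x hx => by
        have : x⁻¹ * a⁻¹ * x = (x⁻¹ * a * x)⁻¹ := by group
        rw [this]; exact S1.inv_mem (ha.2 x hx)⟩ }
  refine ⟨v, hvM, S', ?_, ?_, ?_⟩
  · intro y hy s hs
    refine ⟨hH.norm y hy s hs.1, fun x hx => ?_⟩
    have : x⁻¹ * (y * s * y⁻¹) * x = (y⁻¹ * x)⁻¹ * s * (y⁻¹ * x) := by group
    rw [this]
    exact hs.2 _ (L.mul_mem (L.inv_mem hy) hx)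
  · intro hle
    apply hS1S
    intro s hs
    have := (hle hs).2 1 L.one_mem
    simpa using this
  · intro s hs hsv
    refine ⟨hs, fun x hx => ?_⟩
    let K : I := ⟨cj x H, x, hx, rfl⟩
    have hr : cj x H = cj (rep K) H := hrepK K
    have hrL := hrepL K
    have hl : (rep K)⁻¹ * x ∈ L ⊓ Subgroup.normalizer (H : Set Γ) := by
      rw [hLHdef]
      refine ⟨L.mul_mem (L.inv_mem hrL) hx, fun h => ?_⟩
      have e1 : (rep K)⁻¹ * x * h * ((rep K)⁻¹ * x)⁻¹ = (rep K)⁻¹ * (x * h * x⁻¹) * rep K := by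
        group
      have e2 : x⁻¹ * (x * h * x⁻¹) * x = h := by group
      have e3 : (rep K)⁻¹ * (x * h * x⁻¹) * rep K ∈ H ↔ x⁻¹ * (x * h * x⁻¹) * x ∈ H := by
        show x * h * x⁻¹ ∈ cj (rep K) H ↔ x * h * x⁻¹ ∈ cj x H
        rw [← hr]
      rw [e1, e3, e2]
    have h1 : ((rep K)⁻¹ * s * rep K) • w = w := by
      have := hstab s hs hsv K
      rw [mul_smul, mul_smul, this, smul_smul, inv_mul_cancel, one_smul]
    have h2 : (rep K)⁻¹ * s * rep K ∈ S := by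
      have := hH.norm _ (L.inv_mem hrL) s hs
      rwa [inv_inv] at this
    have h3 := hS1w _ h2 h1
    have h4 := hS1n _ (Subgroup.inv_mem _ hl) _ h3
    have e : ((rep K)⁻¹ * x)⁻¹ * ((rep K)⁻¹ * s * rep K) * ((rep K)⁻¹ * x)⁻¹⁻¹ = x⁻¹ * s * x := by
      group
    rwa [e] at h4

end stepB

end Cfsg.Agent.Lib.Helper42.Wie
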