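import Mathlib
import Cfsg.Agent.Lib.Helper42.WieC
import Cfsg.Agent.Lib.Helper20.PGroupOdd

/-!
Helper42: step B2 of the orbit theorem (every nontrivial element of `Ω₁(Z(S))` acts
fixed-point-freely), and the faithful core.
-/

set_option autoImplicit false

namespace Cfsg.Agent.Lib.Helper42.Wie

section stepB2

variable {Γ N : Type*} [Group Γ] [AddCommGroup N] [DistribMulAction Γ N] [Finite Γ]

theorem coe_mem_zpowers {S : Subgroup Γ} {a c : S} :
    a ∈ Subgroup.zpowers c ↔ (a : Γ) ∈ Subgroup.zpowers (c : Γ) := by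
  constructor
  · rintro ⟨k, hk⟩
    refine ⟨k, ?_⟩
    have := congrArg Subtype.val hk
    simpa using this
  · rintro ⟨k, hk⟩
    refine ⟨k, Subtype.ext ?_⟩
    simpa using hk

/-- the subgroup of elements of `S` of order dividing `p` that are central modulo `⟨z⟩` -/
def Wsub (p : ℕ) (S : Subgroup Γ) (z : Γ) (hz : Subgroup.zpowers z ≤ omZ p S)
    (hodd : 2 ∣ p - 1) : Subgroup Γ where
  carrier := {w | w ∈ S ∧ w ^ p = 1 ∧ ∀ s ∈ S, w⁻¹ * (s * w * s⁻¹) ∈ Subgroup.zpowers z}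
  one_mem' := ⟨S.one_mem, one_pow _, fun s _ => by simp⟩
  mul_mem' := fun {a b} ha hb => by
    refine ⟨S.mul_mem ha.1 hb.1, ?_, fun s hs => ?_⟩
    · have hc : b⁻¹ * (a⁻¹ * b * a) ∈ Subgroup.zpowers z := by
        have := hb.2.2 a⁻¹ (S.inv_mem ha.1)
        rwa [inv_inv] at this
      have hcO := hz hc
      have h1 : b * a = a * b * (b⁻¹ * (a⁻¹ * b * a)) := by group
      have hca : Commute (b⁻¹ * (a⁻¹ * b * a)) a := (hcO.2.2 a ha.1).symm
      have hcb : Commute (b⁻¹ * (a⁻¹ * b * a)) b := (hcO.2.2 b hb.1).symm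
      rw [Cfsg.Agent.Lib.Helper24.mul_pow_of_central a b _ h1 hca hcb p, ha.2.1, hb.2.1, one_mul,
        one_mul, Nat.mul_div_assoc p hodd, pow_mul, hcO.2.1, one_pow]
    · have e1 := ha.2.2 s hs
      have e2 := hb.2.2 s hs
      have he1O := hz e1
      have hcomm : (a⁻¹ * (s * a * s⁻¹)) * b = b * (a⁻¹ * (s * a * s⁻¹)) :=
        (he1O.2.2 b hb.1).symm
      have h2 : (a * b)⁻¹ * (s * (a * b) * s⁻¹) =
          b⁻¹ * ((a⁻¹ * (s * a * s⁻¹)) * b) * (b⁻¹ * (s * b * s⁻¹)) := by group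
      have h3 : b⁻¹ * (b * (a⁻¹ * (s * a * s⁻¹))) * (b⁻¹ * (s * b * s⁻¹)) =
          (a⁻¹ * (s * a * s⁻¹)) * (b⁻¹ * (s * b * s⁻¹)) := by group
      rw [h2, hcomm, h3]
      exact Subgroup.mul_mem _ e1 e2
  inv_mem' := fun {a} ha => by
    refine ⟨S.inv_mem ha.1, by rw [inv_pow, ha.2.1, inv_one], fun s hs => ?_⟩
    have e1 := ha.2.2 s hs
    have he1O := hz e1
    have hc : Commute a (a⁻¹ * (s * a * s⁻¹)) := he1O.2.2 a ha.1
    have h2 : a⁻¹⁻¹ * (s * a⁻¹ * s⁻¹) = a * (a⁻¹ * (s * a * s⁻¹))⁻¹ * a⁻¹ := by group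
    have h3 : a * (a⁻¹ * (s * a * s⁻¹))⁻¹ * a⁻¹ = (a⁻¹ * (s * a * s⁻¹))⁻¹ := by
      rw [hc.inv_right.eq]
      group
    rw [h2, h3]
    exact Subgroup.inv_mem _ e1

theorem Wsub_conj {p : ℕ} {L S : Subgroup Γ} {z : Γ} (hz : Subgroup.zpowers z ≤ omZ p S)
    (hodd : 2 ∣ p - 1) (hOm : omZ p S ≤ Subgroup.zpowers z)
    (hnorm : ∀ x ∈ L, ∀ s ∈ S, x * s * x⁻¹ ∈ S) :
    ∀ x ∈ L, ∀ w ∈ Wsub p S z hz hodd, x * w * x⁻¹ ∈ Wsub p S z hz hodd := by
  intro x hx w hw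
  refine ⟨hnorm x hx w hw.1, by rw [conj_pow, hw.2.1, mul_one, mul_inv_cancel], fun s hs => ?_⟩
  have hs' : x⁻¹ * s * x ∈ S := by
    have := hnorm x⁻¹ (L.inv_mem hx) s hs
    rwa [inv_inv] at this
  have e := hw.2.2 _ hs'
  have e' := hOm (omZ_conj hnorm x hx _ (hz e))
  have h2 : (x * w * x⁻¹)⁻¹ * (s * (x * w * x⁻¹) * s⁻¹) =
      x * (w⁻¹ * (x⁻¹ * s * x * w * (x⁻¹ * s * x)⁻¹)) * x⁻¹ := by group
  rw [h2]
  exact e'

/-- Step B2. -/
theorem stepB2 {p : ℕ} [Fact p.Prime] (hp2 : p ≠ 2) (hN : ∀ m : N, p • m = 0 → m = 0)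
    {L S : Subgroup Γ} {M : AddSubgroup N} (hH : Hyp p L S M)
    (hSp : IsPGroup p S)
    (hfpf : ∀ z ∈ omZ p S, z ≠ 1 → ∀ m ∈ M, z • m = m → m = 0) : Good L S M := by
  have hp : p.Prime := Fact.out
  have hM : M ≠ ⊥ := by
    obtain ⟨s, hs, m, hm, hsm⟩ := hH.nontriv
    intro h
    rw [h, AddSubgroup.mem_bot] at hm
    rw [hm, smul_zero] at hsm
    exact hsm rfl
  have hS1 : S ≠ ⊥ := by
    obtain ⟨s, hs, m, hm, hsm⟩ := hH.nontriv
    intro h
    rw [h, Subgroup.mem_bot] at hs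
    rw [hs, one_smul] at hsm
    exact hsm rfl
  have hSM : ∀ s ∈ S, ∀ m ∈ M, s • m ∈ M := fun s hs m hm => hH.inv s (hH.SL hs) m hm
  by_cases hab : ∀ s ∈ S, ∀ t ∈ S, s * t = t * s
  · obtain ⟨v, hv, hv0⟩ := exists_ne_zero_of_ne_bot hM
    refine ⟨v, hv, ⊥, ?_, ?_, ?_⟩
    · intro x _ s hs
      rw [Subgroup.mem_bot] at hs ⊢
      rw [hs, mul_one, mul_inv_cancel]
    · intro hle
      exact hS1 (le_bot_iff.mp hle)
    · intro s hs hsv
      rw [Subgroup.mem_bot]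
      by_contra hs1
      obtain ⟨k, hk⟩ := hSp ⟨s, hs⟩
      have hk' : s ^ (p ^ k) = 1 := by
        have := congrArg Subtype.val hk
        simpa using this
      obtain ⟨j, hj1, hj2⟩ := exists_pow_order_p k hk' hs1
      have hmem : s ^ (p ^ j) ∈ omZ p S :=
        ⟨S.pow_mem hs _, hj2, fun t ht => ((show Commute t s from hab t ht s hs).pow_right _).eq⟩
      exact hv0 (hfpf _ hmem hj1 v hv (smul_pow_fixed hsv _))
  · have hnc : ¬ IsCyclic S := by
      intro hc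
      apply hab
      intro s hs t ht
      haveI := IsCyclic.isMulCommutative (α := S)
      have := mul_comm' (⟨s, hs⟩ : S) ⟨t, ht⟩
      exact congrArg Subtype.val this
    obtain ⟨z₀, x₀, hz₀c, hz₀o, hx₀p, hx₀z, hx₀c⟩ :=
      Cfsg.Agent.Lib.Helper20.exists_normal_rank_two hp2 hSp hnc
    have hzS : (z₀ : Γ) ∈ S := z₀.2
    have hzp : (z₀ : Γ) ^ p = 1 := by
      have h1 := pow_orderOf_eq_one z₀
      rw [hz₀o] at h1
      have := congrArg Subtype.val h1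
      simpa using this
    have hz1 : (z₀ : Γ) ≠ 1 := by
      intro h
      have h1 : z₀ = 1 := Subtype.ext h
      rw [h1, orderOf_one] at hz₀o
      exact hp.one_lt.ne hz₀o
    have hzc : ∀ s ∈ S, (z₀ : Γ) * s = s * z₀ := by
      intro s hs
      have h1 := Subgroup.mem_center_iff.mp hz₀c ⟨s, hs⟩
      exact (congrArg Subtype.val h1).symm
    have hzO : (z₀ : Γ) ∈ omZ p S := ⟨hzS, hzp, fun s hs => (hzc s hs).symm⟩
    have hzfpf : ∀ m ∈ M, (z₀ : Γ) • m = m → m = 0 := hfpf _ hzO hz1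
    have hbS : (x₀ : Γ) ∈ S := x₀.2
    have hbp : (x₀ : Γ) ^ p = 1 := by
      have := congrArg Subtype.val hx₀p
      simpa using this
    have hbz : (x₀ : Γ) ∉ Subgroup.zpowers (z₀ : Γ) := fun h => hx₀z (coe_mem_zpowers.mpr h)
    have hbc : ∀ s ∈ S, (x₀ : Γ)⁻¹ * (s * x₀ * s⁻¹) ∈ Subgroup.zpowers (z₀ : Γ) := by
      intro s hs
      have := coe_mem_zpowers.mp (hx₀c ⟨s, hs⟩)
      simpa using this
    have hZO : Subgroup.zpowers (z₀ : Γ) ≤ omZ p S := Subgroup.zpowers_le.mpr hzO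
    have hOm : omZ p S ≤ Subgroup.zpowers (z₀ : Γ) := by
      intro g hg
      obtain ⟨m, hm, hm0⟩ := exists_ne_zero_of_ne_bot hM
      have hzg : Commute (z₀ : Γ) g := hg.2.2 _ hzS
      have hdec := psum_dec hp hzg hzp (hSM _ hzS) (hSM g hg.1) hzfpf hm
      have hpm : p • m ≠ 0 := fun h => hm0 (hN m h)
      obtain ⟨k, hk, hk0⟩ := Finset.exists_ne_zero_of_sum_ne_zero (by rw [hdec]; exact hpm)
      have hmem : (z₀ : Γ) ^ k * g ∈ omZ p S :=
        (omZ p S).mul_mem ((omZ p S).pow_mem hzO k) hg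
      have hfix : ((z₀ : Γ) ^ k * g) • psum p ((z₀ : Γ) ^ k * g) m = psum p ((z₀ : Γ) ^ k * g) m :=
        psum_fixed hmem.2.1 m
      have hin : psum p ((z₀ : Γ) ^ k * g) m ∈ M := psum_mem (hSM _ hmem.1) hm
      have h1 : (z₀ : Γ) ^ k * g = 1 := by
        by_contra hne
        exact hk0 (hfpf _ hmem hne _ hin hfix)
      rw [eq_inv_of_mul_eq_one_right h1]
      exact (Subgroup.zpowers (z₀ : Γ)).inv_mem (Subgroup.pow_mem _ (Subgroup.mem_zpowers _) k)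
    have hodd : 2 ∣ p - 1 := by
      rcases hp.eq_two_or_odd with h | h
      · exact absurd h hp2
      · omega
    have hbW : (x₀ : Γ) ∈ Wsub p S (z₀ : Γ) hZO hodd := ⟨hbS, hbp, hbc⟩
    have hWL := Wsub_conj hZO hodd hOm hH.norm
    have hD : EData p S (Wsub p S (z₀ : Γ) hZO hodd) M (z₀ : Γ) :=
      ⟨hzS, hzc, hzp, hSM, hzfpf, fun w hw => hw.1, fun s hs w hw => hWL s (hH.SL hs) w hw,
        fun w hw => hw.2.1, fun w hw s hs => hw.2.2 s hs⟩
    obtain ⟨v, hv, hv0, hstab⟩ := Eprime hp hp2 hN (Nat.card S) S _ M _ le_rfl hD hM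
    refine ⟨v, hv, S ⊓ Subgroup.centralizer (Wsub p S (z₀ : Γ) hZO hodd : Set Γ), ?_, ?_, ?_⟩
    · intro x hx s hs
      rw [Subgroup.mem_inf, Subgroup.mem_centralizer_iff] at hs ⊢
      refine ⟨hH.norm x hx s hs.1, fun w hw => ?_⟩
      have hw' : x⁻¹ * w * x ∈ Wsub p S (z₀ : Γ) hZO hodd := by
        have := hWL x⁻¹ (L.inv_mem hx) w hw
        rwa [inv_inv] at this
      have h1 := hs.2 _ hw'
      calc w * (x * s * x⁻¹) = x * ((x⁻¹ * w * x) * s) * x⁻¹ := by group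
        _ = x * (s * (x⁻¹ * w * x)) * x⁻¹ := by rw [h1]
        _ = x * s * x⁻¹ * w := by group
    · intro hle
      apply hbz
      apply hOm
      refine ⟨hbS, hbp, fun s hs => ?_⟩
      have := (Subgroup.mem_centralizer_iff.mp (Subgroup.mem_inf.mp (hle hs)).2) _ hbW
      exact this.symm
    · intro s hs hsv
      rw [Subgroup.mem_inf, Subgroup.mem_centralizer_iff]
      exact ⟨hs, fun w hw => (hstab s hs hsv w hw).symm⟩

/-- The faithful core of the orbit theorem. -/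
theorem core [Finite N] {p : ℕ} (hp : p.Prime) (hp2 : p ≠ 2) (hN : ∀ m : N, p • m = 0 → m = 0)
    {L S : Subgroup Γ} {M : AddSubgroup N} (hH : Hyp p L S M)
    (hfaith : ∀ s ∈ S, (∀ m ∈ M, s • m = m) → s = 1)
    (IH : ∀ (L' S' : Subgroup Γ) (M' : AddSubgroup N), Hyp p L' S' M' →
      meas S' M' < Nat.card S + Nat.card M → Good L' S' M') : Good L S M := by
  haveI : Fact p.Prime := ⟨hp⟩
  have hSp : IsPGroup p S := by
    intro s
    obtain ⟨k, hk⟩ := hH.pg s s.2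
    refine ⟨k, Subtype.ext ?_⟩
    have := hfaith _ (S.pow_mem s.2 (p ^ k)) hk
    simpa using this
  have hS1 : S ≠ ⊥ := by
    obtain ⟨s, hs, m, hm, hsm⟩ := hH.nontriv
    intro h
    rw [h, Subgroup.mem_bot] at hs
    rw [hs, one_smul] at hsm
    exact hsm rfl
  have hZ1 := omZ_ne_bot hSp hS1
  have hZL := omZ_conj (p := p) hH.norm
  by_cases hF : fixOn (omZ p S) M = ⊥
  · by_cases hex : ∃ z ∈ omZ p S, z ≠ 1 ∧ ∃ m ∈ M, m ≠ 0 ∧ z • m = m
    · obtain ⟨z, hz, hz1, m, hm, hm0, hzm⟩ := hex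
      refine stepB1 hN hH hSp (omZ_le p S) (fun z hz s hs => hz.2.2 s hs) hZL hF
        (H₀ := Subgroup.zpowers z) (Subgroup.zpowers_le.mpr hz) ?_ ?_ IH
      · intro h
        have : z ∈ Subgroup.zpowers z := Subgroup.mem_zpowers z
        rw [h, Subgroup.mem_bot] at this
        exact hz1 this
      · intro h
        have : m ∈ fixOn (Subgroup.zpowers z) M := ⟨hm, fun g hg => smul_zpowers_fixed hzm hg⟩
        rw [h, AddSubgroup.mem_bot] at this
        exact hm0 this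
    · push_neg at hex
      exact stepB2 hp2 hN hH hSp (fun z hz hz1 m hm hzm => by
        by_contra hm0
        exact hex z hz hz1 m hm hm0 hzm)
  · exact stepA hN hH hfaith (omZ_le p S) (hSp.to_le (omZ_le p S)) hZ1 hZL hF IH

end stepB2

end Cfsg.Agent.Lib.Helper42.Wie
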