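import Mathlib
import Cfsg.Agent.Lib.Helper42.WieD

/-!
Helper42: the orbit theorem `Wie.main` (reduction to the faithful core by passing to the image
of `L` in the units of the endomorphism ring of `M`).
-/

set_option autoImplicit false

namespace Cfsg.Agent.Lib.Helper42.Wie

universe u

/-- **Orbit theorem.** `L` acts on the finite abelian group `N` without `p`-torsion, `p` odd,
`S ⊴ L` acts on the `L`-invariant subgroup `M` as a nontrivial `p`-group.  Then some `v ∈ M` has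
its stabilizer in `S` contained in an `L`-invariant subgroup `S'` not containing `S`. -/
theorem main {p : ℕ} (hp : p.Prime) (hp2 : p ≠ 2) :
    ∀ n : ℕ, ∀ (Γ N : Type u) [Group Γ] [Finite Γ] [AddCommGroup N] [Finite N]
      [DistribMulAction Γ N], (∀ m : N, p • m = 0 → m = 0) →
      ∀ (L S : Subgroup Γ) (M : AddSubgroup N), Hyp p L S M → meas S M ≤ n → Good L S M := by
  intro n
  induction n using Nat.strong_induction_on with
  | _ n ih =>
  intro Γ N _ _ _ _ _ hN L S M hH hn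
  letI act : DistribMulAction L M :=
    { smul := fun x m => ⟨(x : Γ) • (m : N), hH.inv x x.2 m m.2⟩
      one_smul := fun m => Subtype.ext (one_smul _ _)
      mul_smul := fun x y m => Subtype.ext (mul_smul _ _ _)
      smul_zero := fun x => Subtype.ext (smul_zero _)
      smul_add := fun x m m' => Subtype.ext (smul_add _ _ _) }
  have hact : ∀ (x : L) (m : M), ((x • m : M) : N) = (x : Γ) • (m : N) := fun _ _ => rfl
  haveI : Finite (AddMonoid.End M) :=
    Finite.of_injective (fun f => (f : M → M)) DFunLike.coe_injective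
  let ρ : L →* (AddMonoid.End M)ˣ :=
    (Units.map (DistribMulAction.toAddMonoidEnd L M)).comp (toUnits (G := L)).toMonoidHom
  have hρ : ∀ (x : L) (m : M), ρ x • m = x • m := fun _ _ => rfl
  let ρS : S →* (AddMonoid.End M)ˣ := ρ.comp (Subgroup.inclusion hH.SL)
  have hρS : ∀ (t : S) (m : M), ((ρS t • m : M) : N) = (t : Γ) • (m : N) := fun _ _ => rfl
  have hN' : ∀ m : M, p • m = 0 → m = 0 := by
    intro m h
    refine Subtype.ext (hN m ?_)
    have := congrArg Subtype.val h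
    simpa using this
  have hH' : Hyp p ρ.range ρS.range (⊤ : AddSubgroup M) := by
    refine ⟨?_, ?_, ?_, fun _ _ _ _ => AddSubgroup.mem_top _, ?_⟩
    · rintro _ ⟨t, rfl⟩
      exact ⟨_, rfl⟩
    · rintro _ ⟨l, rfl⟩ _ ⟨t, rfl⟩
      refine ⟨⟨(l : Γ) * t * (l : Γ)⁻¹, hH.norm l l.2 t t.2⟩, ?_⟩
      show ρ _ = ρ l * ρ _ * (ρ l)⁻¹
      rw [← map_inv, ← map_mul, ← map_mul]
      rfl
    · rintro _ ⟨t, rfl⟩
      obtain ⟨k, hk⟩ := hH.pg t t.2
      refine ⟨k, fun m _ => ?_⟩
      rw [← map_pow]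
      refine Subtype.ext ?_
      rw [hρS]
      simpa using hk m m.2
    · obtain ⟨s, hs, m, hm, hsm⟩ := hH.nontriv
      refine ⟨ρS ⟨s, hs⟩, ⟨⟨s, hs⟩, rfl⟩, ⟨m, hm⟩, AddSubgroup.mem_top _, ?_⟩
      intro h
      exact hsm (congrArg Subtype.val h)
  have hfaith : ∀ s' ∈ ρS.range, (∀ m ∈ (⊤ : AddSubgroup M), s' • m = m) → s' = 1 := by
    intro s' _ h
    refine Units.ext (AddMonoidHom.ext fun m => ?_)
    exact h m (AddSubgroup.mem_top _)
  have hkerS : ρS.ker = (kerOn S M).subgroupOf S := by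
    ext t
    rw [MonoidHom.mem_ker, Subgroup.mem_subgroupOf]
    constructor
    · intro h
      refine ⟨t.2, fun m hm => ?_⟩
      have h1 := hρS t ⟨m, hm⟩
      rw [h] at h1
      exact h1.symm
    · intro h
      refine Units.ext (AddMonoidHom.ext fun m => ?_)
      exact Subtype.ext (h.2 m m.2)
  have hcard : Nat.card ρS.range = (kerOn S M).relIndex S := by
    rw [← Subgroup.index_ker, hkerS]
    rfl
  have IH' : ∀ (L'' S'' : Subgroup (AddMonoid.End M)ˣ) (M'' : AddSubgroup M), Hyp p L'' S'' M'' →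
      meas S'' M'' < Nat.card ρS.range + Nat.card (⊤ : AddSubgroup M) → Good L'' S'' M'' := by
    intro L'' S'' M'' hH'' hlt
    refine ih (meas S'' M'') ?_ (AddMonoid.End M)ˣ M hN' L'' S'' M'' hH'' le_rfl
    rw [hcard, AddSubgroup.card_top] at hlt
    unfold meas at hn
    omega
  obtain ⟨v', -, S1', hn1, hn2, hn3⟩ := core hp hp2 hN' hH' hfaith IH'
  refine ⟨(v' : N), v'.2, (S1'.comap ρ).map L.subtype, ?_, ?_, ?_⟩
  · rintro x hx _ ⟨t, ht, rfl⟩
    refine ⟨⟨x, hx⟩ * t * ⟨x, hx⟩⁻¹, ?_, by simp⟩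
    rw [SetLike.mem_coe, Subgroup.mem_comap] at ht ⊢
    rw [map_mul, map_mul, map_inv]
    exact hn1 _ ⟨⟨x, hx⟩, rfl⟩ _ ht
  · intro hle
    apply hn2
    rintro _ ⟨t, rfl⟩
    obtain ⟨t', ht', he⟩ := hle t.2
    have h1 : t' = Subgroup.inclusion hH.SL t := Subtype.ext he
    rw [SetLike.mem_coe, Subgroup.mem_comap, h1] at ht'
    exact ht'
  · intro s hs hsv
    refine ⟨⟨s, hH.SL hs⟩, ?_, rfl⟩
    rw [SetLike.mem_coe, Subgroup.mem_comap]
    apply hn3 _ ⟨⟨s, hs⟩, rfl⟩
    exact Subtype.ext hsv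

end Cfsg.Agent.Lib.Helper42.Wie
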