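import Mathlib
import Cfsg.Prelude.Def_CaseTheorems
import Cfsg.Agent.Lib.Helper42.WieM
import Cfsg.Agent.Lib.Helper84.PCoreBasic
import Cfsg.Agent.Lib.Helper31.Faithful

/-!
Helper42: a Wielandt-type criterion for odd `p` in solvable groups.  If `A` is a `p`-subgroup of
the finite solvable group `G`, `p` odd, and every conjugacy class of `G` contains an element `g`
with `⟨A, A^g⟩` a `p`-group, then `A ≤ O_p(G)`.
-/

set_option autoImplicit false

namespace Cfsg.Agent.Lib.Helper42.Wie

open Cfsg
open scoped Pointwise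
open scoped IsMulCommutative
open scoped commutatorElement

universe u

/-- The orbit theorem for an action by automorphisms on a finite abelian group written
multiplicatively. -/
theorem orbit_mul {p : ℕ} (hp : p.Prime) (hp2 : p ≠ 2) {Γ H : Type u} [Group Γ] [Finite Γ]
    [CommGroup H] [Finite H] (φ : Γ →* MulAut H) (hH : ∀ h : H, h ^ p = 1 → h = 1)
    (S : Subgroup Γ) [hS : S.Normal]
    (hpg : ∀ s ∈ S, ∃ k : ℕ, ∀ h : H, φ (s ^ (p ^ k)) h = h)
    (hnt : ∃ s ∈ S, ∃ h : H, φ s h ≠ h) :
    ∃ v : H, ∃ S' : Subgroup Γ, S'.Normal ∧ ¬ S ≤ S' ∧ ∀ s ∈ S, φ s v = v → s ∈ S' := by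
  letI act : DistribMulAction Γ (Additive H) :=
    { smul := fun g a => Additive.ofMul (φ g (Additive.toMul a))
      one_smul := fun a => by
        show Additive.ofMul (φ 1 (Additive.toMul a)) = a
        rw [map_one]; rfl
      mul_smul := fun g g' a => by
        show Additive.ofMul (φ (g * g') (Additive.toMul a)) =
          Additive.ofMul (φ g (Additive.toMul (Additive.ofMul (φ g' (Additive.toMul a)))))
        rw [map_mul]; rfl
      smul_zero := fun g => by
        show Additive.ofMul (φ g (Additive.toMul 0)) = 0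
        rw [toMul_zero, map_one]; rfl
      smul_add := fun g a b => by
        show Additive.ofMul (φ g (Additive.toMul (a + b))) =
          Additive.ofMul (φ g (Additive.toMul a)) + Additive.ofMul (φ g (Additive.toMul b))
        rw [toMul_add, map_mul]; rfl }
  have hact : ∀ (g : Γ) (a : Additive H), g • a = Additive.ofMul (φ g (Additive.toMul a)) :=
    fun _ _ => rfl
  have hN : ∀ m : Additive H, p • m = 0 → m = 0 := by
    intro m hm
    have h1 : (Additive.toMul m) ^ p = 1 := by
      have := congrArg Additive.toMul hm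
      simpa using this
    exact Additive.toMul.injective (hH _ h1)
  have hHyp : Hyp p (⊤ : Subgroup Γ) S (⊤ : AddSubgroup (Additive H)) := by
    refine ⟨le_top, fun x _ s hs => hS.conj_mem s hs x, ?_, fun _ _ _ _ => AddSubgroup.mem_top _,
      ?_⟩
    · intro s hs
      obtain ⟨k, hk⟩ := hpg s hs
      exact ⟨k, fun m _ => by rw [hact, hk]; rfl⟩
    · obtain ⟨s, hs, h, hne⟩ := hnt
      refine ⟨s, hs, Additive.ofMul h, AddSubgroup.mem_top _, fun e => hne ?_⟩
      rw [hact] at e
      exact Additive.ofMul.injective e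
  obtain ⟨v, -, S', h1, h2, h3⟩ := main hp hp2 _ Γ (Additive H) hN ⊤ S ⊤ hHyp le_rfl
  refine ⟨Additive.toMul v, S', ⟨fun s hs x => h1 x (Subgroup.mem_top x) s hs⟩, h2,
    fun s hs hsv => h3 s hs ?_⟩
  rw [hact, hsv]; rfl

/-- A nontrivial solvable group has a nontrivial abelian normal subgroup. -/
theorem exists_normal_abelian {G : Type*} [Group G] [Nontrivial G] (hG : Group.IsSolvable G) :
    ∃ N : Subgroup G, N.Normal ∧ N ≠ ⊥ ∧ ∀ x ∈ N, ∀ y ∈ N, x * y = y * x := by
  classical
  have hex : ∃ n, derivedSeries G n = ⊥ := hG.solvable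
  have hn₀ : derivedSeries G (Nat.find hex) = ⊥ := Nat.find_spec hex
  have hpos : Nat.find hex ≠ 0 := by
    intro h0
    rw [h0, derivedSeries_zero] at hn₀
    exact top_ne_bot hn₀
  obtain ⟨k, hk⟩ := Nat.exists_eq_succ_of_ne_zero hpos
  refine ⟨derivedSeries G k, derivedSeries_normal G k, ?_, ?_⟩
  · intro h
    have : Nat.find hex ≤ k := Nat.find_min' hex h
    omega
  · intro x hx y hy
    have h1 : ⁅x, y⁆ ∈ derivedSeries G (k + 1) := by
      rw [derivedSeries_succ]
      exact Subgroup.commutator_mem_commutator hx hy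
    rw [← Nat.succ_eq_add_one, ← hk, hn₀, Subgroup.mem_bot] at h1
    exact commutatorElement_eq_one_iff_mul_comm.mp h1

/-- If `A` is subnormal in `⟨A, B⟩` and `A`, `B` are `p`-groups then `⟨A, B⟩` is a `p`-group. -/
theorem isPGroup_sup_of_subnormal {G : Type*} [Group G] {p : ℕ} [Fact p.Prime] {A B : Subgroup G}
    (hA : IsPGroup p A) (hB : IsPGroup p B) (h : (A.subgroupOf (A ⊔ B)).IsSubnormal) :
    IsPGroup p ↥(A ⊔ B) := by
  have hA' : IsPGroup p (A.subgroupOf (A ⊔ B)) := hA.comap_subtype
  have hB' : IsPGroup p (B.subgroupOf (A ⊔ B)) := hB.comap_subtype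
  have h1 : A.subgroupOf (A ⊔ B) ≤ pCore p ↥(A ⊔ B) :=
    Cfsg.Agent.Lib.Helper31.le_pCore_of_subnormal h (le_refl _) Subgroup.le_normalizer hA'
  have h2 : IsPGroup p ↥(pCore p ↥(A ⊔ B) ⊔ B.subgroupOf (A ⊔ B)) :=
    (Cfsg.Agent.Lib.Helper84.pCore_isPGroup p _).to_sup_of_normal_left hB'
  have h3 : (⊤ : Subgroup ↥(A ⊔ B)) ≤ pCore p ↥(A ⊔ B) ⊔ B.subgroupOf (A ⊔ B) := by
    have e : A.subgroupOf (A ⊔ B) ⊔ B.subgroupOf (A ⊔ B) = ⊤ := by
      rw [← Subgroup.subgroupOf_sup le_sup_left le_sup_right, Subgroup.subgroupOf_self]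
    rw [← e]
    exact sup_le_sup_right h1 _
  intro d
  obtain ⟨k, hk⟩ := h2 ⟨d, h3 (Subgroup.mem_top d)⟩
  refine ⟨k, ?_⟩
  have := congrArg Subtype.val hk
  simpa using this

theorem map_conj_smul {G K : Type*} [Group G] [Group K] (π : G →* K) (g : G) (A : Subgroup G) :
    MulAut.conj (π g) • A.map π = (MulAut.conj g • A).map π := by
  ext x
  constructor
  · intro hx
    obtain ⟨s, hs, rfl⟩ := (Subgroup.mem_smul_pointwise_iff_exists _ _ _).mp hx
    obtain ⟨a, ha, rfl⟩ := hs
    refine ⟨g * a * g⁻¹, (Subgroup.mem_smul_pointwise_iff_exists _ _ _).mpr ⟨a, ha, ?_⟩, ?_⟩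
    · rw [MulAut.smul_def, MulAut.conj_apply]
    · rw [MulAut.smul_def, MulAut.conj_apply, map_mul, map_mul, map_inv]
  · rintro ⟨y, hy, rfl⟩
    obtain ⟨a, ha, rfl⟩ := (Subgroup.mem_smul_pointwise_iff_exists _ _ _).mp hy
    refine (Subgroup.mem_smul_pointwise_iff_exists _ _ _).mpr ⟨π a, ⟨a, ha, rfl⟩, ?_⟩
    rw [MulAut.smul_def, MulAut.conj_apply, MulAut.smul_def, MulAut.conj_apply, map_mul, map_mul,
      map_inv]

/-- Main induction. -/
theorem pgroup_le_pCore_aux {p : ℕ} [hpF : Fact p.Prime] (hp2 : p ≠ 2) :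
    ∀ n : ℕ, ∀ (G : Type u) [Group G] [Finite G], Nat.card G ≤ n → Group.IsSolvable G →
      ∀ A : Subgroup G, IsPGroup p A →
      (∀ c : G, ∃ g : G, IsConj c g ∧ IsPGroup p ↥(A ⊔ MulAut.conj g • A)) → A ≤ pCore p G := by
  intro n
  induction n with
  | zero =>
    intro G _ _ hn
    exfalso
    have := Nat.card_pos (α := G)
    omega
  | succ n ih =>
    intro G _ _ hn hG A hA h
    have hp : p.Prime := hpF.out
    have hquot : ∀ (K : Subgroup G) [K.Normal], K ≠ ⊥ →
        A.map (QuotientGroup.mk' K) ≤ pCore p (G ⧸ K) := by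
      intro K _ hK
      have hcard : Nat.card (G ⧸ K) ≤ n := by
        have h1 := Subgroup.card_mul_index K
        rw [Subgroup.index_eq_card] at h1
        have h2 : 1 < Nat.card K := (Subgroup.one_lt_card_iff_ne_bot K).mpr hK
        have h3 : 0 < Nat.card (G ⧸ K) := Nat.card_pos
        nlinarith
      haveI := hG
      refine ih (G ⧸ K) hcard inferInstance _ (hA.map _) ?_
      intro c
      obtain ⟨c, rfl⟩ := QuotientGroup.mk'_surjective K c
      obtain ⟨g, hcg, hg⟩ := h c
      refine ⟨QuotientGroup.mk' K g, (QuotientGroup.mk' K).map_isConj hcg, ?_⟩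
      rw [map_conj_smul, ← Subgroup.map_sup]
      exact hg.map _
    by_cases hO : pCore p G = ⊥
    swap
    · have h1 := hquot (pCore p G) hO
      have h2 : A ≤ (pCore p (G ⧸ pCore p G)).comap (QuotientGroup.mk' (pCore p G)) :=
        Subgroup.map_le_iff_le_comap.mp h1
      refine h2.trans (Cfsg.Agent.Lib.Helper84.le_pCore inferInstance ?_)
      apply (Cfsg.Agent.Lib.Helper84.pCore_isPGroup p _).comap_of_ker_isPGroup
      rw [QuotientGroup.ker_mk']
      exact Cfsg.Agent.Lib.Helper84.pCore_isPGroup p G
    · rw [hO]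
      by_contra hAne
      have hA1 : A ≠ ⊥ := fun h => hAne (h ▸ le_refl _)
      haveI : Nontrivial G := by
        by_contra hnt
        rw [not_nontrivial_iff_subsingleton] at hnt
        exact hA1 (Subsingleton.elim _ _)
      have hnp : ∀ T : Subgroup G, T.Normal → IsPGroup p T → T = ⊥ := fun T hT hTp =>
        le_bot_iff.mp (hO ▸ Cfsg.Agent.Lib.Helper84.le_pCore hT hTp)
      obtain ⟨N, hNn, hN1, hNab⟩ := exists_normal_abelian hG
      -- no `p`-torsion in `N`
      have hNp : ∀ x ∈ N, x ^ p = 1 → x = 1 := by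
        let T : Subgroup G :=
          { carrier := {x | x ∈ N ∧ x ^ p = 1}
            one_mem' := ⟨N.one_mem, one_pow p⟩
            mul_mem' := fun {a b} ha hb => ⟨N.mul_mem ha.1 hb.1, by
              rw [(show Commute a b from hNab _ ha.1 _ hb.1).mul_pow, ha.2, hb.2, one_mul]⟩
            inv_mem' := fun {a} ha => ⟨N.inv_mem ha.1, by rw [inv_pow, ha.2, inv_one]⟩ }
        have hTn : T.Normal :=
          ⟨fun x hx g => ⟨hNn.conj_mem x hx.1 g, by rw [conj_pow, hx.2, mul_one, mul_inv_cancel]⟩⟩
        have hTp : IsPGroup p T := fun t => ⟨1, Subtype.ext (by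
          have := t.2.2
          simpa using this)⟩
        have hT := hnp T hTn hTp
        intro x hx hxp
        have : x ∈ T := ⟨hx, hxp⟩
        rw [hT, Subgroup.mem_bot] at this
        exact this
      have hNpk : ∀ k : ℕ, ∀ x ∈ N, x ^ (p ^ k) = 1 → x = 1 := by
        intro k
        induction k with
        | zero => intro x _ hx; simpa using hx
        | succ k ihk =>
          intro x hx hxp
          apply ihk x hx
          apply hNp _ (N.pow_mem hx _)
          rw [← pow_mul, ← pow_succ]
          exact hxp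
      -- induction on `G ⧸ N`
      have hAN := hquot N hN1
      have hAP : A ≤ (pCore p (G ⧸ N)).comap (QuotientGroup.mk' N) :=
        Subgroup.map_le_iff_le_comap.mp hAN
      have hPk : ∀ x ∈ (pCore p (G ⧸ N)).comap (QuotientGroup.mk' N), ∃ k : ℕ, x ^ (p ^ k) ∈ N := by
        intro x hx
        obtain ⟨k, hk⟩ := (Cfsg.Agent.Lib.Helper84.pCore_isPGroup p (G ⧸ N)) ⟨QuotientGroup.mk' N x, hx⟩
        refine ⟨k, ?_⟩
        have h1 : QuotientGroup.mk' N (x ^ (p ^ k)) = 1 := by
          rw [map_pow]
          have := congrArg Subtype.val hk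
          simpa using this
        rwa [← MonoidHom.mem_ker, QuotientGroup.ker_mk'] at h1
      by_cases hcen : ∀ a ∈ A, ∀ n ∈ N, a * n = n * a
      · -- `A` centralizes `N`
        have hCn : ((pCore p (G ⧸ N)).comap (QuotientGroup.mk' N) ⊓
            Subgroup.centralizer (N : Set G)).Normal := inferInstance
        have hAC : A ≤ (pCore p (G ⧸ N)).comap (QuotientGroup.mk' N) ⊓
            Subgroup.centralizer (N : Set G) := by
          intro a ha
          refine Subgroup.mem_inf.mpr ⟨hAP ha, Subgroup.mem_centralizer_iff.mpr fun n hn => ?_⟩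
          exact (hcen a ha n hn).symm
        generalize hCdef : (pCore p (G ⧸ N)).comap (QuotientGroup.mk' N) ⊓
            Subgroup.centralizer (N : Set G) = C at hCn hAC
        have hCP : C ≤ (pCore p (G ⧸ N)).comap (QuotientGroup.mk' N) := by
          rw [← hCdef]; exact inf_le_left
        have hCcen : C ≤ Subgroup.centralizer (N : Set G) := by
          rw [← hCdef]; exact inf_le_right
        have hker : ((QuotientGroup.mk' N).comp C.subtype).ker ≤ Subgroup.center C := by
          intro x hx
          rw [MonoidHom.mem_ker, MonoidHom.comp_apply, ← MonoidHom.mem_ker,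
            QuotientGroup.ker_mk'] at hx
          rw [Subgroup.mem_center_iff]
          intro y
          have := Subgroup.mem_centralizer_iff.mp (hCcen y.2) _ hx
          exact Subtype.ext this.symm
        have hrange : IsPGroup p ((QuotientGroup.mk' N).comp C.subtype).range := by
          refine (Cfsg.Agent.Lib.Helper84.pCore_isPGroup p (G ⧸ N)).to_le ?_
          rintro _ ⟨x, rfl⟩
          exact hCP x.2
        haveI : Group.IsNilpotent ((QuotientGroup.mk' N).comp C.subtype).range :=
          IsPGroup.isNilpotent hrange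
        haveI : Group.IsNilpotent C :=
          Subgroup.isNilpotent_of_ker_le_center ((QuotientGroup.mk' N).comp C.subtype).rangeRestrict
            (by rw [MonoidHom.ker_rangeRestrict]; exact hker)
        obtain ⟨Sy, hSy⟩ := (hA.comap_subtype (K := C)).exists_le_sylow
        have hSyn : (Sy : Subgroup C).Normal :=
          Sylow.normal_of_normalizerCondition Group.normalizerCondition_of_isNilpotent Sy
        haveI : (Sy : Subgroup C).Characteristic := Sylow.characteristic_of_normal Sy hSyn
        haveI := hCn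
        have hTn : ((Sy : Subgroup C).map C.subtype).Normal :=
          ConjAct.normal_of_characteristic_of_normal
        have hTp : IsPGroup p ((Sy : Subgroup C).map C.subtype) := Sy.isPGroup'.map _
        have hT := hnp _ hTn hTp
        apply hA1
        rw [Subgroup.eq_bot_iff_forall]
        intro a ha
        have h1 : (⟨a, hAC ha⟩ : C) ∈ (Sy : Subgroup C) := hSy ha
        have h2 : a ∈ (Sy : Subgroup C).map C.subtype := ⟨⟨a, hAC ha⟩, h1, rfl⟩
        rw [hT, Subgroup.mem_bot] at h2
        exact h2
      · -- some `a ∈ A` does not centralize `N`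
        push_neg at hcen
        obtain ⟨a, ha, n₀, hn₀, han⟩ := hcen
        have hSP : Subgroup.normalClosure {a} ≤ (pCore p (G ⧸ N)).comap (QuotientGroup.mk' N) :=
          Subgroup.normalClosure_le_normal (Set.singleton_subset_iff.mpr (hAP ha))
        have haS : a ∈ Subgroup.normalClosure {a} :=
          Subgroup.subset_normalClosure (Set.mem_singleton a)
        haveI : IsMulCommutative N := ⟨⟨fun x y => Subtype.ext (hNab _ x.2 _ y.2)⟩⟩
        haveI := hNn
        have hconj : ∀ (t : G) (h : N), ((MulAut.conjNormal (H := N) t h : N) : G) = t * h * t⁻¹ :=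
          fun t h => MulAut.conjNormal_apply t h
        obtain ⟨v, S', hS'n, hS'S, hstab⟩ := orbit_mul hp hp2 (MulAut.conjNormal (H := N))
          (fun h hh => Subtype.ext (hNp h h.2 (by
            have := congrArg Subtype.val hh
            simpa using this)))
          (Subgroup.normalClosure {a})
          (by
            intro s hs
            obtain ⟨k, hk⟩ := hPk s (hSP hs)
            refine ⟨k, fun h => Subtype.ext ?_⟩
            rw [hconj, hNab _ hk _ h.2, mul_inv_cancel_right])
          ⟨a, haS, ⟨n₀, hn₀⟩, fun e => han (by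
            have h1 := congrArg Subtype.val e
            rw [hconj] at h1
            exact mul_inv_eq_iff_eq_mul.mp h1)⟩
        obtain ⟨g, hvg, hg⟩ := h (v : G)
        obtain ⟨x, hx⟩ := isConj_iff.mp hvg
        have hgN : g ∈ N := by
          rw [← hx]
          exact hNn.conj_mem _ v.2 x
        -- `a` commutes with `g`
        have hag : g * a * g⁻¹ = a := by
          have he1 : a⁻¹ * (g * a * g⁻¹) ∈ A ⊔ MulAut.conj g • A := by
            refine Subgroup.mul_mem _ (Subgroup.inv_mem _ (Subgroup.mem_sup_left ha))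
              (Subgroup.mem_sup_right ?_)
            have := Subgroup.smul_mem_pointwise_smul a (MulAut.conj g) A ha
            rwa [MulAut.smul_def, MulAut.conj_apply] at this
          obtain ⟨k, hk⟩ := hg ⟨_, he1⟩
          have hk' : (a⁻¹ * (g * a * g⁻¹)) ^ (p ^ k) = 1 := by
            have := congrArg Subtype.val hk
            simpa using this
          have he2 : a⁻¹ * (g * a * g⁻¹) ∈ N := by
            have h1 : a⁻¹ * g * a ∈ N := by
              have := hNn.conj_mem g hgN a⁻¹
              rwa [inv_inv] at this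
            have h2 : a⁻¹ * (g * a * g⁻¹) = (a⁻¹ * g * a) * g⁻¹ := by group
            rw [h2]
            exact N.mul_mem h1 (N.inv_mem hgN)
          have he3 := hNpk k _ he2 hk'
          exact (inv_mul_eq_one.mp he3).symm
        -- so `x⁻¹ a x` commutes with `v`
        have hSn : (Subgroup.normalClosure {a}).Normal := Subgroup.normalClosure_normal
        have htS : x⁻¹ * a * x ∈ Subgroup.normalClosure {a} := by
          have := hSn.conj_mem a haS x⁻¹
          rwa [inv_inv] at this
        have htv : MulAut.conjNormal (H := N) (x⁻¹ * a * x) v = v := by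
          refine Subtype.ext ?_
          rw [hconj]
          have h1 : (v : G) = x⁻¹ * g * x := by rw [← hx]; group
          rw [h1]
          have h2 : x⁻¹ * a * x * (x⁻¹ * g * x) * (x⁻¹ * a * x)⁻¹ = x⁻¹ * (a * g * a⁻¹) * x := by
            group
          have h3 : a * g * a⁻¹ = g := by
            have h4 : g * a = a * g := mul_inv_eq_iff_eq_mul.mp hag
            rw [← h4, mul_inv_cancel_right]
          rw [h2, h3]
        have h5 := hstab _ htS htv
        have h6 : a ∈ S' := by
          have := hS'n.conj_mem _ h5 x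
          have e : x * (x⁻¹ * a * x) * x⁻¹ = a := by group
          rwa [e] at this
        haveI := hS'n
        exact hS'S (Subgroup.normalClosure_le_normal (Set.singleton_subset_iff.mpr h6))

/-- **Wielandt-type criterion, odd `p`, solvable groups.** -/
theorem pgroup_le_pCore_of_subnormal_conj {G : Type u} [Group G] [Finite G]
    (hG : Group.IsSolvable G) (p : ℕ) [Fact p.Prime] (hp : p ≠ 2) (A : Subgroup G)
    (hA : IsPGroup p A)
    (h : ∀ c : G, ∃ g : G, IsConj c g ∧ (A.subgroupOf (A ⊔ MulAut.conj g • A)).IsSubnormal) :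
    A ≤ pCore p G := by
  refine pgroup_le_pCore_aux hp _ G le_rfl hG A hA ?_
  intro c
  obtain ⟨g, hcg, hg⟩ := h c
  refine ⟨g, hcg, isPGroup_sup_of_subnormal hA ?_ hg⟩
  rw [Subgroup.pointwise_smul_def]
  exact hA.map _

end Cfsg.Agent.Lib.Helper42.Wie
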